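import Cfsg.Agent.H11.CyLp

/-! Project CY, chapter LP: piece NE. -/

set_option autoImplicit false

namespace Cfsg.Agent.H30.CyLpNe

open Subgroup MulAction Cfsg.Agent.H11.Cy Cfsg.Agent.H11.Cy.Lp
open Cfsg.Agent.H11.EL (Nm Ct C1 cj Ex)

section
variable {G : Type} [Group G] [Finite G] {Ω : Type} [Finite Ω] [MulAction G Ω] {p : ℕ}
  {A : Ω → Subgroup G}

omit [Finite G] in
theorem ex_pow {g : G} {B : Subgroup G} {i : ℤ} (h : Ex g B i) (n : ℕ) : Ex (g ^ n) B (i ^ n) := by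
  induction n with
  | zero => intro a _; simp
  | succ n ih =>
    intro a ha
    rw [pow_succ', pow_succ']
    calc g * g ^ n * a * (g * g ^ n)⁻¹ = g * (g ^ n * a * (g ^ n)⁻¹) * g⁻¹ := by group
      _ = a ^ (i * i ^ n) := by rw [ih a ha, ← conj_zpow, h a ha, ← zpow_mul]

theorem zp {B : Subgroup G} (hp : p.Prime) (hB : Nat.card B = p) {a : G} (ha : a ∈ B) (h1 : a ≠ 1) :
    zpowers a = B := by
  have h2 : orderOf a ∣ p := hB ▸ orderOf_dvd_natCard B ha
  refine eq_of_le_of_card_ge (zpowers_le.2 ha) ?_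
  rw [hB, Nat.card_zpowers]
  rcases (Nat.dvd_prime hp).1 h2 with e | e
  · exact absurd (orderOf_eq_one_iff.1 e) h1
  · exact e.ge

omit [Finite G] [Finite Ω] in
theorem nm_eq (l : L2 p A) (u : Ω) : Nm (A u) = stabilizer G u := by
  ext g; exact l.mc.ep.nA u g

theorem sup_top (h : St p A) (l : L2 p A) (he : Even (Nat.card Ω)) {u v : Ω} (huv : u ≠ v) :
    (Hs G u v).subgroupOf (Nm (A u)) ⊔ (Ct (A u)).subgroupOf (Nm (A u)) = ⊤ := by
  haveI : Fact p.Prime := ⟨h.pp⟩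
  have hc := h.card u
  haveI : IsCyclic (A u) := isCyclic_of_prime_card hc
  obtain ⟨f, s, hf⟩ := l.lc u v huv
  have h10 : Nat.card (MulAut (A u)) = 2 * orderOf f := by
    rw [IsCyclic.card_mulAut, hc, Nat.totient_prime h.pp]
    have := hf.fo
    omega
  have hle : Hs G u v ≤ Nm (A u) := by rw [nm_eq l]; exact inf_le_left
  let φ := (A u).normalizerMonoidHom
  have hker : φ.ker = (Ct (A u)).subgroupOf (Nm (A u)) := (A u).normalizerMonoidHom_ker
  let T : Subgroup (Nm (A u)) := (Hs G u v).subgroupOf (Nm (A u))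
  have hT : T.index = Nat.card Ω - 1 := by
    have h1 := T.index_mul_card
    have h2 : Nat.card (Nm (A u)) = (Nat.card Ω - 1) * Nat.card (Hs G u v) := by
      rw [nm_eq l]; exact l.cH u v huv
    rw [h2, Nat.card_congr (subgroupOfEquivOfLe hle).toEquiv] at h1
    exact Nat.eq_of_mul_eq_mul_right Nat.card_pos h1
  have hf5 : orderOf f ∣ orderOf (φ ⟨f, hle hf.fH⟩) := by
    obtain ⟨i, hi, hi'⟩ := hf.fe
    rw [← hi']
    set n := orderOf (φ ⟨f, hle hf.fH⟩)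
    have h1 : (⟨f, hle hf.fH⟩ : Nm (A u)) ^ n ∈ φ.ker := by
      rw [MonoidHom.mem_ker, map_pow, pow_orderOf_eq_one]
    rw [hker] at h1
    replace h1 : f ^ n ∈ Ct (A u) := h1
    obtain ⟨a, ha⟩ := exists_prime_orderOf_dvd_card' (G := A u) p (by rw [hc])
    have h3 := ex_pow hi n a a.2
    rw [← h1 a a.2, mul_inv_cancel_right] at h3
    have h4 : (a : G) ^ (i ^ n - 1) = 1 := by rw [zpow_sub, ← h3]; simp
    rw [← orderOf_dvd_iff_zpow_eq_one, orderOf_coe, ha] at h4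
    exact h4
  have h5 : orderOf f ∣ Nat.card (T.map φ) :=
    hf5.trans (orderOf_dvd_natCard _ (mem_map_of_mem φ
      (show (⟨f, hle hf.fH⟩ : Nm (A u)) ∈ T from hf.fH)))
  have h2 : (T.map φ).index ∣ 2 := by
    have h1 := (T.map φ).index_mul_card
    obtain ⟨k, hk⟩ := h5
    rw [h10, hk] at h1
    refine ⟨k, Nat.eq_of_mul_eq_mul_right (orderOf_pos f) ?_⟩
    rw [← h1]; ring
  rw [index_map] at h2
  have h3 : (T ⊔ φ.ker).index ∣ 2 := (Dvd.intro _ rfl).trans h2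
  have h4 : (T ⊔ φ.ker).index ∣ Nat.card Ω - 1 := hT ▸ index_dvd_of_le le_sup_left
  have h12 : 0 < Nat.card Ω := by
    haveI : Nonempty Ω := ⟨u⟩
    exact Nat.card_pos
  rw [← hker, ← index_eq_one]
  rcases (Nat.dvd_prime Nat.prime_two).1 h3 with h6 | h6
  · exact h6
  · rw [h6] at h4
    obtain ⟨k, hk⟩ := he
    omega

theorem ctr (h : St p A) (l : L2 p A) (he : Even (Nat.card Ω)) (u v w : Ω) (hv : v ≠ u) (hw : w ≠ u) :
    ∃ c ∈ Ct (A u), c • v = w := by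
  obtain ⟨g, -, hg1, hg2⟩ := h.two u trivial v trivial u trivial w trivial hv.symm hw.symm
  have h1 := sup_top h l he hv.symm
  haveI : ((Ct (A u)).subgroupOf (Nm (A u))).Normal :=
    (A u).normalizerMonoidHom_ker ▸ MonoidHom.normal_ker _
  have h2 : (⟨g, (l.mc.ep.nA u g).2 hg1⟩ : Nm (A u)) ∈
      (Ct (A u)).subgroupOf (Nm (A u)) ⊔ (Hs G u v).subgroupOf (Nm (A u)) := by
    rw [sup_comm, h1]; trivial
  obtain ⟨c, hc, t, ht, hct⟩ := mem_sup_of_normal_left.1 h2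
  refine ⟨c, hc, ?_⟩
  have h3 : (c : G) * t = g := congrArg Subtype.val hct
  rw [← hg2, ← h3, mul_smul, show (t : G) • v = v from ht.2]

omit [Finite G] [Finite Ω] in
theorem k_le (l : L2 p A) {u v : Ω} (huv : u ≠ v) {k : G} (hk : k ∈ Kl A u v) :
    k ∈ Ct (A u) ∧ k • u = u ∧ k • v = v :=
  ⟨centralizer_le (SetLike.coe_subset_coe.2 le_sup_left) hk,
    (l.mc.ep.kfix u v huv k).1 hk u (l.la u v huv).mx, (l.mc.ep.kfix u v huv k).1 hk v (l.la u v huv).my⟩

theorem cC (h : St p A) (l : L2 p A) (he : Even (Nat.card Ω)) (u v : Ω) (huv : u ≠ v) :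
    Nat.card (Ct (A u)) = (Nat.card Ω - 1) * Nat.card (Kl A u v) := by
  have h1 := sup_top h l he huv
  have hle : Hs G u v ≤ Nm (A u) := by rw [nm_eq l]; exact inf_le_left
  haveI : ((Ct (A u)).subgroupOf (Nm (A u))).Normal :=
    (A u).normalizerMonoidHom_ker ▸ MonoidHom.normal_ker _
  have h2 := relIndex_sup_right ((Hs G u v).subgroupOf (Nm (A u))) ((Ct (A u)).subgroupOf (Nm (A u)))
  rw [h1, relIndex_top_right, relIndex_subgroupOf hle] at h2
  have h3 := ((Ct (A u)).subgroupOf (Nm (A u))).index_mul_card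
  have h0 : Nat.card (Nm (A u)) = (Nat.card Ω - 1) * Nat.card (Hs G u v) := by
    rw [nm_eq l]; exact l.cH u v huv
  rw [Nat.card_congr (subgroupOfEquivOfLe (centralizer_le_normalizer (A u : Set G))).toEquiv,
    h0, h2] at h3
  have h4 := ((Ct (A u)).subgroupOf (Hs G u v)).index_mul_card
  have h5 : Ct (A u) ⊓ Hs G u v = Kl A u v := by
    apply le_antisymm
    · exact fun g hg => l.mc.ep.eps u v huv g hg.2 hg.1
    · exact fun g hg => ⟨(k_le l huv hg).1, (k_le l huv hg).2⟩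
  have h6 : Nat.card ((Ct (A u)).subgroupOf (Hs G u v)) = Nat.card (Kl A u v) := by
    rw [← inf_subgroupOf_right, Nat.card_congr (subgroupOfEquivOfLe inf_le_right).toEquiv, h5]
  rw [h6] at h4
  rw [← h4] at h3
  have h7 : 0 < (Ct (A u)).relIndex (Hs G u v) := Nat.pos_of_ne_zero index_ne_zero_of_finite
  apply Nat.eq_of_mul_eq_mul_left h7
  rw [h3, relIndex]
  ring

omit [Finite G] [Finite Ω] in
theorem ti' (l : L2 p A) (p7 : 7 ≤ p) (u v u' v' : Ω) (huv : u ≠ v) (huv' : u' ≠ v') (k : G)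
    (hk : k ∈ Kl A u v) (h1 : k ≠ 1) (hk' : k ∈ Kl A u' v') : Fl A u v = Fl A u' v' :=
  (l.mc.ep.span u v huv u' (l.ti p7 u v huv k hk h1 u' (k_le l huv' hk').2.1) v'
    (l.ti p7 u v huv k hk h1 v' (k_le l huv' hk').2.2) huv').symm

omit [Finite G] in
theorem tiN (l : L2 p A) (p7 : 7 ≤ p) (u v : Ω) (huv : u ≠ v) (k : G) (hk : k ∈ Kl A u v)
    (h1 : k ≠ 1) (g : G) (hg : g * k * g⁻¹ ∈ Kl A u v) : g ∈ Nm (Fl A u v) := by
  rw [l.mc.ep.nrm u v huv]
  intro z hz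
  refine l.ti p7 u v huv _ hg (by simpa using h1) _ ?_
  rw [mul_smul, mul_smul, inv_smul_smul, (l.mc.ep.kfix u v huv k).1 hk z hz]

theorem mix (h : St p A) (l : L2 p A) (p7 : 7 ≤ p) (u v w : Ω) (huv : u ≠ v) (h2 : w ∉ Ln A u v)
    (k : G) (hk : k ∈ Kl A u v) (hk1 : k ≠ 1) (hL : k ∈ Nm (Fl A u w)) :
    orderOf k = p ∧ (∃ a ∈ A u, a ≠ 1 ∧ k * a ≠ 1 ∧ k * a ∈ Kl A u w) ∧
      ∀ c ∈ Kl A u v, Commute c k → c ∈ zpowers k := by
  have : Fact p.Prime := ⟨h.pp⟩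
  have hne : u ≠ w := fun e => h2 (e ▸ (l.la u v huv).mx)
  have htr : ∀ x ∈ Kl A u v, x ∈ Kl A u w → x = 1 := fun x hx hx' => by_contra fun hx1 =>
    h2 (l.ti p7 u v huv x hx hx1 w (k_le l hne hx').2.2)
  have lt := l.la u w hne
  obtain ⟨k', hk', a, ha, rfl⟩ := lt.CM k (k_le l huv hk).1 hL
  have ha1 : a ≠ 1 := fun e => hk1 (htr _ hk (by rwa [e, mul_one]))
  have hk'1 : k' ≠ 1 := fun e => hk1 ((l.la u v huv).ctr _
    (by rw [e, one_mul]; exact mem_sup_left ha) hk)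
  have hc : Commute k' a := (hk' a (mem_sup_left ha : a ∈ A u ⊔ A w)).symm
  have ha11 : a ^ p = 1 := by
    have := orderOf_dvd_natCard (A u) ha
    rw [h.card u] at this
    exact orderOf_dvd_iff_pow_eq_one.1 this
  refine ⟨orderOf_eq_prime (htr _ (pow_mem hk p) ?_) hk1,
    ⟨a⁻¹, inv_mem ha, inv_ne_one.2 ha1, by rwa [mul_inv_cancel_right],
      by rwa [mul_inv_cancel_right]⟩, fun c hcL hck => ?_⟩
  · rw [hc.mul_pow, ha11, mul_one]; exact pow_mem hk' p
  · have h3 : Commute c a := (hcL a (mem_sup_left ha : a ∈ A u ⊔ A v)).symm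
    have h4 : Commute c k' := by simpa using hck.mul_right h3.inv_right
    have h5 := tiN l p7 u w hne k' hk' hk'1 c (by rwa [h4.eq, mul_inv_cancel_right])
    obtain ⟨c', hc', x, hx, rfl⟩ := lt.CM c (k_le l huv hcL).1 h5
    rw [← zp h.pp (h.card u) ha ha1] at hx
    obtain ⟨n, rfl⟩ := mem_zpowers_iff.1 hx
    have h6 := htr _ (mul_mem hcL (inv_mem (zpow_mem hk n))) (by
      rw [hc.mul_zpow, mul_inv_rev, mul_assoc, mul_inv_cancel_left]
      exact mul_mem hc' (inv_mem (zpow_mem hk' n)))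
    exact mem_zpowers_iff.2 ⟨n, (mul_inv_eq_one.1 h6).symm⟩

end

theorem ne : NEStmt := by
  intro G _ _ Ω _ _ p A h l p3 he x y hxy
  have p7 : 7 ≤ p := by
    have := l.ty.1
    omega
  exact { l with
    p3 := p3, p7 := p7, xy := hxy, even := he
    ctr := ctr h l he, cC := cC h l he, tiN := tiN l p7, ti' := ti' l p7, mix := mix h l p7 }

end Cfsg.Agent.H30.CyLpNe
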