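import Cfsg.Agent.H56.SpDefs
import Cfsg.Agent.H16.IvSk
import Cfsg.Agent.H60.Homog

/-! Project CY, chapter SP: the maximal configuration (piece A1). -/

set_option autoImplicit false

namespace Cfsg.Agent.H30.CySpA1

open Subgroup MulAction Cfsg.Agent.H11.Cy Cfsg.Agent.H56.Sp Cfsg.Agent.H16.IvSk
open Cfsg.Agent.H83 (IsSylowIn)

theorem grow {G : Type*} [Group G] [Finite G] {r : ℕ} [Fact r.Prime] (Y S : Subgroup G)
    (hS : IsPGroup r S) (h : Y ≤ S) (hn : S ⊓ normalizer (Y : Set G) ≤ Y) : S ≤ Y := by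
  have := hS.isNilpotent
  by_contra hne
  have h1 : Y.subgroupOf S < ⊤ := lt_top_iff_ne_top.2 fun e => hne (subgroupOf_eq_top.1 e)
  obtain ⟨n, h2, h3⟩ := SetLike.exists_of_lt (Group.normalizerCondition_of_isNilpotent _ h1)
  rw [← subgroupOf_normalizer_eq h] at h2
  exact h3 (hn ⟨n.2, h2⟩)

theorem a1 : A1Stmt := by
  intro G _ _ Ω _ _ p A st p2 ep lf nfz
  have h0 : ∃ x y z w, x ≠ y ∧ IsZ A x y z ∧ z • w = w ∧ w ∉ Ln A x y := by
    by_contra hh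
    refine nfz fun x y hxy z hz => Set.Subset.antisymm (fun w hw => by_contra fun hw' =>
      hh ⟨x, y, z, w, hxy, hz, hw, hw'⟩) fun w hw => (ep.kfix x y hxy z).1 ((lf x y hxy).cen z hz) w hw
  obtain ⟨x₀, y₀, k₀, z₀, h₀, hk₀, hz₀, hz₀'⟩ := h0
  have two : ∀ {x y : Ω} {k : G}, IsZ A x y k → IsPGroup 2 (zpowers k) := fun {x y k} hk =>
    IsPGroup.of_card (n := 1) (by
      rw [Nat.card_zpowers, orderOf_eq_prime (by rw [pow_two]; exact hk.2.2) hk.2.1, pow_one])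
  obtain ⟨U, -, ⟨U2, x, y, z, hxy, hz, UK, Uz, k, hk, kU⟩, mx⟩ := Finite.exists_le_maximal
    (p := fun U : Subgroup G => IsPGroup 2 U ∧
      ∃ x y z, x ≠ y ∧ z ∉ Ln A x y ∧ U ≤ Kl A x y ∧ z ∈ fixedPoints U Ω ∧
        ∃ k, IsZ A x y k ∧ k ∈ U) (a := zpowers k₀)
    ⟨two hk₀, x₀, y₀, z₀, h₀, hz₀', zpowers_le.2 ((lf _ _ h₀).cen _ hk₀),
      fun g => (zpowers_le (H := stabilizer G z₀)).2 hz₀ g.2, k₀, hk₀, mem_zpowers _⟩
  have lnx : ∀ u v, u ∈ Ln A u v := fun u v => (le_sup_left : A u ≤ A u ⊔ A v)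
  have lny : ∀ u v, v ∈ Ln A u v := fun u v => (le_sup_right : A v ≤ A u ⊔ A v)
  have lnF : ∀ (R : Subgroup G) u v, u ≠ v → R ≤ Kl A u v → Ln A u v ⊆ fixedPoints R Ω :=
    fun R u v h hR w hw g => (ep.kfix u v h g).1 (hR g.2) w hw
  generalize hΦ : fixedPoints U Ω = Φ at Uz
  have mΦ : ∀ w, w ∈ Φ ↔ ∀ g ∈ U, g • w = w := fun w => hΦ ▸ ⟨fun h g hg => h ⟨g, hg⟩, fun h g => h g g.2⟩
  have xΦ : x ∈ Φ := hΦ ▸ lnF U x y hxy UK (lnx x y)
  have yΦ : y ∈ Φ := hΦ ▸ lnF U x y hxy UK (lny x y)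
  have cA : ∀ u ∈ Φ, U ≤ centralizer (A u : Set G) := fun u hu g hg => by
    have hx : g ∈ centralizer (A x : Set G) := centralizer_le (lnx x y) (UK hg)
    by_cases e : x = u
    · exact e ▸ hx
    · exact centralizer_le (lny x u) (ep.eps x u e g ⟨(mΦ x).1 xΦ g hg, (mΦ u).1 hu g hg⟩ hx)
  have cK : ∀ u ∈ Φ, ∀ v ∈ Φ, u ≠ v → U ≤ Kl A u v := fun u hu v hv h g hg =>
    ep.eps u v h g ⟨(mΦ u).1 hu g hg, (mΦ v).1 hv g hg⟩ (cA u hu hg)
  have AX : ∀ u ∈ Φ, A u ≤ normalizer (U : Set G) := fun u hu =>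
    (le_centralizer_iff.1 (cA u hu)).trans (centralizer_le_normalizer _)
  have XΦ : ∀ g ∈ normalizer (U : Set G), ∀ w ∈ Φ, g • w ∈ Φ := fun g hg w hw =>
    (mΦ _).2 fun a ha => by
      have := (mΦ w).1 hw _ ((mem_normalizer_iff''.1 hg a).1 ha)
      rwa [mul_smul, mul_smul, inv_smul_eq_iff] at this
  suffices TR : Tr2 (normalizer (U : Set G)) Φ by
    refine ⟨U, Φ, U2, fun e => hk.2.1 (mem_bot.1 (e ▸ kU)), mΦ,
      fun u hu v hv huv => hΦ ▸ lnF U u v huv (cK u hu v hv huv), ⟨x, xΦ, y, yΦ, hxy⟩,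
      fun u hu v hv huv e => hz ?_, fun u hu => le_centralizer_iff.1 (cA u hu), TR,
      fun u hu v hv huv k' hk' => ?_⟩
    · have e1 := ep.span u v huv x (e ▸ xΦ) y (e ▸ yΦ) hxy
      have e2 : z ∈ Ln A u v := e ▸ Uz
      show A z ≤ Fl A x y
      rw [e1]; exact e2
    · obtain ⟨n, hn, rfl, rfl⟩ := TR x xΦ y yΦ u hu v hv hxy huv
      have h1 : IsZ A (n • x) (n • y) (n * k * n⁻¹) := by
        refine ⟨?_, by simpa using hk.2.1, ?_⟩
        · rw [Fl_smul st]; exact ⟨k, hk.1, rfl⟩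
        · calc n * k * n⁻¹ * (n * k * n⁻¹) = n * (k * k) * n⁻¹ := by group
            _ = 1 := by rw [hk.2.2]; group
      rw [(lf _ _ huv).uq _ _ hk' h1]
      exact (mem_normalizer_iff.1 hn k).1 kU
  by_cases hs : ∃ u ∈ Φ, ∃ v ∈ Φ, u ≠ v ∧ IsSylowIn 2 U (Kl A u v)
  · obtain ⟨u, -, v, -, huv, hS⟩ := hs
    have key : ∀ a ∈ Φ, ∀ b ∈ Φ, a ≠ b → ∃ n ∈ normalizer (U : Set G), n • a = u ∧ n • b = v := by
      intro a ha b hb hab
      obtain ⟨g, -, rfl, rfl⟩ := st.two a trivial b trivial u trivial v trivial hab huv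
      obtain ⟨h, hh, hle⟩ := hS.exists_conj_le (P := H83.cj g U) (by
        rintro _ ⟨c, hc, rfl⟩
        rw [Kl, Fl_smul st]
        exact cen_conj g (cK a ha b hb hab hc)) (U2.map _)
      rw [← H83.cj_mul] at hle
      refine ⟨h * g, H83.cj_eq_self_iff.1 (eq_of_le_of_card_ge hle
        (card_map_of_injective (MulAut.conj _).injective).ge), ?_, ?_⟩
      · rw [mul_smul, (ep.kfix _ _ huv h).1 hh _ (lnx _ _)]
      · rw [mul_smul, (ep.kfix _ _ huv h).1 hh _ (lny _ _)]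
    intro a ha b hb a' ha' b' hb' hab hab'
    obtain ⟨n, hn, e1, e2⟩ := key a ha b hb hab
    obtain ⟨n', hn', e1', e2'⟩ := key a' ha' b' hb' hab'
    exact ⟨n'⁻¹ * n, mul_mem (inv_mem hn') hn, by rw [mul_smul, e1, ← e1', inv_smul_smul],
      by rw [mul_smul, e2, ← e2', inv_smul_smul]⟩
  have hR : ∀ u ∈ Φ, ∀ v ∈ Φ, u ≠ v → ∃ R : Subgroup G, IsPGroup 2 R ∧ R ≤ normalizer (U : Set G) ∧
      fixedPoints R Ω = Ln A u v := by
    intro u hu v hv huv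
    obtain ⟨P, hP, UP⟩ := H83.exists_isSylowIn_ge (cK u hu v hv huv) U2
    have h2 : IsPGroup 2 (P ⊓ normalizer (U : Set G) : Subgroup G) := hP.isPGroup.to_inf_left
    have hK : P ⊓ normalizer (U : Set G) ≤ Kl A u v := inf_le_left.trans hP.le
    refine ⟨_, h2, inf_le_right, Set.Subset.antisymm (fun w hw => by_contra fun hw' => ?_)
      (lnF _ u v huv hK)⟩
    obtain ⟨k', hk'⟩ := (lf u v huv).ex
    have kc : ∀ Q : Subgroup G, Q ≤ Kl A u v → zpowers k' ≤ normalizer (Q : Set G) := fun Q hQ =>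
      (zpowers_le.2 (mem_centralizer_iff.2 fun q hq => (hQ hq k' hk'.1).symm)).trans
        (centralizer_le_normalizer _)
    have kP : k' ∈ P := by
      rw [← hP.max (P ⊔ zpowers k') (sup_le hP.le (zpowers_le.2 ((lf u v huv).cen _ hk')))
        (hP.isPGroup.to_sup_of_normal_left' (two hk') (kc P hP.le)) le_sup_left]
      exact mem_sup_right (mem_zpowers _)
    have := grow U P hP.isPGroup UP (mx ⟨h2, u, v, w, huv, hw', hK, hw, k', hk', kP,
      kc U (cK u hu v hv huv) (mem_zpowers _)⟩ (le_inf UP le_normalizer))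
    exact hs ⟨u, hu, v, hv, huv, le_antisymm this UP ▸ hP⟩
  have tr : ∀ u ∈ Φ, ∀ a ∈ Φ, ∀ b ∈ Φ, a ≠ u → b ≠ u →
      ∃ g ∈ normalizer (U : Set G), g • u = u ∧ g • a = b := by
    intro u hu a ha b hb au bu
    by_contra hcon
    obtain ⟨O, hO⟩ : ∃ O : Set Ω, ∀ w, w ∈ O ↔
        ∃ g ∈ normalizer (U : Set G), g • u = u ∧ g • a = w := ⟨{w | _}, fun _ => Iff.rfl⟩
    have inv : ∀ g ∈ normalizer (U : Set G), g • u = u → ∀ w ∈ O, g • w ∈ O := by
      intro g hg gu w hw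
      obtain ⟨g', h1, h2, rfl⟩ := (hO w).1 hw
      exact (hO _).2 ⟨g * g', mul_mem hg h1, by rw [mul_smul, h2, gu], mul_smul _ _ _⟩
    have uO : ∀ w ∈ O, w ≠ u := by
      intro w hw e
      obtain ⟨g, -, h2, h3⟩ := (hO w).1 hw
      exact au (MulAction.injective g (h3.trans (e.trans h2.symm)))
    have lin : ∀ c ∈ Φ, c ≠ u → ∀ v ∈ Ln A u c, ∀ w ∈ Ln A u c, v ∈ O → w ≠ u → w ∈ O := by
      intro c cΦ hc v hv w hw vO wu
      obtain ⟨g, hg, gu, rfl⟩ := (lf u c hc.symm).tr u (lnx _ _) v hv u (lnx _ _) w hw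
        (uO v vO).symm wu.symm
      exact inv g (sup_le (AX u hu) (AX c cΦ) hg) gu v vO
    have key : ∀ c ∈ Φ, c ≠ u → O.ncard ≡ (O ∩ Ln A u c).ncard [MOD 2] := by
      intro c hc cu
      obtain ⟨R, R2, RX, e⟩ := hR u hu c hc cu.symm
      rw [← e]
      exact H60.ncard_modEq_of_isPGroup Nat.prime_two R R2 O fun g hg =>
        inv g (RX hg) ((e.ge (lnx u c)) ⟨g, hg⟩)
    have h1 := key a ha au
    have h2 := key b hb bu
    have e1 : O ∩ Ln A u a = Ln A u a \ {u} := Set.Subset.antisymm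
      (fun w hw => ⟨hw.2, uO w hw.1⟩) fun w hw => ⟨lin a ha au a (lny _ _) w hw.1
        ((hO a).2 ⟨1, one_mem _, one_smul _ _, one_smul _ _⟩) hw.2, hw.1⟩
    have e2 : O ∩ Ln A u b = ∅ := Set.eq_empty_of_forall_notMem fun w hw =>
      hcon ((hO b).1 (lin b hb bu w hw.2 b (lny _ _) hw.1 bu))
    rw [e1, Set.ncard_sdiff_singleton_of_mem (lnx u a), (lf u a au.symm).ln] at h1
    rw [e2, Set.ncard_empty] at h2
    have := st.pp.eq_two_or_odd.resolve_left p2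
    unfold Nat.ModEq at h1 h2
    simp only [Nat.add_sub_cancel] at h1
    omega
  have zx : z ≠ x := fun e => hz (e ▸ lnx _ _)
  have zy : z ≠ y := fun e => hz (e ▸ lny _ _)
  intro a ha b hb a' ha' b' hb' hab hab'
  obtain ⟨w, hw, wa, wa'⟩ : ∃ w ∈ Φ, a ≠ w ∧ a' ≠ w := by
    by_contra h
    push Not at h
    by_cases e : a = x
    · exact zy ((h z Uz fun e' => zx (e'.symm.trans e)).symm.trans
        (h y yΦ fun e' => hxy (e.symm.trans e')))
    by_cases e' : a = y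
    · exact zx ((h z Uz fun e'' => zy (e''.symm.trans e')).symm.trans (h x xΦ e))
    · exact hxy ((h x xΦ e).symm.trans (h y yΦ e'))
  obtain ⟨g, hg, -, rfl⟩ := tr w hw a ha a' ha' wa wa'
  obtain ⟨g', hg', e1, e2⟩ := tr _ ha' (g • b) (XΦ g hg b hb) b' hb'
    (fun e => hab (MulAction.injective g e).symm) hab'.symm
  exact ⟨g' * g, mul_mem hg' hg, by rw [mul_smul, e1], by rw [mul_smul, e2]⟩

end Cfsg.Agent.H30.CySpA1
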