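import Cfsg.Agent.H53.DgDefs

/-!
Project DG, piece M2B: an irreducible character of `Ω₈⁻(2)` of degree divisible by `1190`.
-/

set_option autoImplicit false

namespace Cfsg.Agent.H30.DgM2b

open Module Cfsg.Agent.H26 Cfsg.Agent.H78 Cfsg.Agent.H53.Dg Cfsg.Agent.H26.PForm
open scoped ComplexConjugate

/-- A Mackey sum vanishes if it vanishes on the translates of a family. -/
theorem mT_eq_zero {G : Type} [Group G] [Finite G] (S : Subgroup G) (ξ ξ' : G → ℂ) (x : G)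
    {ι : Type} [Finite ι] [Nonempty ι] (a : ι → G) (ha : ∀ i, a i ∈ S ∧ x⁻¹ * a i * x ∈ S)
    (h0 : ∀ h ∈ S, x⁻¹ * h * x ∈ S →
      ∑ᶠ i, ξ (h * a i) * conj (ξ' (x⁻¹ * (h * a i) * x)) = 0) : mT S ξ ξ' x = 0 := by
  classical
  have := Fintype.ofFinite ι
  have := Fintype.ofFinite {h : G // h ∈ S ∧ x⁻¹ * h * x ∈ S}
  have key : ∀ {h g : G}, x⁻¹ * h * x ∈ S → x⁻¹ * g * x ∈ S → x⁻¹ * (h * g) * x ∈ S := by
    intro h g hh hg
    have := S.mul_mem hh hg
    convert this using 1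
    group
  have key' : ∀ {g : G}, x⁻¹ * g * x ∈ S → x⁻¹ * g⁻¹ * x ∈ S := by
    intro g hg
    have := S.inv_mem hg
    convert this using 1
    group
  have h1 : ∀ i, mT S ξ ξ' x = ∑ h : {h : G // h ∈ S ∧ x⁻¹ * h * x ∈ S},
      ξ (h * a i) * conj (ξ' (x⁻¹ * (h * a i) * x)) := by
    intro i
    rw [mT, finsum_eq_sum_of_fintype]
    symm
    let e : {h : G // h ∈ S ∧ x⁻¹ * h * x ∈ S} ≃ {h : G // h ∈ S ∧ x⁻¹ * h * x ∈ S} :=
      { toFun := fun h => ⟨h * a i, S.mul_mem h.2.1 (ha i).1, key h.2.2 (ha i).2⟩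
        invFun := fun h => ⟨h * (a i)⁻¹, S.mul_mem h.2.1 (S.inv_mem (ha i).1),
          key h.2.2 (key' (ha i).2)⟩
        left_inv := fun h => Subtype.ext (mul_inv_cancel_right _ _)
        right_inv := fun h => Subtype.ext (inv_mul_cancel_right _ _) }
    exact Fintype.sum_equiv e _ _ fun h => rfl
  have h2 : (Fintype.card ι : ℂ) * mT S ξ ξ' x = 0 := by
    rw [← nsmul_eq_mul, ← Finset.card_univ, ← Finset.sum_const, Finset.sum_congr rfl fun i _ => h1 i,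
      Finset.sum_comm]
    refine Finset.sum_eq_zero fun h _ => ?_
    rw [← finsum_eq_sum_of_fintype]
    exact h0 h h.2.1 h.2.2
  exact (mul_eq_zero.1 h2).resolve_left (Nat.cast_ne_zero.2 Fintype.card_ne_zero)

variable {F V : Type} [Field F] [AddCommGroup V] [Module F V] {P : PForm F V}

/-- Reflections are isometries outside the Eichler group. -/
theorem exists_refl [FiniteDimensional F V] (hσ : ∀ a, P.σ a = a) (hε : P.ε = 1) (hΛ : P.Λ = ⊥)
    {a : V} (ha : P.h a ≠ 0) :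
    ∃ r ∈ P.isom, r ∉ P.E ∧ ∀ x, r x = x - ((P.h a)⁻¹ * P.f x a) • a := by
  have hpol : ∀ x y, QuadraticMap.polar P.h x y = P.f x y := fun x y => by
    have := P.h_add x y
    rw [hΛ, AddSubgroup.mem_bot, sub_eq_zero] at this
    exact this
  let Q : QuadraticForm F V := QuadraticMap.ofPolar P.h
    (fun c x => by
      have := P.h_smul c x
      rw [hΛ, AddSubgroup.mem_bot, sub_eq_zero, hσ] at this
      rw [this, smul_eq_mul])
    (fun x x' y => by rw [hpol, hpol, hpol, P.f_add_left])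
    (fun c x y => by rw [hpol, hpol, P.f_smul_left, smul_eq_mul])
  have hQ1 : ∀ x, Q x = P.h x := fun _ => rfl
  have hQ2 : ∀ x y, QuadraticMap.polar Q x y = P.f x y := hpol
  have hQ : (QuadraticMap.polarBilin Q).Nondegenerate := by
    refine ⟨fun x hx => eq_zero_of_f_left (P := P) fun y => ?_, fun y hy => P.nondeg y fun x => ?_⟩
    · rw [← hQ2]; exact hx y
    · rw [← hQ2]; exact hy x
  refine ⟨(refl Q a).1, ⟨fun x y => ?_, fun x => ?_⟩, fun h => ?_, fun x => ?_⟩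
  · rw [← hQ2, ← hQ2, QuadraticMap.polar, QuadraticMap.polar, ← map_add, O_map, O_map, O_map]
  · rw [← hQ1, ← hQ1, O_map, sub_self]; exact zero_mem _
  · have : P.E ≤ (kerDS hQ).map (O Q).subtype := by
      refine E_le_of fun u v ν h => ⟨h, eich Q u v, eich_mem_kerDS hQ u v, ?_⟩
      ext x
      have hν : ν = P.h v := by
        have := h.nu
        rwa [hΛ, AddSubgroup.mem_bot, sub_eq_zero] at this
      have hu : Q u = 0 := by
        have := h.sing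
        rwa [Sing, hΛ, AddSubgroup.mem_bot] at this
      change (eich Q u v).1 x = _
      rw [EV.equiv_apply, PForm.eich_apply, H30.eich_apply hu ((hQ2 _ _).trans h.orth'), hν, hε,
        hQ2, hQ2, hQ1]
      module
    obtain ⟨g, hg, hga⟩ := this h
    rw [show g = refl Q a from Subtype.ext hga] at hg
    exact refl_notMem_kerDS hQ ha hg
  · rw [refl_apply, hQ1, hQ2]

theorem exists_gen {X : Submodule F V} (h : finrank F X = 1) : ∃ e, e ≠ 0 ∧ X = F ∙ e := by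
  obtain ⟨e, he0, he⟩ := finrank_eq_one_iff'.1 h
  refine ⟨e, fun h => he0 (Subtype.ext h), le_antisymm (fun x hx => ?_) ?_⟩
  · obtain ⟨c, hc⟩ := he ⟨x, hx⟩
    exact Submodule.mem_span_singleton.2 ⟨c, congrArg Subtype.val hc⟩
  · exact (Submodule.span_singleton_le_iff_mem _ _).2 e.2

section Lev

variable {k : ℕ} (L : Lev P k)

theorem W_le : L.W ≤ P.perp L.X := PForm.perp_anti le_sup_left

theorem W_le' : L.W ≤ P.perp L.X' := PForm.perp_anti le_sup_right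

theorem eq_zero_of_mem {v : V} (h : v ∈ L.X) (h' : v ∈ L.W) : v = 0 := by
  have : v ∈ L.X ⊓ P.perp L.X' := ⟨h, W_le' L h'⟩
  rwa [L.opp, Submodule.mem_bot] at this

theorem pr_eq {g : V ≃ₗ[F] V} (hg : g ∈ P.isom) (hX : g ∈ stabSub L.X) (B : L.PW.isom)
    (h : ∀ v : L.W, g v - (B.1 v : V) ∈ L.X) : L.pr g = B := by
  refine Subtype.ext (LinearEquiv.ext fun v => Subtype.ext ?_)
  have h1 := L.X.sub_mem (h v) (L.pr_spec g hg hX v)
  rw [sub_sub_sub_cancel_left] at h1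
  exact sub_eq_zero.1 (eq_zero_of_mem L h1 (L.W.sub_mem ((L.pr g).1 v).2 (B.1 v).2))

theorem top_mem [FiniteDimensional F V] {X : Submodule F V} (hX : TS P X) {g : V ≃ₗ[F] V}
    (h : Top P X g) : g ∈ stabSub X :=
  mem_stabSub.2 fun x hx => by
    have := X.add_mem (h x (hX.2 hx)) hx
    rwa [sub_add_cancel] at this

theorem pr_top [FiniteDimensional F V] {g : V ≃ₗ[F] V} (hg : g ∈ P.isom) (h : Top P L.X g) :
    L.pr g = 1 :=
  pr_eq L hg (top_mem L.ts h) 1 fun v => h v (W_le L v.2)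

theorem pr_inv {g : V ≃ₗ[F] V} (hg : g ∈ P.isom) (hX : g ∈ stabSub L.X) :
    L.pr g⁻¹ = (L.pr g)⁻¹ := by
  have h1 : L.pr 1 = 1 := pr_eq L (one_mem _) (one_mem _) 1 fun v => by simp
  rw [eq_inv_iff_mul_eq_one, ← L.pr_mul _ (inv_mem hg) (inv_mem hX) _ hg hX, inv_mul_cancel, h1]

/-- Elements of the Eichler group of the complement extend. -/
theorem lift {B : L.W ≃ₗ[F] L.W} (hB : B ∈ L.PW.E) :
    ∃ g ∈ P.E, (∀ x ∈ L.X ⊔ L.X', g x = x) ∧ ∀ v : L.W, g v = B v := by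
  induction hB using Subgroup.closure_induction with
  | mem B hB =>
    obtain ⟨a, y, ν, h, rfl⟩ := hB
    have h' : P.EV a y ν := ⟨h.sing, h.orth, h.nu⟩
    refine ⟨h'.equiv, h'.equiv_mem_E, fun x hx => ?_, fun v => ?_⟩
    · exact P.eich_apply_of_orth₂ ν (f_of_mem_perp' a.2 hx) (f_of_mem_perp' y.2 hx)
    · rw [EV.equiv_apply, EV.equiv_apply, PForm.eich_apply, PForm.eich_apply]
      rfl
  | one => exact ⟨1, one_mem _, fun _ _ => rfl, fun _ => rfl⟩
  | mul A B _ _ hA hB =>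
    obtain ⟨g, hg, hg1, hg2⟩ := hA
    obtain ⟨k, hk, hk1, hk2⟩ := hB
    exact ⟨g * k, mul_mem hg hk, fun x hx => by rw [mul_apply', hk1 x hx, hg1 x hx],
      fun v => by rw [mul_apply', hk2, hg2, mul_apply']⟩
  | inv A _ hA =>
    obtain ⟨g, hg, hg1, hg2⟩ := hA
    refine ⟨g⁻¹, inv_mem hg, fun x hx => ?_, fun v => ?_⟩
    · conv_lhs => rw [← hg1 x hx]
      exact inv_apply_apply g x
    · rw [← inv_apply_apply g (A⁻¹ v : L.W), hg2, apply_inv_apply]

theorem fix_mem [FiniteDimensional F V] {g : V ≃ₗ[F] V} (h : ∀ x ∈ L.X ⊔ L.X', g x = x) :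
    g ∈ stabSub L.X :=
  mem_stabSub.2 fun x hx => by rw [h x (Submodule.mem_sup_left hx)]; exact hx

end Lev

/-- The data of a Levi decomposition for a point over the field with two elements. -/
structure Dat (L : Lev P 1) (e e' : V) : Prop where
  hσ : ∀ a, P.σ a = a
  hε : P.ε = 1
  hΛ : P.Λ = ⊥
  two : ∀ a : F, a ≠ 0 → a = 1
  hX : L.X = F ∙ e
  hX' : L.X' = F ∙ e'
  ne : e ≠ 0
  pair : P.f e e' = 1
  idx : (P.E.subgroupOf P.isom).index = 2
  idxW : (L.PW.E.subgroupOf L.PW.isom).index = 2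
  opp : ∀ g ∈ P.isom, Top P L.X g → LinearMap.det (rs L.X g : L.X →ₗ[F] L.X) = 1 → g ∈ P.E
  nonsing : ∃ a : L.W, P.h a ≠ 0

namespace Dat

variable {L : Lev P 1} {e e' : V} (D : Dat L e e')
include D

theorem symm (x y : V) : P.f x y = P.f y x := by rw [P.herm y x, D.hε, D.hσ, one_mul]

theorem mem_e : e ∈ L.X := D.hX ▸ Submodule.mem_span_singleton_self e

theorem mem_e' : e' ∈ L.X' := D.hX' ▸ Submodule.mem_span_singleton_self e'

theorem sing : P.Sing e := L.ts.1 e D.mem_e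

theorem sing' : P.Sing e' := L.ts'.1 e' D.mem_e'

theorem mem_perpX {v : V} : v ∈ P.perp L.X ↔ P.f v e = 0 := by
  rw [D.hX, mem_perp_span_singleton]

theorem mem_W {v : V} : v ∈ L.W ↔ P.f v e = 0 ∧ P.f v e' = 0 := by
  rw [Lev.W, PForm.perp_sup, Submodule.mem_inf, D.hX, D.hX', mem_perp_span_singleton,
    mem_perp_span_singleton]

theorem proj_mem (v : V) : v - P.f v e' • e - P.f v e • e' ∈ L.W := by
  rw [D.mem_W]
  simp only [P.f_sub_left, P.f_smul_left, D.sing.f_self, D.sing'.f_self, D.symm e' e, D.pair]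
  constructor <;> ring

theorem fix {g : V ≃ₗ[F] V} (hg : g ∈ stabSub L.X) : g e = e := by
  have := (mem_stabSub_iff.1 hg e).1 D.mem_e
  rw [D.hX] at this
  obtain ⟨c, hc⟩ := Submodule.mem_span_singleton.1 this
  have hc0 : c ≠ 0 := by
    rintro rfl
    rw [zero_smul, eq_comm, map_eq_zero_iff _ g.injective] at hc
    exact D.ne hc
  rw [← hc, D.two c hc0, one_smul]

variable [FiniteDimensional F V]

theorem mem_stab {g : V ≃ₗ[F] V} (hg : g e = e) : g ∈ stabSub L.X := by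
  refine mem_stabSub.2 fun x hx => ?_
  rw [D.hX] at hx ⊢
  obtain ⟨c, rfl⟩ := Submodule.mem_span_singleton.1 hx
  rw [map_smul, hg]
  exact hx

omit [FiniteDimensional F V] in
theorem ker_le {g : V ≃ₗ[F] V} (hg : g ∈ P.isom) (hX : g ∈ stabSub L.X) (h : L.pr g = 1) :
    g ∈ P.E := by
  refine D.opp g hg (fun v hv => ?_) (D.two _ (LinearEquiv.isUnit_det' _).ne_zero)
  have h1 := L.pr_spec g hg hX ⟨_, D.proj_mem v⟩
  rw [h] at h1
  simpa [map_sub, map_smul, D.fix hX, D.mem_perpX.1 hv] using h1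

theorem mem_E_of {g : V ≃ₗ[F] V} (hg : g ∈ P.isom) (hX : g ∈ stabSub L.X)
    (h : (L.pr g).1 ∈ L.PW.E) : g ∈ P.E := by
  obtain ⟨k, hk, hk1, hk2⟩ := lift L h
  have hkX := fix_mem L hk1
  have hki := E_le_isom hk
  have h1 : L.pr k = L.pr g := pr_eq L hki hkX _ fun v => by rw [hk2, sub_self]; exact zero_mem _
  have h2 : k⁻¹ * g ∈ P.E := D.ker_le (mul_mem (inv_mem hki) hg) (mul_mem (inv_mem hkX) hX) (by
    rw [L.pr_mul _ (inv_mem hki) (inv_mem hkX) _ hg hX, pr_inv L hki hkX, h1, inv_mul_cancel])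
  simpa using mul_mem hk h2

/-- A reflection of the complement and its extension. -/
theorem exists_pair : ∃ r ∈ P.isom, r ∉ P.E ∧ (∀ x ∈ L.X ⊔ L.X', r x = x) ∧
    ∃ σ ∈ L.PW.isom, σ ∉ L.PW.E ∧ ∀ v : L.W, r v = σ v := by
  obtain ⟨a, ha⟩ := D.nonsing
  obtain ⟨r, hr, hrE, hra⟩ := exists_refl D.hσ D.hε D.hΛ ha
  obtain ⟨σ, hσ, hσE, hσa⟩ := exists_refl (P := L.PW) D.hσ D.hε D.hΛ (a := a) ha
  refine ⟨r, hr, hrE, fun x hx => ?_, σ, hσ, hσE, fun v => ?_⟩
  · rw [hra, f_of_mem_perp' a.2 hx]; simp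
  · rw [hra, hσa]; rfl

theorem pr_mem {g : V ≃ₗ[F] V} (hg : g ∈ P.E) (hX : g ∈ stabSub L.X) :
    (L.pr g).1 ∈ L.PW.E := by
  obtain ⟨r, hr, hrE, hr1, σ, hσ, hσE, hr2⟩ := D.exists_pair
  have hrX := fix_mem L hr1
  have hgi := E_le_isom hg
  have h1 : L.pr r = ⟨σ, hσ⟩ := pr_eq L hr hrX _ fun v => by rw [hr2, sub_self]; exact zero_mem _
  by_contra hn
  have h2 : L.pr g * ⟨σ, hσ⟩ ∈ L.PW.E.subgroupOf L.PW.isom :=
    (Subgroup.mul_mem_iff_of_index_two D.idxW).2 (iff_of_false hn hσE)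
  rw [← h1, ← L.pr_mul _ hgi hX _ hr hrX] at h2
  have h3 := D.mem_E_of (mul_mem hgi hr) (mul_mem hX hrX) h2
  exact hrE ((P.E.mul_mem_cancel_left hg).1 h3)

/-- The projection of the point stabilizer onto the Eichler group of the complement. -/
def pi : stab P.E L.X →* L.PW.E where
  toFun h := ⟨(L.pr h.1.1).1, D.pr_mem h.1.2 h.2⟩
  map_one' := Subtype.ext (congrArg Subtype.val (pr_top L (one_mem _) fun v _ => by simp) :)
  map_mul' a b := Subtype.ext
    (congrArg Subtype.val (L.pr_mul _ (E_le_isom a.1.2) a.2 _ (E_le_isom b.1.2) b.2) :)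

theorem pi_val (h : stab P.E L.X) : (D.pi h).1 = (L.pr h.1.1).1 := rfl

theorem exists_lift (B : L.PW.E) : ∃ g : stab P.E L.X, D.pi g = B ∧
    (∀ x ∈ L.X ⊔ L.X', g.1.1 x = x) ∧ ∀ v : L.W, g.1.1 v = B.1 v := by
  obtain ⟨g, hg, hg1, hg2⟩ := lift L B.2
  refine ⟨⟨⟨g, hg⟩, fix_mem L hg1⟩, Subtype.ext ?_, hg1, hg2⟩
  rw [pi_val, pr_eq L (E_le_isom hg) (fix_mem L hg1) ⟨B.1, E_le_isom B.2⟩
    fun v => by rw [hg2, sub_self]; exact zero_mem _]

theorem pi_surj : Function.Surjective D.pi := fun B => (D.exists_lift B).imp fun _ h => h.1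

theorem pi_top {g : stab P.E L.X} (h : Top P L.X g.1.1) : D.pi g = 1 :=
  Subtype.ext (congrArg Subtype.val (pr_top L (E_le_isom g.1.2) h) :)

/-- The element exchanging the two points. -/
theorem exists_w : ∃ w : P.E, w.1 e = -e' ∧
    ∃ σ ∈ L.PW.isom, σ ∉ L.PW.E ∧ ∀ v : L.W, w.1 v = σ v := by
  obtain ⟨r, hr, hrE, hr1, σ, hσ, hσE, hr2⟩ := D.exists_pair
  have h1 : P.h (e + e') = 1 := by
    have h1 := P.h_add e e'
    have h2 := D.sing
    have h3 := D.sing'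
    rw [Sing, D.hΛ, AddSubgroup.mem_bot] at h2 h3
    rw [D.hΛ, AddSubgroup.mem_bot, h2, h3, D.pair] at h1
    linear_combination h1
  obtain ⟨s, hs, hsE, hsa⟩ := exists_refl D.hσ D.hε D.hΛ (a := e + e') (by rw [h1]; exact one_ne_zero)
  have h2 : (⟨s, hs⟩ * ⟨r, hr⟩ : P.isom) ∈ P.E.subgroupOf P.isom :=
    (Subgroup.mul_mem_iff_of_index_two D.idx).2 (iff_of_false hsE hrE)
  refine ⟨⟨s * r, h2⟩, ?_, σ, hσ, hσE, fun v => ?_⟩
  · change s (r e) = _
    rw [hr1 e (Submodule.mem_sup_left D.mem_e), hsa, h1, P.f_add_right, D.sing.f_self, D.pair]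
    simp
  · change s (r v) = _
    have := D.mem_W.1 (σ v).2
    rw [hr2, hsa, P.f_add_right, this.1, this.2]
    simp

/-- The lifts used for the orthogonal double coset. -/
theorem exists_orth (x : P.E) (h1 : mp x.1 L.X ≤ P.perp L.X) (h2 : L.X ⊓ mp x.1 L.X = ⊥) :
    ∃ Y : Submodule F L.W, TS L.PW Y ∧ finrank F Y = 1 ∧ ∀ u : UU L.PW L.PW.E Y,
      ∃ g : stab P.E L.X, D.pi g = u ∧ Top P L.X (x⁻¹ * g * x : P.E).1 := by
  have hxi := E_le_isom x.2
  have hm : x.1 e ∈ mp x.1 L.X := Submodule.mem_map_of_mem D.mem_e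
  have hxe : P.f (x.1 e) e = 0 := D.mem_perpX.1 (h1 hm)
  have hxX : x.1 e ∉ L.X := fun h => by
    have : x.1 e ∈ L.X ⊓ mp x.1 L.X := ⟨h, hm⟩
    rw [h2, Submodule.mem_bot, map_eq_zero_iff _ x.1.injective] at this
    exact D.ne this
  obtain ⟨c, hc⟩ : ∃ c, c = P.f (x.1 e) e' := ⟨_, rfl⟩
  obtain ⟨b, hb⟩ : ∃ b : L.W, (b : V) = x.1 e - c • e :=
    ⟨⟨_, D.proj_mem (x.1 e)⟩, by rw [hc]; simp [hxe]⟩
  have hb0 : b ≠ 0 := by
    rintro rfl
    refine hxX ?_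
    rw [sub_eq_zero.1 hb.symm]
    exact L.X.smul_mem c D.mem_e
  have hbs : P.Sing b := by
    rw [hb]
    exact (D.sing.map hxi).sub (D.sing.smul c) (by rw [P.f_smul_right, hxe, mul_zero])
  obtain ⟨y, hy⟩ := L.PW.exists_f_right_eq hb0 (-c)
  have hev : P.EV e y (P.h y) := EV.of_h D.sing (D.mem_W.1 y.2).1
  have hte : hev.equiv e = e := hev.eich_self
  have htb : hev.equiv b = x.1 e := by
    rw [EV.equiv_apply, P.eich_apply_of_orth _ (D.mem_W.1 b.2).1, D.hε,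
      show P.f b y = -c from hy, hb]
    module
  have htt : Top P L.X hev.equiv := fun v hv => by
    rw [EV.equiv_apply, P.eich_apply_of_orth _ (D.mem_perpX.1 hv), sub_sub_cancel_left]
    exact L.X.neg_mem (L.X.smul_mem _ D.mem_e)
  let t : stab P.E L.X := ⟨⟨hev.equiv, hev.equiv_mem_E⟩, D.mem_stab hte⟩
  have hbs' : L.PW.Sing b := hbs
  refine ⟨F ∙ b, ⟨fun z hz => ?_, fun z hz => ?_⟩, finrank_span_singleton hb0, fun u => ?_⟩
  · obtain ⟨a, rfl⟩ := Submodule.mem_span_singleton.1 hz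
    exact hbs'.smul a
  · obtain ⟨a, rfl⟩ := Submodule.mem_span_singleton.1 hz
    rw [mem_perp_span_singleton, PForm.f_smul_left, hbs'.f_self, mul_zero]
  obtain ⟨g, hg, hg1, hg2⟩ := D.exists_lift u
  refine ⟨t * g * t⁻¹, by rw [map_mul, map_mul, map_inv, D.pi_top (g := t) htt, hg]; simp,
    fun v hv => ?_⟩
  obtain ⟨z, hz⟩ : ∃ z, z = hev.equiv⁻¹ (x.1 v) := ⟨_, rfl⟩
  have hzb : P.f z b = 0 := by
    rw [hz, ← isom_f_right hev.equiv_mem_isom, htb, isom_f hxi, D.mem_perpX.1 hv]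
  have hz0 : (⟨_, D.proj_mem z⟩ : L.W) ∈ L.PW.perp (F ∙ b) := by
    rw [mem_perp_span_singleton]
    change P.f (z - P.f z e' • e - P.f z e • e') b = 0
    rw [P.f_sub_left, P.f_sub_left, P.f_smul_left, P.f_smul_left, hzb, D.symm e, D.symm e',
      (D.mem_W.1 b.2).1, (D.mem_W.1 b.2).2]
    ring
  obtain ⟨a, ha⟩ := Submodule.mem_span_singleton.1 (u.2.1.2 _ hz0)
  have ha' : g.1.1 z = z + a • (b : V) := by
    have h3 := congrArg Subtype.val ha
    rw [Submodule.coe_sub, ← hg2] at h3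
    simp only [map_sub, map_smul, hg1 e (Submodule.mem_sup_left D.mem_e),
      hg1 e' (Submodule.mem_sup_right D.mem_e'), Submodule.coe_smul] at h3
    rw [h3]
    abel
  change x.1⁻¹ (hev.equiv (g.1.1 (hev.equiv⁻¹ (x.1 v)))) - v ∈ L.X
  rw [← hz, ha', map_add, map_smul, htb, hz, apply_inv_apply, map_add, map_smul, inv_apply_apply,
    inv_apply_apply, add_sub_cancel_left]
  exact L.X.smul_mem a D.mem_e

open Classical in
/-- The inflated function. -/
noncomputable def ph (φ : L.PW.E → ℂ) (h : P.E) : ℂ :=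
  if hh : h ∈ stab P.E L.X then φ (D.pi ⟨h, hh⟩) else 0

theorem ph_of (φ : L.PW.E → ℂ) {h : P.E} (hh : h ∈ stab P.E L.X) :
    D.ph φ h = φ (D.pi ⟨h, hh⟩) := dif_pos hh

theorem ph_coe (φ : L.PW.E → ℂ) (h : stab P.E L.X) : D.ph φ h = φ (D.pi h) := dif_pos h.2

theorem ph_top (φ : L.PW.E → ℂ) {h : P.E} (hh : h ∈ stab P.E L.X) {g : P.E}
    (hg : Top P L.X g.1) : D.ph φ (h * g) = D.ph φ h := by
  have hgX : g ∈ stab P.E L.X := top_mem L.ts hg
  have := D.ph_coe φ (⟨h, hh⟩ * ⟨g, hgX⟩)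
  rw [map_mul, D.pi_top (g := ⟨g, hgX⟩) hg, mul_one] at this
  exact this.trans (D.ph_of φ hh).symm

theorem clOn {φ : L.PW.E → ℂ} (hφ : IsClassFunction _ φ) : ClOn (stab P.E L.X) (D.ph φ) := by
  intro g hg h hh
  have := D.ph_coe φ (⟨g, hg⟩ * ⟨h, hh⟩ * ⟨g, hg⟩⁻¹)
  rw [map_mul, map_mul, map_inv, hφ] at this
  exact this.trans (D.ph_of φ hh).symm

end Dat

theorem eqns : True := by
  have := @Dat.pi.eq_1
  have := @Dat.ph.eq_1
  trivial

namespace Dat

variable [Finite V] {L : Lev P 1} {e e' : V} (D : Dat L e e')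
include D

theorem mT_orth [FiniteDimensional F V] (hZ : ZeroStmt) {φ : L.PW.E → ℂ} (hφ : IsCharacter _ φ)
    (h0 : ∀ Y, TS L.PW Y → finrank F Y = 1 → ∑ᶠ u : UU L.PW L.PW.E Y, φ u = 0)
    (x : P.E) (h1 : mp x.1 L.X ≤ P.perp L.X) (h2 : L.X ⊓ mp x.1 L.X = ⊥) :
    mT (stab P.E L.X) (D.ph φ) (D.ph φ) x = 0 := by
  obtain ⟨Y, hY, hY1, hu⟩ := D.exists_orth x h1 h2
  choose a ha ha' using hu
  refine mT_eq_zero _ _ _ x (fun u => (a u).1) (fun u => ⟨(a u).2, top_mem L.ts (ha' u)⟩)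
    fun h hh hh' => ?_
  have h3 : ∀ u, D.ph φ (h * a u) * conj (D.ph φ (x⁻¹ * (h * a u) * x)) =
      φ (D.pi ⟨h, hh⟩ * u) * conj (D.ph φ (x⁻¹ * h * x)) := by
    intro u
    have h4 := D.ph_coe φ (⟨h, hh⟩ * a u)
    rw [map_mul, ha] at h4
    rw [← D.ph_top φ hh' (ha' u), ← h4]
    congr 3
    group
  simp only [h3]
  rw [← finsum_mul, hZ _ φ _ hφ (h0 Y hY hY1), zero_mul]

theorem mT_opp [FiniteDimensional F V] {φ : L.PW.E → ℂ}
    (h0 : ∀ σ ∈ L.PW.isom, σ ∉ L.PW.E → ∀ φ' : L.PW.E → ℂ,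
      (∀ g g' : L.PW.E, g'.1 = σ * g.1 * σ⁻¹ → φ' g = φ g') → ip φ φ' = 0)
    {w : P.E} (hw : w.1 e = -e') {σ : L.W ≃ₗ[F] L.W} (hσ : σ ∈ L.PW.isom) (hσE : σ ∉ L.PW.E)
    (hwσ : ∀ v : L.W, w.1 v = σ v) : mT (stab P.E L.X) (D.ph φ) (D.ph φ) w = 0 := by
  let c : L.PW.E → L.PW.E := fun g => ⟨σ⁻¹ * g.1 * σ⁻¹⁻¹, E_conj (inv_mem hσ) g.2⟩
  have h1 := h0 σ⁻¹ (inv_mem hσ) (fun h => hσE (inv_mem_iff.1 h)) (fun g => φ (c g))
    fun g g' h => congrArg φ (Subtype.ext h.symm)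
  let _ := Fintype.ofFinite L.PW.E
  have h2 : ∑ g, φ g * conj (φ (c g)) = 0 := by
    rw [ip, classInner] at h1
    exact (mul_eq_zero.1 h1).resolve_left (inv_ne_zero (Nat.cast_ne_zero.2 Nat.card_pos.ne'))
  have hwi : ∀ v : L.W, w.1⁻¹ v = (σ⁻¹ v : L.W) := fun v => by
    rw [← inv_apply_apply w.1 (σ⁻¹ v : L.W), hwσ, apply_inv_apply]
  have hwe : w.1⁻¹ e' = -e := by
    rw [← inv_apply_apply w.1 (-e), map_neg, hw, neg_neg]
  have h4 : ∀ (h : P.E) (hh : h ∈ stab P.E L.X) (hh' : w⁻¹ * h * w ∈ stab P.E L.X),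
      D.pi ⟨_, hh'⟩ = c (D.pi ⟨h, hh⟩) := by
    intro h hh hh'
    refine Subtype.ext ?_
    rw [pi_val, pr_eq L (E_le_isom (w⁻¹ * h * w).2) hh' (⟨σ, hσ⟩⁻¹ * L.pr h * ⟨σ, hσ⟩)]
    · simp [c, pi_val]
    intro v
    obtain ⟨a, ha⟩ :=
      Submodule.mem_span_singleton.1 (D.hX.le (L.pr_spec h (E_le_isom h.2) hh (σ v)))
    have h6 : h.1 e' = e' := by
      have h7 : w.1⁻¹ (h.1 (w.1 e)) = e := D.fix hh'
      rw [hw, map_neg, map_neg, neg_eq_iff_eq_neg, ← hwe] at h7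
      exact (w.1⁻¹).injective h7
    have h8 : a = 0 := by
      have h9 := congrArg (fun z => P.f z e') ha
      simp only [P.f_smul_left, P.f_sub_left, D.pair, mul_one] at h9
      rw [h9, (D.mem_W.1 ((L.pr h).1 (σ v)).2).2]
      conv_lhs => rw [← h6, isom_f (E_le_isom h.2), (D.mem_W.1 (σ v).2).2]
      exact sub_self _
    rw [h8, zero_smul, eq_comm, sub_eq_zero] at ha
    change w.1⁻¹ (h.1 (w.1 v)) - (σ⁻¹ ((L.pr h).1 (σ v)) : L.W) ∈ L.X
    rw [hwσ, ha, hwi, sub_self]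
    exact zero_mem _
  choose a ha ha1 ha2 using D.exists_lift
  have ha3 : ∀ i, w⁻¹ * a i * w ∈ stab P.E L.X := fun i => D.mem_stab (by
    change w.1⁻¹ ((a i).1.1 (w.1 e)) = e
    rw [hw, map_neg, ha1 i e' (Submodule.mem_sup_right D.mem_e'), map_neg, hwe, neg_neg])
  refine mT_eq_zero _ _ _ w (fun u => (a u).1) (fun u => ⟨(a u).2, ha3 u⟩) fun h hh hh' => ?_
  have h3 : ∀ u, D.ph φ (h * a u) * conj (D.ph φ (w⁻¹ * (h * a u) * w)) =
      φ (D.pi ⟨h, hh⟩ * u) * conj (φ (c (D.pi ⟨h, hh⟩ * u))) := by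
    intro u
    have h5 : w⁻¹ * (h * a u) * w ∈ stab P.E L.X := by
      convert mul_mem hh' (ha3 u) using 1
      group
    have h6 : D.pi ⟨h * a u, mul_mem hh (a u).2⟩ = D.pi ⟨h, hh⟩ * u := by
      rw [← ha u, ← map_mul, ha u]; rfl
    rw [D.ph_of φ (mul_mem hh (a u).2), D.ph_of φ h5, h4 _ (mul_mem hh (a u).2), h6]
  simp only [h3]
  rw [finsum_eq_sum_of_fintype, ← h2]
  exact Fintype.sum_equiv (Equiv.mulLeft (D.pi ⟨h, hh⟩)) _ _ fun _ => rfl

omit [Finite V] in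
theorem index_eq [FiniteDimensional F V]
    (h : ∀ v, v ≠ 0 → P.Sing v → ∃ g ∈ P.E, g e ∈ F ∙ v) :
    (stab P.E L.X).index = Nat.card {v : V // v ≠ 0 ∧ P.Sing v} := by
  have h1 : stab P.E L.X = MulAction.stabilizer P.E e := by
    ext g
    exact ⟨fun hg => D.fix hg, fun hg => D.mem_stab hg⟩
  have h2 : MulAction.orbit P.E e = {v | v ≠ 0 ∧ P.Sing v} := by
    ext v
    constructor
    · rintro ⟨g, rfl⟩
      exact ⟨fun h0 => D.ne ((map_eq_zero_iff _ g.1.injective).1 h0), D.sing.map (E_le_isom g.2)⟩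
    · rintro ⟨hv0, hv⟩
      obtain ⟨g, hg, hgv⟩ := h v hv0 hv
      obtain ⟨c, hc⟩ := Submodule.mem_span_singleton.1 hgv
      have hc0 : c ≠ 0 := by
        rintro rfl
        rw [zero_smul, eq_comm, map_eq_zero_iff _ g.injective] at hc
        exact D.ne hc
      rw [D.two c hc0, one_smul] at hc
      exact ⟨⟨g, hg⟩, hc.symm⟩
  rw [h1, MulAction.index_stabilizer, h2]
  rfl

end Dat

/-- M2B. -/
theorem m2b (hLevi : LeviStmt) (hNorm : NormStmt) (hZero : ZeroStmt) (hOpp : OppStmt)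
    (hSing : SingStmt) (hRk : Rk3Stmt) (hZen : ZenStmt) : M2bStmt := by
  intro F V _ _ _ _ _ P hT hF hM
  obtain ⟨L, hTW⟩ := hLevi F V P false 3 2 1 hT (by omega)
  obtain ⟨φ, n, hφ, hn, h10, hU, hσ⟩ := hM L.W L.PW hTW
  obtain ⟨hε, hΛ, -, hdim⟩ := hT.orth rfl
  obtain ⟨-, -, -, hdimW⟩ := hTW.orth rfl
  obtain ⟨e, he, hX⟩ := exists_gen L.dim
  obtain ⟨e', he', hX'⟩ := exists_gen L.dim'
  have two : ∀ a : F, a ≠ 0 → a = 1 := by
    obtain ⟨y, -, hy⟩ := (Nat.card_eq_two_iff' (0 : F)).1 hF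
    exact fun a ha => (hy a ha).trans (hy 1 one_ne_zero).symm
  have D : Dat L e e' :=
    { hσ := hT.sig, hε := hε, hΛ := hΛ, two := two, hX := hX, hX' := hX', ne := he
      pair := two _ fun h => by
        have : e ∈ L.X ⊓ P.perp L.X' := by
          rw [hX, hX']
          exact ⟨Submodule.mem_span_singleton_self e, mem_perp_span_singleton.2 h⟩
        rw [L.opp] at this
        exact he this
      idx := by rw [(hZen F V P false 3 2 hT).2.1 (Or.inr (by omega)), hF]; rfl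
      idxW := by rw [(hZen F _ L.PW false _ 2 hTW).2.1 (Or.inr (by omega)), hF]; rfl
      opp := (hOpp F V P L.X hT.sig L.ts).2.2
      nonsing := by
        obtain ⟨Fr, -⟩ := hTW.frame
        obtain ⟨a⟩ : Nonempty (BI (3 - 1)) := ⟨(⟨0, by omega⟩, true)⟩
        refine ⟨Fr.e a + Fr.e (ng a), ?_⟩
        have h1 := L.PW.h_add (Fr.e a) (Fr.e (ng a))
        have h2 : P.h (Fr.e a) ∈ P.Λ := Fr.sing a
        have h3 : P.h (Fr.e (ng a)) ∈ P.Λ := Fr.sing (ng a)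
        change P.h (Fr.e a + Fr.e (ng a) : L.W) - P.h (Fr.e a) - P.h (Fr.e (ng a)) - _ ∈ P.Λ at h1
        rw [hΛ, AddSubgroup.mem_bot] at h1 h2 h3
        rw [h2, h3, sub_zero, sub_zero, sub_eq_zero] at h1
        rw [h1]
        exact Fr.pair a }
  obtain ⟨w, hw, σ, hσi, hσE, hwσ⟩ := D.exists_w
  have hc := H11.isCharacter_of_irr hφ
  have hmp : mp w.1 L.X = L.X' := by
    rw [hX, hX', mp, Submodule.map_span, Set.image_singleton, ← Submodule.span_neg]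
    simp [hw]
  have hN := hNorm F V P P.E L.X (fun _ => 1) (D.ph φ) (D.ph φ) w hT.sig le_rfl
    (fun g hg => ⟨fun x y h => by rw [isom_f (E_le_isom hg), h], fun x h => h.map (E_le_isom hg)⟩)
    L.ts (by rw [hX]; simpa using he)
    (fun Z h1 h2 => by
      have := (isSimpleModule_iff_finrank_eq_one.2 L.dim).eq_bot_or_eq_top Z
      tauto)
    (by simpa only [one_mul] using D.clOn (H11.isClassFunction_of_isCharacter hc))
    (D.clOn (H11.isClassFunction_of_isCharacter hc))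
    (fun h hh g _ hg => D.ph_top φ hh hg) (fun h hh g hg => D.ph_top φ hh hg.2)
    (by rw [hmp, L.opp])
    (fun x h1 h2 => by simpa only [one_mul] using D.mT_orth hZero hc hU x h1 h2)
  simp only [one_mul, D.ph_coe] at hN
  rw [D.mT_opp hσ hw hσi hσE hwσ, mul_zero, add_zero] at hN
  have hirr := H11.isIrrCharacter_comp_of_surjective hφ D.pi D.pi_surj
  let _ := Fintype.ofFinite P.E
  let _ := Fintype.ofFinite (stab P.E L.X)
  have hχ : IsIrrCharacter P.E (ind (stab P.E L.X) fun h => φ (D.pi h)) :=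
    H11.isIrrCharacter_of_classInner_self
      (H14.IsCharacter.indFun _ (H11.isCharacter_of_irr hirr))
      (hN.trans (H11.classInner_irr_self hirr))
  have hdeg : (ind (stab P.E L.X) fun h => φ (D.pi h)) 1 = (119 * n : ℕ) := by
    rw [ind, H14.indFun_one, map_one, hn, D.index_eq fun v hv0 hv =>
      (hRk F V P false 3 2 hT (by omega) e 0 v 0 D.sing P.sing_zero hv P.sing_zero he hv0).1,
      hSing F V P false 3 2 hT, hF, Nat.cast_mul]
    rfl
  have hcen : Subgroup.center P.E = ⊥ := by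
    refine eq_bot_iff.2 fun z hz => ?_
    rcases (hZen F V P false 3 2 hT).1 (by omega) (Or.inr (by omega)) z hz with h | h
    · exact h
    · refine Subtype.ext (h.trans (LinearEquiv.ext fun x => ?_))
      have h2 : (-1 : F) = 1 := two _ (neg_ne_zero.2 one_ne_zero)
      change -x = x
      rw [← neg_one_smul F x, h2, one_smul]
  let i : QE P ≃* P.E :=
    (QuotientGroup.quotientMulEquivOfEq hcen).trans QuotientGroup.quotientBot
  refine ⟨119 * n, mul_dvd_mul_left 119 h10, fun g => _, H11.isIrrCharacter_comp_mulEquiv hχ i, ?_⟩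
  exact (congrArg _ (map_one i)).trans hdeg

end Cfsg.Agent.H30.DgM2b
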