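import Mathlib
import Cfsg.Agent.H50.E72Defs

/-! Easy facts on eigenspace dimensions (piece E72-KIT). -/

set_option autoImplicit false

namespace Cfsg.Agent.H30.E72Kit

open Cfsg.Agent.H50.E72 Module Multiplicative
open scoped Matrix

section
variable {n : Type} [Fintype n] [DecidableEq n] (π : G0 →* Matrix n n (ZMod 2))

theorem act_mul (g h : G0) (v : n → K) : act π (g * h) v = act π g (act π h v) := by
  rw [map_mul]; rfl

theorem act_one (v : n → K) : act π 1 v = v := by
  rw [map_one]; rfl

theorem act_inj (g : G0) : Function.Injective (act π g) := by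
  intro v w h
  have h2 := congrArg (act π g⁻¹) h
  rwa [← act_mul, ← act_mul, inv_mul_cancel, act_one, act_one] at h2

theorem c5 (g : G0) (W W' : Submodule K (n → K)) (h : ∀ v ∈ W, act π g v ∈ W') :
    finrank K W ≤ finrank K W' := by
  refine LinearMap.finrank_le_finrank_of_injective (f := (act π g).restrict h) ?_
  intro v w hvw
  exact Subtype.ext (act_inj π g (congrArg Subtype.val hvw))

theorem c1le (g g' : G0) (η : K) (h : IsConj g g') : mu π g η ≤ mu π g' η := by
  obtain ⟨c, hc⟩ := isConj_iff.1 h
  refine c5 π c _ _ fun v hv => ?_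
  rw [mem_eig] at hv ⊢
  have : g' * c = c * g := by rw [← hc]; group
  rw [← act_mul, this, act_mul, hv, map_smul]

theorem c2le (g : G0) : eig π g⁻¹ 1 ≤ eig π g 1 := by
  intro v hv
  rw [mem_eig, one_smul] at hv ⊢
  conv_lhs => rw [← hv]
  rw [← act_mul, mul_inv_cancel, act_one]

theorem c4 (a : G0) (ha : a * a = 1) : Fintype.card n ≤ 2 * fx π a := by
  set f : Module.End K (n → K) := act π a - 1 with hf
  have hker : LinearMap.ker f = eig π a 1 := by
    ext v
    rw [LinearMap.mem_ker, mem_eig, one_smul, hf, LinearMap.sub_apply, Module.End.one_apply,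
      sub_eq_zero]
  have h2 : ∀ w : n → K, w + w = 0 := fun w => by
    ext i
    exact CharTwo.add_self_eq_zero (w i)
  have hle : LinearMap.range f ≤ LinearMap.ker f := by
    rintro _ ⟨v, rfl⟩
    rw [hker, mem_eig, one_smul, hf, LinearMap.sub_apply, Module.End.one_apply, map_sub,
      ← act_mul, ha, act_one]
    have e1 := h2 v
    have e2 := h2 (act π a v)
    rw [sub_eq_sub_iff_add_eq_add, e1, e2]
  have h1 := LinearMap.finrank_range_add_finrank_ker f
  have h3 := Submodule.finrank_mono hle
  rw [Module.finrank_fintype_fun_eq_card] at h1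
  have h4 : fx π a = finrank K (LinearMap.ker f) := by rw [hker]; rfl
  omega

end

theorem kit : KitStmt := by
  intro n _ _ π
  refine ⟨fun g g' η h => le_antisymm (c1le π g g' η h) (c1le π g' g η h.symm), fun g => ?_, ?_,
    c4 π, c5 π, ?_⟩
  · have h1 := c2le π g
    have h2 := c2le π g⁻¹
    rw [inv_inv] at h2
    unfold fx mu
    rw [le_antisymm h1 h2]
  · have : eig π 1 1 = ⊤ := by
      rw [eq_top_iff]
      intro v _
      rw [mem_eig, one_smul, act_one]
    unfold fx mu
    rw [this, finrank_top, Module.finrank_fintype_fun_eq_card]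
  · intro k s ζ x W g α χ χ' hW hα hx hχ
    refine c5 π g _ _ fun v hv => ⟨hW v hv.1, ?_⟩
    have hv2 := hv.2
    simp only [wsp, SetLike.mem_coe, Submodule.mem_iInf, mem_eig] at hv2 ⊢
    intro e'
    obtain ⟨e, rfl⟩ := hα e'
    have : x (ofAdd (α e)) * g = g * x (ofAdd e) := by rw [← hx]; group
    rw [← act_mul, this, act_mul, hv2 e, map_smul, hχ]

end Cfsg.Agent.H30.E72Kit
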