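import Cfsg.Agent.H50.E83Defs
import Cfsg.Agent.H29.AS6

/-! Centralisers of toral involutions in `E₈` over the closure of the field with three elements. -/

set_option autoImplicit false

namespace Cfsg.Agent.H30.E83T0

open Equiv Cfsg.Lie H37 H40 H34 H29 Finset Cfsg.Agent.H50.E83

section filt
variable {G : Type*} [Group G] {Φ : Type*} {X : Φ → Subgroup G} {S : Set Φ} {f : Φ → ℤ}

theorem pow_level (h : Filt X S f) {p : ℕ} (hp : ∀ r ∈ S, ∀ x ∈ X r, x ^ p = 1) (c : ℤ) {u : G}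
    (hu : u ∈ gen X {k | k ∈ S ∧ c ≤ f k}) : u ^ p ∈ gen X {k | k ∈ S ∧ c + 1 ≤ f k} := by
  have sub : ∀ c : ℤ, gen X {k | k ∈ S ∧ c ≤ f k} ≤ gen X S := fun c => gen_mono fun _ hk => hk.1
  have nrm := h.gen_le_normalizer (Filt.upper_level (S := S) (f := f) (c + 1))
  refine (gen_induction (fun u => u ∈ gen X {k | k ∈ S ∧ c ≤ f k} ∧
    u ^ p ∈ gen X {k | k ∈ S ∧ c + 1 ≤ f k}) hu ?_ ⟨one_mem _, by simp⟩ ?_).2
  · intro k hk x hx
    exact ⟨mem_gen hk hx, by rw [hp k hk.1 x hx]; exact one_mem _⟩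
  · rintro x y ⟨hx, hx'⟩ ⟨hy, hy'⟩
    refine ⟨mul_mem hx hy, ?_⟩
    have key : ∀ n : ℕ, (x * y) ^ n * (x ^ n * y ^ n)⁻¹ ∈ gen X {k | k ∈ S ∧ c + 1 ≤ f k} := by
      intro n
      induction n with
      | zero => simp
      | succ n ih =>
        have e : (x * y) ^ (n + 1) * (x ^ (n + 1) * y ^ (n + 1))⁻¹ =
            x * y * ((x * y) ^ n * (x ^ n * y ^ n)⁻¹) * (x * y)⁻¹ *
              (x * (y * x ^ n * y⁻¹ * (x ^ n)⁻¹) * x⁻¹) := by
          rw [pow_succ' (x * y), pow_succ' x, pow_succ' y]; group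
        rw [e]
        exact mul_mem (conj_mem_of_mem_normalizer (nrm (sub c (mul_mem hx hy))) ih)
          (conj_mem_of_mem_normalizer (nrm (sub c hx))
            (h.comm_mem_level c hy (sub c (pow_mem hx n))))
    have := mul_mem (key p) (mul_mem hx' hy')
    rwa [inv_mul_cancel_right] at this

theorem pow_eq_one [Finite Φ] (h : Filt X S f) {p : ℕ} (hp : ∀ r ∈ S, ∀ x ∈ X r, x ^ p = 1)
    {u : G} (hu : u ∈ gen X S) : ∃ n : ℕ, u ^ p ^ n = 1 := by
  obtain ⟨a, ha⟩ := (Set.finite_range f).bddBelow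
  obtain ⟨b, hb⟩ := (Set.finite_range f).bddAbove
  have key : ∀ n : ℕ, u ^ p ^ n ∈ gen X {k | k ∈ S ∧ a + n ≤ f k} := by
    intro n
    induction n with
    | zero =>
      rw [pow_zero, pow_one]
      exact gen_sub hu fun k hk => ⟨hk, by simpa using ha ⟨k, rfl⟩⟩
    | succ n ih =>
      rw [pow_succ, pow_mul]
      refine gen_sub (pow_level h hp _ ih) fun k hk => ⟨hk.1, ?_⟩
      have := hk.2
      push_cast
      omega
  refine ⟨(b - a + 1).toNat, ?_⟩
  have := key (b - a + 1).toNat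
  have e : {k | k ∈ S ∧ a + ((b - a + 1).toNat : ℕ) ≤ f k} = (∅ : Set Φ) := by
    refine Set.eq_empty_of_forall_notMem fun k hk => ?_
    have h1 := hk.2
    have h2 : f k ≤ b := hb ⟨k, rfl⟩
    omega
  rw [e, gen_empty] at this
  exact this

end filt

variable {D : ChevalleyDatum} {C : Cert D} {F : Type*} [Field F]

theorem odd_Up [CharP F 3] {u : D.group F} (hu : u ∈ (C.split F).Up) : Odd (orderOf u) := by
  obtain ⟨n, hn⟩ := pow_eq_one (p := 3) (Split.filt (P := C.split F) C.S.cl_pos) (by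
    intro r _ x hx
    obtain ⟨t, rfl⟩ := Cert.mem_X.1 hx
    have e : t + t + t = 0 := by
      have : (3 : F) = 0 := CharP.cast_eq_zero F 3
      linear_combination t * this
    rw [pow_succ, pow_two, ← Cert.xg_add, ← Cert.xg_add, e, Cert.xg_zero]) ((Split.U_eq_gen _).le hu)
  exact Odd.of_dvd_nat (Odd.pow (by decide)) (orderOf_dvd_of_pow_eq_one hn)

theorem parts {h a n u : D.group F} (hs : h ∈ (C.split F).H) (ha : a ∈ (C.split F).Up)
    (hn : n ∈ (C.split F).N) (hu : u ∈ (C.split F).U (C.S.inv ((C.split F).ν n)))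
    (hx : Commute h (a * n * u)) : Commute h a ∧ Commute h n ∧ Commute h u := by
  have hN := Split.H_le_N hs
  have e1 : (C.split F).ν (h * n * h⁻¹) = (C.split F).ν n := by
    rw [(C.split F).ν_mul _ (mul_mem hN hn) _ (inv_mem hN), (C.split F).ν_mul _ hN _ hn,
      Split.ν_H hs, Split.ν_H (inv_mem hs), one_mul, mul_one]
  obtain ⟨e2, e3, e4⟩ := Split.bruhat_unique (Split.conj_U_H hs ha) (cj1 _ hN hn)
    (e1.symm ▸ Split.conj_U_H hs hu) ha hn hu (by
      calc _ = h * (a * n * u) * h⁻¹ := by group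
        _ = _ := by rw [hx.eq, mul_inv_cancel_right])
  exact ⟨mul_inv_eq_iff_eq_mul.1 e2, mul_inv_eq_iff_eq_mul.1 e3, mul_inv_eq_iff_eq_mul.1 e4⟩

theorem up_one {I : Type*} {ζ : Fˣ} {h : I → D.group F} {f : I → Fin D.nroots → ℤ}
    (hl : ∀ i, Lab C ζ (h i) (f i)) (hf : ∀ r, ∃ i, ζ ^ f i r ≠ 1) {v : D.group F}
    (hv : v ∈ (C.split F).Up) (e : ∀ i, Commute (h i) v) : v = 1 := by
  classical
  let L := (univ.filter C.S.pos).toList
  obtain ⟨y, hy, rfl⟩ := (C.split F).exists_prod C.S.cl_pos (L := L) (nodup_toList _)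
    (fun r => by rw [mem_toList, mem_filter]; simp) hv
  choose t ht using fun r => Cert.mem_X.1 (hy r)
  refine List.prod_eq_one fun _ hz => ?_
  obtain ⟨r, hr, rfl⟩ := List.mem_map.1 hz
  obtain ⟨i, hi⟩ := hf r
  have h3 := (C.split F).prod_inj (L := L) (nodup_toList _)
    (fun r hr => (mem_filter.1 (mem_toList.1 hr)).2)
    (y := fun r => h i * y r * (h i)⁻¹)
    (fun r _ => by rw [← ht, (hl i).conj_xg]; exact C.xg_mem_X _ _) (fun r _ => hy r) (by
      rw [← mul_inv_eq_iff_eq_mul.2 (e i).eq]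
      exact ((map_list_prod (MulAut.conj (h i)) _).trans (by rw [List.map_map]; rfl)).symm)
  have h4 := h3 r hr
  simp only [← ht, (hl i).conj_xg] at h4
  rw [← ht]
  by_cases h5 : t r = 0
  · rw [h5, Cert.xg_zero]
  exact absurd (Units.ext (by simpa using (mul_eq_right₀ h5).1 (Cert.xg_injective r.2 h4))) hi

theorem t0 : T0Stmt := by
  intro I h f hl
  have main : ∀ g, (∀ i, Commute (h i) g) → ∃ a ∈ P8.Up, ∃ n ∈ P8.N, ∃ u ∈ P8.Up, g = a * n * u ∧
      ∀ i, Commute (h i) a ∧ Commute (h i) n ∧ Commute (h i) u := by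
    intro g hg
    obtain ⟨a, ha, n, hn, u, hu, rfl⟩ := P8.bruhat g
    exact ⟨a, ha, n, hn, u, Split.Uinv_le_Up hu, rfl, fun i => parts (hl i).mem_H ha hn hu (hg i)⟩
  refine ⟨main, fun ho g hg => ?_, fun u hu => odd_Up hu⟩
  obtain ⟨a, ha, n, hn, u, hu, rfl, c⟩ := main g hg
  have hf : ∀ r, ∃ i, (-1 : Kˣ) ^ f i r ≠ 1 := by
    intro r
    obtain ⟨i, hi⟩ := ho r
    refine ⟨i, ?_⟩
    rw [hi.neg_one_zpow]
    intro e
    have e2 : (-1 : K) = 1 := by simpa using congrArg Units.val e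
    have e3 : (3 : K) = 0 := CharP.cast_eq_zero K 3
    exact one_ne_zero (α := K) (by linear_combination e2 + e3)
  rw [up_one hl hf ha fun i => (c i).1, up_one hl hf hu fun i => (c i).2.2, one_mul, mul_one]
  exact hn

end Cfsg.Agent.H30.E83T0
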