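import Mathlib
import Cfsg.Agent.H11.ElDefs

/-! The Zassenhaus action of `C(y)` in the last case (piece EL-N6z). -/

set_option autoImplicit false
open Subgroup

namespace Cfsg.Agent.H30.ElN6z

open Cfsg.Agent.H11.EL

universe u

section
variable {G : Type u} [Group G]

theorem ct_le_nm (A : Subgroup G) : Ct A ≤ Nm A := centralizer_le_normalizer _

theorem cj_inv {g : G} {A B : Subgroup G} (h : cj g A = B) : cj g⁻¹ B = A := by
  rw [← h, ← cj_mul, inv_mul_cancel, cj_one]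

theorem fx_cj {D : Set (Subgroup G)} (hD : Cls D) {y g : G} (hg : Commute g y) {X : Subgroup G}
    (hX : X ∈ Fx D y) : cj g X ∈ Fx D y := by
  refine ⟨hD.conj _ hX.1 g, cj_eq_iff.1 ?_⟩
  rw [← cj_mul, ← hg.eq, cj_mul, cj_eq_iff.2 hX.2]

theorem two_cases {t k : G} (ht : orderOf t = 2) (hk : k ∈ zpowers t) : k = 1 ∨ k = t := by
  obtain ⟨n, rfl⟩ := mem_zpowers_iff.1 hk
  have h2 : t ^ (2 : ℤ) = 1 := by
    have := pow_orderOf_eq_one t
    rw [ht] at this
    exact_mod_cast this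
  rcases Int.even_or_odd' n with ⟨m, rfl | rfl⟩
  · left; rw [zpow_mul, h2, one_zpow]
  · right; rw [zpow_add, zpow_mul, h2, one_zpow, one_mul, zpow_one]

end

theorem n6z (b : Base.{u}) (z3 : Z3Stmt.{u}) : N6zStmt.{u} := by
  intro G _ _ D A B O t y h
  have hne := h.ne
  have hD : Cls D := hne.toCls
  have hlp : LP A B := hne.lp A h.hA B h.hB h.AB
  obtain ⟨f, s, hc1⟩ := b.lc1 A B hlp
  have hc := b.lc A B f s hlp hc1
  have hT := b.lt A B f s hlp hc
  have hla := b.la _ hlp.iso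
  have hK2 : Nat.card (Ct (A ⊔ B)) = 2 := by rw [h.hK, Nat.card_zpowers, h.t2]
  have hO : Nat.card O = D.ncard - 1 := by
    have h1 := hne.cC A h.hA B h.hB h.AB
    have h2 := h.os.card
    rw [hK2] at h1
    omega
  have htK : t ∈ Ct (A ⊔ B) := h.hK ▸ mem_zpowers t
  have htA : t ∈ Ct A := centralizer_le (SetLike.coe_subset_coe.2 le_sup_left) htK
  have htB : t ∈ Nm B := ct_le_nm B (centralizer_le (SetLike.coe_subset_coe.2 le_sup_right) htK)
  have htO : t ∉ O := fun ht => by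
    have h1 : orderOf t ∣ Nat.card O := orderOf_dvd_natCard _ ht
    rw [h.t2] at h1
    exact (Nat.not_even_iff_odd.2 h.os.odd) (even_iff_two_dvd.2 h1)
  have hidx : (O.subgroupOf (Ct A)).index = 2 := by
    have h1 := (O.subgroupOf (Ct A)).card_mul_index
    rw [Nat.card_congr (subgroupOfEquivOfLe h.os.ct).toEquiv, ← h.os.card, mul_comm 2] at h1
    exact Nat.eq_of_mul_eq_mul_left Nat.card_pos h1
  have trO : ∀ E ∈ D, E ≠ A → ∃ o ∈ O, cj o B = E := by
    intro E hE hEA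
    obtain ⟨c, hcA, hcB⟩ := hne.ctr A h.hA B h.hB E hE h.AB.symm hEA
    by_cases hcO : c ∈ O
    · exact ⟨c, hcO, hcB⟩
    · refine ⟨c * t, ?_, by rw [cj_mul, cj_eq_iff.2 htB, hcB]⟩
      have := (mul_mem_iff_of_index_two hidx (a := ⟨c, hcA⟩) (b := ⟨t, htA⟩)).2
        (by simp [mem_subgroupOf, hcO, htO])
      simpa [mem_subgroupOf] using this
  have reg : ∀ o ∈ O, o ∈ Nm B → o = 1 := by
    intro o ho hoB
    have h1 := hne.cen A h.hA B h.hB o (h.os.ct ho) hoB
    rw [h.hK] at h1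
    rcases two_cases h.t2 h1 with h2 | h2
    · exact h2
    · exact absurd (h2 ▸ ho) htO
  have hBy : B ∈ Fx D y := ⟨h.hB, h.yB⟩
  have hAy : A ∈ Fx D y := ⟨h.hA, h.yN⟩
  have trC : ∀ E ∈ Fx D y, E ≠ A → ∃ o ∈ O, Commute o y ∧ cj o B = E := by
    intro E hE hEA
    obtain ⟨o, ho, hoB⟩ := trO E hE.1 hEA
    refine ⟨o, ho, ?_, hoB⟩
    have h1 : y * o * y⁻¹ ∈ O := (mem_normalizer_iff.1 (h.os.nm h.yN) o).1 ho
    have h2 : o⁻¹ * (y * o * y⁻¹) = 1 := by
      refine reg _ (mul_mem (inv_mem ho) h1) (cj_eq_iff.1 ?_)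
      rw [cj_mul, cj_mul, cj_mul, cj_eq_iff.2 (inv_mem h.yB), hoB, cj_eq_iff.2 hE.2]
      exact cj_inv hoB
    have h3 : y * o * y⁻¹ = o := (inv_mul_eq_one.1 h2).symm
    exact (mul_inv_eq_iff_eq_mul.1 h3).symm
  have hyL : y ∈ Nm (A ⊔ B) := cj_eq_iff.1 (by rw [cj_sup, cj_eq_iff.2 h.yN, cj_eq_iff.2 h.yB])
  have hyi : y⁻¹ = y := inv_eq_of_mul_eq_one_right h.yy
  have hsy : Commute s y := by
    have h1 := hc.inv s hc.sA hc.sB y h.yN h.yB
    have h2 : s * y * s⁻¹ * y ∈ A ⊔ B := by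
      have h3 := (mem_normalizer_iff.1 hyL s⁻¹).1 (inv_mem hc.sL)
      rw [hyi] at h3
      have := mul_mem hc.sL h3
      simpa [mul_assoc] using this
    have h4 := hla.ctr _ h2 h1
    have h5 : s * y * s⁻¹ = y := by rw [mul_eq_one_iff_eq_inv.1 h4, hyi]
    exact mul_inv_eq_iff_eq_mul.1 h5
  have std : ∀ X ∈ Fx D y, ∀ Y ∈ Fx D y, X ≠ Y → ∃ g : G, Commute g y ∧ cj g X = A ∧ cj g Y = B := by
    intro X hX Y hY hXY
    have s1 : ∃ g : G, Commute g y ∧ cj g X = A := by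
      by_cases hXA : X = A
      · exact ⟨1, Commute.one_left y, by rw [cj_one, hXA]⟩
      · obtain ⟨o, -, hoy, hoB⟩ := trC X hX hXA
        exact ⟨s * o⁻¹, hsy.mul_left hoy.inv_left, by rw [cj_mul, cj_inv hoB, hc.sB]⟩
    obtain ⟨g, hgy, hgX⟩ := s1
    have hY' : cj g Y ≠ A := fun e => hXY ((cj_inv hgX).symm.trans (cj_inv e))
    obtain ⟨o, ho, hoy, hoB⟩ := trC _ (fx_cj hD hgy hY) hY'
    refine ⟨o⁻¹ * g, hoy.inv_left.mul_left hgy, ?_, by rw [cj_mul, cj_inv hoB]⟩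
    rw [cj_mul, hgX, cj_eq_iff.2 (inv_mem (ct_le_nm A (h.os.ct ho)))]
  refine ⟨⟨?_, (z3 D A y hne.toNB h.hA h.yy h.yA).2⟩, ?_, ?_, hO⟩
  · intro X hX Y hY X' hX' Y' hY' hXY hXY'
    obtain ⟨g, hg, g1, g2⟩ := std X hX Y hY hXY
    obtain ⟨g', hg', g1', g2'⟩ := std X' hX' Y' hY' hXY'
    exact ⟨g'⁻¹ * g, hg'.inv_left.mul_left hg, by rw [cj_mul, g1, cj_inv g1'],
      by rw [cj_mul, g2, cj_inv g2']⟩
  · have e : Fx D y = insert A ((fun o => cj o B) '' ((O ⊓ C1 y : Subgroup G) : Set G)) := by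
      ext E
      constructor
      · intro hE
        by_cases hEA : E = A
        · exact Or.inl hEA
        · obtain ⟨o, ho, hoy, hoB⟩ := trC E hE hEA
          exact Or.inr ⟨o, ⟨ho, mem_centralizer_singleton_iff.2 hoy.eq⟩, hoB⟩
      · rintro (rfl | ⟨o, ⟨-, hoy⟩, rfl⟩)
        · exact hAy
        · exact fx_cj hD (mem_centralizer_singleton_iff.1 hoy) hBy
    have hnot : A ∉ (fun o => cj o B) '' ((O ⊓ C1 y : Subgroup G) : Set G) := by
      rintro ⟨o, ⟨ho, -⟩, hoB⟩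
      have h1 := cj_inv hoB
      rw [cj_eq_iff.2 (inv_mem (ct_le_nm A (h.os.ct ho)))] at h1
      exact h.AB h1
    have hinj : Set.InjOn (fun o => cj o B) ((O ⊓ C1 y : Subgroup G) : Set G) := by
      intro o ho o' ho' e'
      have h1 : o⁻¹ * o' = 1 := by
        refine reg _ (mul_mem (inv_mem ho.1) ho'.1) (cj_eq_iff.1 ?_)
        rw [cj_mul]
        exact cj_inv e'
      exact inv_mul_eq_one.1 h1
    rw [e, Set.ncard_insert_of_notMem hnot, hinj.ncard_image]
    rfl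
  · have hyt : Commute t y := by
      have h1 : y * t * y⁻¹ ∈ Ct (A ⊔ B) := by
        rw [mem_centralizer_iff]
        intro l hl
        have h2 := (mem_normalizer_iff''.1 hyL l).1 hl
        have h3 := mem_centralizer_iff.1 htK _ h2
        calc l * (y * t * y⁻¹) = y * (y⁻¹ * l * y * t) * y⁻¹ := by group
          _ = y * (t * (y⁻¹ * l * y)) * y⁻¹ := by rw [h3]
          _ = y * t * y⁻¹ * l := by group
      rw [h.hK] at h1
      rcases two_cases h.t2 h1 with h2 | h2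
      · have h3 : t = 1 := by simpa using h2
        have h4 := h.t2
        rw [h3, orderOf_one] at h4
        omega
      · exact (mul_inv_eq_iff_eq_mul.1 h2).symm
    have hfy : Commute f y := (hc.com y h.yN h.yB).symm
    have hle : (Nm A ⊓ Nm B : Subgroup G) ≤ C1 y := by
      intro g hg
      obtain ⟨k, hk, n, hgk⟩ := hT.e2T y h.yN h.yB h.yA g hg.1 hg.2
      rw [h.hK] at hk
      have hky : Commute k y := by
        rcases two_cases h.t2 hk with h2 | h2
        · rw [h2]; exact Commute.one_left y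
        · rw [h2]; exact hyt
      refine mem_centralizer_singleton_iff.2 (Commute.eq ?_)
      rcases hgk with rfl | rfl
      · exact hky.mul_left (hfy.pow_left n)
      · exact (hky.mul_left (hfy.pow_left n)).mul_left (Commute.refl y)
    rw [inf_eq_right.2 hle, hT.e2c (fun e => e y h.yN h.yB h.yA), hK2]

end Cfsg.Agent.H30.ElN6z
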