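import Cfsg.Agent.H30.FlavSolv
import Cfsg.Agent.H53.FlavQ

/-!
# The Hall-Higman-Shult theorem for linear representations
-/

set_option autoImplicit false
set_option linter.unusedSectionVars false

namespace Cfsg.Agent.H30.Flav

open Cfsg Cfsg.Agent.H63 Cfsg.Agent.H67 Cfsg.Agent.H69 Cfsg.Agent.H88 Subgroup
open scoped commutatorElement

universe u v w

/-- A finite model `W ⋊ X` of a representation in prime characteristic. -/
theorem exists_model {X : Type u} [Group X] [Finite X] {k : Type v} [Field k] {p : ℕ}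
    [Fact p.Prime] [CharP k p] {V : Type w} [AddCommGroup V] [Module k V] [FiniteDimensional k V]
    (ρ : Representation k X V) :
    ∃ (Γ : Type (max u w)) (_ : Group Γ) (_ : Finite Γ) (f : X →* Γ) (W : Subgroup Γ) (ι : Γ → V),
      Function.Injective f ∧ W.Normal ∧ IsPGroup p W ∧ (∀ a ∈ W, ι a = 0 ↔ a = 1) ∧
      (∀ a ∈ W, ∀ x, f x * a = a * f x ↔ ρ x (ι a) = ι a) ∧ Submodule.span k (ι '' W) = ⊤ := by
  let b := Module.finBasis k V
  let A : AddSubgroup V := AddSubgroup.closure (Set.range fun t : X × Fin _ => ρ t.1 (b t.2))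
  have hA : ∀ x : X, ∀ a ∈ A, ρ x a ∈ A := fun x a ha => by
    induction ha using AddSubgroup.closure_induction with
    | mem _ h =>
      obtain ⟨t, rfl⟩ := h
      exact AddSubgroup.subset_closure ⟨(x * t.1, t.2), by simp⟩
    | zero => simp
    | add _ _ _ _ h1 h2 => rw [map_add]; exact add_mem h1 h2
    | neg _ _ h1 => rw [map_neg]; exact neg_mem h1
  have hp : ∀ a : A, p • a = 0 := fun a => Subtype.ext (by
    rw [AddSubgroup.coe_nsmul, ← Nat.cast_smul_eq_nsmul k, CharP.cast_eq_zero, zero_smul]; rfl)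
  have : AddGroup.FG A := (AddGroup.fg_iff_addSubgroup_fg A).2
    ((AddSubgroup.fg_iff A).2 ⟨_, rfl, Set.finite_range _⟩)
  have : Finite A := AddCommGroup.finite_of_fg_isAddTorsion A fun a =>
    isOfFinAddOrder_iff_nsmul_eq_zero.2 ⟨p, (Fact.out : p.Prime).pos, hp a⟩
  let _ : MulDistribMulAction X (Multiplicative A) :=
    { smul := fun x a => Multiplicative.ofAdd ⟨ρ x a.toAdd, hA x _ a.toAdd.2⟩
      one_smul := fun a => Subtype.ext (show ρ 1 a.toAdd = a.toAdd by simp)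
      mul_smul := fun x y a => Subtype.ext (show ρ (x * y) a.toAdd = ρ x (ρ y a.toAdd) by simp)
      smul_mul := fun x a c => Subtype.ext (map_add (ρ x) a.toAdd.1 c.toAdd.1)
      smul_one := fun x => Subtype.ext (map_zero (ρ x)) }
  let φ := MulDistribMulAction.toMulAut X (Multiplicative A)
  have : Finite (Multiplicative A ⋊[φ] X) := Finite.of_equiv _ SemidirectProduct.equivProd.symm
  refine ⟨Multiplicative A ⋊[φ] X, inferInstance, inferInstance, SemidirectProduct.inr,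
    SemidirectProduct.inl.range, fun g => g.left.toAdd, SemidirectProduct.inr_injective, ?_, ?_, ?_,
    ?_, ?_⟩
  · rw [SemidirectProduct.range_inl_eq_ker_rightHom]
    infer_instance
  · rintro ⟨_, a, rfl⟩
    refine ⟨1, Subtype.ext ?_⟩
    rw [pow_one, Subgroup.coe_pow, ← map_pow, show a ^ p = 1 from hp a.toAdd, map_one]
    rfl
  · rintro _ ⟨a, rfl⟩
    rw [map_eq_one_iff _ SemidirectProduct.inl_injective]
    exact ⟨fun h => Subtype.ext h, fun h => by rw [h]; rfl⟩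
  · rintro _ ⟨a, rfl⟩ x
    rw [← mul_inv_eq_iff_eq_mul, ← map_inv, ← SemidirectProduct.inl_aut,
      SemidirectProduct.inl_injective.eq_iff]
    exact ⟨fun h => congrArg Subtype.val h, fun h => Subtype.ext h⟩
  · rw [eq_top_iff, ← b.span_eq]
    refine Submodule.span_mono ?_
    rintro _ ⟨i, rfl⟩
    exact ⟨SemidirectProduct.inl (Multiplicative.ofAdd ⟨b i, AddSubgroup.subset_closure
      ⟨(1, i), by simp⟩⟩), ⟨_, rfl⟩, rfl⟩

theorem s3041_of (hhs : H53.Flav.HHSStmt.{max u w}) {X : Type u} [Group X] [Finite X]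
    (G R : Subgroup X) [G.Normal] (hX : G ⊔ R = ⊤) (r : ℕ) (hr : r.Prime)
    (hR : Nat.card R = r) (hcop : ¬ r ∣ Nat.card G)
    {k : Type v} [Field k] {p : ℕ} [Fact p.Prime] [CharP k p] {V : Type w} [AddCommGroup V]
    [Module k V] [FiniteDimensional k V] [Nontrivial V]
    (ρ : Representation k X V) (hfaith : Function.Injective ρ)
    (hirr : ∀ W : Submodule k V, (∀ x : X, W.map (ρ x) ≤ W) → W = ⊥ ∨ W = ⊤)
    (hfix : ∀ v : V, (∀ x ∈ R, ρ x v = v) → v = 0) :
    ⁅G, R⁆ = ⊥ ∨ ((∃ m : ℕ, r = 2 ^ m + 1) ∧ ¬ IsMulCommutative ↥⁅G, R⁆ ∧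
      Cfsg.IsSpecial 2 ↥⁅G, R⁆) := by
  have hp : p.Prime := Fact.out
  obtain ⟨Γ, _, _, f, W, ι, hf, hW, pW, h0, hc, hsp⟩ := exists_model (p := p) ρ
  have nW : ∀ Y : Subgroup Γ, Y ≤ N[W] := fun Y => le_normalizer_of_normal
  have cf : ∀ Y : Subgroup X, Nat.card (Y.map f) = Nat.card Y := fun Y => card_map_of_injective hf
  have hW1 : W ≠ ⊥ := fun h => by
    obtain ⟨v, hv⟩ := exists_ne (0 : V)
    have h1 : v ∈ Submodule.span k (ι '' W) := hsp ▸ Submodule.mem_top
    rw [Submodule.span_eq_bot.2, Submodule.mem_bot] at h1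
    · exact hv h1
    · rintro _ ⟨a, ha, rfl⟩
      exact (h0 a ha).2 (mem_bot.1 (h ▸ ha))
  have hfa : ∀ x, f x ∈ C[W] → x = 1 := fun x hx => hfaith (by
    rw [map_one]
    refine LinearMap.ext_on hsp ?_
    rintro _ ⟨a, ha, rfl⟩
    exact (hc a ha x).1 (mem_centralizer_iff.1 hx a ha).symm)
  have hfpf : W ⊓ C[R.map f] = ⊥ := eq_bot_iff.2 fun a ha => mem_bot.2 ((h0 a ha.1).1
    (hfix _ fun x hx => (hc a ha.1 x).1 (mem_centralizer_iff.1 ha.2 _ (mem_map_of_mem f hx))))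
  have hO : ∀ P : Subgroup X, P.Normal → IsPGroup p P → P = ⊥ := fun P hP pP => by
    obtain ⟨⟨a, ha⟩, ha1⟩ := ne_bot_iff_exists_ne_one.1
      (inf_centralizer_ne_bot_of_isPGroup hp (pP.map f) pW (nW _) hW1)
    let U : Submodule k V := ⨅ x : P, LinearMap.eqLocus (ρ x) LinearMap.id
    have hU : ∀ v, v ∈ U ↔ ∀ x ∈ P, ρ x v = v := fun v => by simp [U, LinearMap.mem_eqLocus]
    rcases hirr U fun x _ ⟨v, hv, e⟩ => e ▸ (hU _).2 fun y hy => by
      rw [← Module.End.mul_apply, ← map_mul, show y * x = x * (x⁻¹ * y * x) by group, map_mul,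
        Module.End.mul_apply, (hU v).1 hv _ (hP.conj_mem' y hy x)] with h | h
    · refine absurd (Subtype.ext ((h0 a ha.1).1 ((Submodule.mem_bot k).1 (h ▸ (hU _).2 fun x hx =>
        (hc a ha.1 x).1 (mem_centralizer_iff.1 ha.2 _ (mem_map_of_mem f hx)))))) ha1
    · exact eq_bot_iff.2 fun x hx => mem_bot.2 (hfaith (by
        rw [map_one]
        exact LinearMap.ext fun v => (hU v).1 (h ▸ Submodule.mem_top) x hx))
  have RG : R ≤ N[G] := le_normalizer_of_normal
  have hcop' : (Nat.card G).Coprime r := ((Nat.Prime.coprime_iff_not_dvd hr).2 hcop).symm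
  obtain ⟨P, hP, GP, RP, pP, h2⟩ := hhs Γ p r (G.map f) (R.map f) W ⟨hp, hr, (cf R).trans hR,
    cf G ▸ hcop', (map_mono RG).trans (le_normalizer_map f), pW, nW _, nW _, hfpf⟩
  have hP0 : P.comap f = ⊥ := hO _ (normalizer_eq_top_iff.1 (eq_top_iff.2 (hX.ge.trans
    ((sup_le (map_le_iff_le_comap.1 GP) (map_le_iff_le_comap.1 RP)).trans
      (le_normalizer_comap f))))) fun x => by
    obtain ⟨n, hn⟩ := pP _ x.2
    exact ⟨n, Subtype.ext (hfa _ (by simpa using hn))⟩
  set N := ⁅G, R⁆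
  have pN : IsPGroup 2 N := fun x => by
    obtain ⟨n, hn⟩ := h2 (f x) (map_commutator G R f ▸ mem_map_of_mem f x.2)
    exact ⟨n, Subtype.ext (mem_bot.1 (hP0 ▸ show x.1 ^ 2 ^ n ∈ P.comap f by simpa using hn))⟩
  refine or_iff_not_imp_left.2 fun hN => ?_
  have NG : N ≤ G := commutator_le_of_norm_left RG
  have RN : R ≤ N[N] := le_norm_commutator_right _ _
  have p2 : p ≠ 2 := by
    rintro rfl
    exact hN (hO N (normalizer_eq_top_iff.1 (eq_top_iff.2 (hX.ge.trans
      (sup_le (le_norm_commutator_left _ _) RN)))) pN)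
  have pr : p ≠ r := by
    rintro rfl
    exact inf_centralizer_ne_bot_of_isPGroup hp ((pg_of_card hR).map f) pW (nW _) hW1 hfpf
  have r2 : r ≠ 2 := by
    rintro rfl
    obtain ⟨n, hn⟩ := IsPGroup.iff_card.1 pN
    rcases n with _ | n
    · exact hN (card_eq_one.1 hn)
    · exact hcop ((hn ▸ dvd_pow_self 2 n.succ_ne_zero).trans (card_dvd_of_le NG))
  have hNR : ⁅N, R⁆ = N := coprime_commGid RG (hR ▸ hcop'.symm) (Or.inl (sol_p hr (pg_of_card hR)))
  have key : ∀ A, A ≤ N → R ≤ N[A] → ((∃ n : ℕ, r = 2 ^ n + 1) → IsMulCommutative A) →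
      ⁅A, R⁆ = ⊥ := fun A hA RA hexc => eq_bot_iff.2 fun x hx => mem_bot.2 (hfa x
    (comm_cent hp Nat.prime_two hr pr r2.symm p2 ((cf R).trans hR) ((pN.to_le hA).map f)
      ((map_mono RA).trans (le_normalizer_map f)) pW (nW _) (nW _) hfpf
      (fun _ h => by have := hexc h; infer_instance) (map_commutator A R f ▸ mem_map_of_mem f hx)))
  refine ⟨by_contra fun h => hN (hNR ▸ key N le_rfl RN fun h' => absurd h' h),
    fun h => hN (hNR ▸ key N le_rfl RN fun _ => h), ?_⟩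
  exact (H53.Flav.Two.special ⟨pN, hr, r2, hR, RN, fun A hA hAA RA => le_cent_of_commutator_eq_bot
    (key A hA RA fun _ => ⟨⟨fun a b => Subtype.ext (hAA a a.2 b b.2)⟩⟩), hNR.symm, rfl⟩).1

end Cfsg.Agent.H30.Flav
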