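import Mathlib
import Cfsg.Agent.H42.FvDefs

/-! Uniqueness of the optimal parabolic subgroup (piece FV-KR2). -/

set_option autoImplicit false

namespace Cfsg.Agent.H30.FvKr2

open Equiv Cfsg.Lie H37 H40 H34 H29 Module H50.E83 Cfsg.Agent.H42.Fv
open scoped Matrix

theorem mid {ι : Type} [Fintype ι] (l l' : ι → ℝ) (h1 : ∑ r, l' r ^ 2 = ∑ r, l r ^ 2)
    (h2 : ∑ r, l r ^ 2 ≤ ∑ r, ((l r + l' r) / 2) ^ 2) : l' = l := by
  have h3 : ∑ r, ((l r + l' r) / 2) ^ 2 + ∑ r, ((l r - l' r) / 2) ^ 2 =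
      (∑ r, l r ^ 2 + ∑ r, l' r ^ 2) / 2 := by
    rw [← Finset.sum_add_distrib, ← Finset.sum_add_distrib, Finset.sum_div]
    exact Finset.sum_congr rfl fun r _ => by ring
  have h4 : ∑ r, ((l r - l' r) / 2) ^ 2 = 0 :=
    le_antisymm (by linarith) (Finset.sum_nonneg fun r _ => sq_nonneg _)
  funext r
  have h5 := (Finset.sum_eq_zero_iff_of_nonneg fun r _ => sq_nonneg _).1 h4 r (Finset.mem_univ r)
  have h6 := pow_eq_zero_iff (two_ne_zero) |>.1 h5
  linarith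

theorem kr2 (ad : AddRStmt) (ps : PstStmt) (nv : NvgStmt) : Kr2Stmt := by
  intro w g l g' ho hv
  obtain ⟨a, ha, n, hn, b, hb, e⟩ := P8.bruhat (g⁻¹ * g')
  have hU : P8.Up ≤ Pst l := (Split.U_mono fun r hr => ho.dom r hr).trans (ps l ho.add).2
  have haP := hU ha
  have hbP := hU (Split.Uinv_le_Up hb)
  have e2 : b * g'⁻¹ = (g * a * n)⁻¹ := by
    have : g' = g * (a * n * b) := by rw [← e]; group
    rw [this]; group
  have h1 : Vge l 1 (act (g * a * n)⁻¹ w) := by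
    rw [← e2, act_mul]
    exact (mem_Pst.1 hbP 1 _).2 hv
  have h2 : Vge (fun r => l (P8.ν n r)) 1 (act (g * a * n)⁻¹ w) := by
    rw [← nv l n hn, ← act_mul, show n * (g * a * n)⁻¹ = a⁻¹ * g⁻¹ by group, act_mul]
    exact (mem_Pst.1 (inv_mem haP) 1 _).2 ho.mem
  have hl' : AddR fun r => l (P8.ν n r) := (ad l ho.add).2.2 _ (P8.ν_mem n hn)
  have hm : AddR fun r => (l r + l (P8.ν n r)) / 2 := fun r => by
    have e3 := ho.add r
    have e4 := hl' r
    simp only at e4 ⊢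
    rw [e3, e4, ← Finset.sum_add_distrib, Finset.sum_div]
    exact Finset.sum_congr rfl fun j _ => by ring
  have h3 : Vge (fun r => (l r + l (P8.ν n r)) / 2) 1 (act (g * a * n)⁻¹ w) := by
    refine ⟨h1.1, fun r hr => ?_⟩
    by_cases h4 : l r < 1
    · exact h1.2 r h4
    · exact h2.2 r (by simp only at hr ⊢; linarith)
  have h5 : (fun r => l (P8.ν n r)) = l :=
    mid l _ (Equiv.sum_comp (P8.ν n) fun r => l r ^ 2) (ho.min _ _ hm h3)
  have hnP : n ∈ Pst l := mem_Pst.2 fun m v => by rw [nv l n hn, h5]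
  rw [e]
  exact mul_mem (mul_mem haP hnP) hbP

end Cfsg.Agent.H30.FvKr2
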