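import Cfsg.Agent.H9.FXDefs
import Cfsg.Agent.H2.Sec
import Cfsg.Agent.S1232

/-! Finite 2-groups with a TI subgroup of order four. -/

set_option autoImplicit false

namespace Cfsg.Agent.H30.TG

open Subgroup Cfsg.Agent.H69 Cfsg.Agent.H9.FX

universe u

variable {G : Type u} [Group G] [Finite G]

local notation "N[" A "]" => Subgroup.normalizer (SetLike.coe A)
local notation "C[" x "]" => Subgroup.centralizer {x}

theorem card_mul_le {X Y Z : Subgroup G} (hX : X ≤ Z) (hY : Y ≤ Z) :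
    Nat.card X * Nat.card Y ≤ Nat.card (X ⊓ Y : Subgroup G) * Nat.card Z := by
  rw [← H1.card_inf_mul_relIndex Y X, ← H1.card_mul_relIndex hY, inf_comm, mul_assoc,
    mul_comm (Nat.card Y)]
  exact Nat.mul_le_mul_left _ (Nat.mul_le_mul_right _
    (relIndex_le_of_le_right hX FiniteIndex.index_ne_zero))

theorem two_mul_le {X Y : Subgroup G} (h : X < Y) : 2 * Nat.card X ≤ Nat.card Y := by
  have k1 : X.relIndex Y ≠ 1 := fun k => h.not_ge (relIndex_eq_one.1 k)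
  have k2 : X.relIndex Y ≠ 0 := FiniteIndex.index_ne_zero
  rw [← H1.card_mul_relIndex h.le, mul_comm]
  exact Nat.mul_le_mul_left _ (by omega)

theorem cls {K : Subgroup G} {u : G} {Y : Set G} (h : ∀ c ∈ K, c * u * c⁻¹ * u⁻¹ ∈ Y) :
    Nat.card K ≤ Nat.card (K ⊓ C[u] : Subgroup G) * Y.ncard := by
  rw [← H1.card_inf_mul_relIndex C[u] K, inf_comm, Set.ncard_eq_toFinset_card]
  refine Nat.mul_le_mul_left _ (H2.relIndex_le_card _ (fun c => c * u * c⁻¹ * u⁻¹)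
    (by simpa using h) fun a _ b _ e => mem_centralizer_singleton_iff.2 ?_)
  rw [mul_left_inj] at e
  calc a⁻¹ * b * u = a⁻¹ * (b * u * b⁻¹) * b := by group
    _ = _ := by rw [← e]; group

theorem exists_inv {X : Subgroup G} (hX : IsPGroup 2 X) (h : X ≠ ⊥) :
    ∃ u ∈ X, u ≠ 1 ∧ u * u = 1 := by
  have := Fact.mk Nat.prime_two
  obtain ⟨n, hn, e⟩ := hX.nontrivial_iff_card.1 ((nontrivial_iff_ne_bot X).2 h)
  obtain ⟨u, hu⟩ := exists_prime_orderOf_dvd_card' (G := X) 2 (e ▸ dvd_pow_self 2 hn.ne')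
  exact ⟨u, u.2, fun k => by simp [show u = 1 from Subtype.ext k] at hu,
    congrArg Subtype.val (show u * u = 1 by rw [← pow_two, ← hu, pow_orderOf_eq_one])⟩

omit [Finite G] in
theorem comm_of_sq {a b : G} (ha : a * a = 1) (hb : b * b = 1) (h : a * b * (a * b) = 1) :
    a * b = b * a := by
  rw [← inv_eq_of_mul_eq_one_right h, mul_inv_rev, inv_eq_of_mul_eq_one_right ha,
    inv_eq_of_mul_eq_one_right hb]

/-- The conjugate of a subgroup. -/
def cj (g : G) (A : Subgroup G) : Subgroup G := A.map (MulAut.conj g).toMonoidHom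

omit [Finite G] in
theorem mem_cj {g x : G} {A : Subgroup G} : x ∈ cj g A ↔ g⁻¹ * x * g ∈ A :=
  ⟨fun ⟨a, ha, e⟩ => by simpa [← e, mul_assoc] using ha, fun h => ⟨_, h, by simp [mul_assoc]⟩⟩

omit [Finite G] in
theorem card_cj (g : G) (A : Subgroup G) : Nat.card (cj g A) = Nat.card A :=
  card_map_of_injective (MulAut.conj g).injective

theorem norm_of_cj {g : G} {A : Subgroup G} (h : cj g A ≤ A) : g ∈ N[A] :=
  mem_normalizer_fintype fun a ha => h ⟨a, ha, rfl⟩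

omit [Finite G] in
theorem cj_le {g : G} {A B : Subgroup G} (h : g ∈ N[B]) (k : A ≤ B) : cj g A ≤ B := by
  rintro _ ⟨a, ha, rfl⟩
  exact (mem_normalizer_iff.1 h a).1 (k ha)

omit [Finite G] in
theorem cj_comm {A : Subgroup G} (h : ∀ a ∈ A, ∀ b ∈ A, a * b = b * a) (g : G) :
    ∀ a ∈ cj g A, ∀ b ∈ cj g A, a * b = b * a := by
  rintro _ ⟨a, ha, rfl⟩ _ ⟨b, hb, rfl⟩
  rw [← map_mul, h a ha b hb, map_mul]

omit [Finite G] in
theorem cj_sq {A : Subgroup G} (h : ∀ a ∈ A, a * a = 1) (g : G) : ∀ a ∈ cj g A, a * a = 1 := by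
  rintro _ ⟨a, ha, rfl⟩
  rw [← map_mul, h a ha, map_one]

theorem exists_norm (hG : IsPGroup 2 G) {H : Subgroup G} (h : H ≠ ⊤) : ∃ g ∈ N[H], g ∉ H := by
  have := Fact.mk Nat.prime_two
  have := hG.isNilpotent
  exact SetLike.exists_of_lt (Group.normalizerCondition_of_isNilpotent H h.lt_top)

/-- An abelian subgroup of order 16 of a 2-group with a TI subgroup of order four. -/
structure TI (A U : Subgroup G) : Prop where
  two : IsPGroup 2 G
  le : U ≤ A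
  cA : Nat.card A = 16
  cU : Nat.card U = 4
  comm : ∀ a ∈ A, ∀ b ∈ A, a * b = b * a
  ti : ∀ s, ∀ x ∈ U, x ≠ 1 → s * x * s⁻¹ ∈ U → s ∈ A

namespace TI

variable {A U : Subgroup G} (h : TI A U)
include h

omit [Finite G] in
theorem cen {c x : G} (hx : x ∈ U) (x1 : x ≠ 1) (e : c * x = x * c) : c ∈ A :=
  h.ti c x hx x1 (by rwa [e, mul_inv_cancel_right])

theorem meet {X : Subgroup G} (hX : X ≤ A) (c : 4 < Nat.card X) : X ⊓ U ≠ ⊥ := fun e => by
  have := card_mul_le hX h.le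
  rw [e, card_bot, h.cA, h.cU] at this
  omega

theorem sec (c : Nat.card G ≤ 128) : SecLE 16 G := fun K M hK => by
  have e := H1.card_inf_mul_relIndex M K
  have p : 0 < Nat.card (M ⊓ K : Subgroup G) := Nat.card_pos
  have cC : ∀ u ∈ U, u ≠ 1 → K ⊓ C[u] ≤ K ⊓ A := fun u hu u1 x hx =>
    ⟨hx.1, h.cen hu u1 (mem_centralizer_singleton_iff.1 hx.2)⟩
  by_cases k : K ⊓ U = ⊥
  swap
  · obtain ⟨u, hu, u1, -⟩ := exists_inv (h.two.to_subgroup _) k
    have k1 := cls (K := K) (u := u) (Y := (M ⊓ K : Subgroup G)) fun c hc =>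
      ⟨H2.comm_mem_of_sq (N := M.subgroupOf K) (fun x => pow_two x ▸ hK x x.2) ⟨c, hc⟩ ⟨u, hu.1⟩,
        K.mul_mem (K.mul_mem (K.mul_mem hc hu.1) (K.inv_mem hc)) (K.inv_mem hu.1)⟩
    have k2 := card_le_of_le ((cC u hu.2 u1).trans inf_le_right)
    rw [← Nat.card_coe_set_eq, SetLike.coe_sort_coe, ← e, mul_comm] at k1
    exact (Nat.le_of_mul_le_mul_right k1 p).trans (h.cA ▸ k2)
  by_contra! c1
  have c2 : Nat.card (K ⊓ A : Subgroup G) ≤ 4 := not_lt.1 fun m => h.meet inf_le_right m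
    (by rwa [inf_assoc, inf_eq_right.2 h.le])
  have c3 := card_mul_le (le_top (a := K)) (le_top (a := A))
  rw [h.cA, card_top] at c3
  have c4 : M ⊓ K = ⊥ := card_eq_one.1 (by nlinarith)
  have c5 : ∀ x ∈ K, x * x = 1 := fun x hx => c4.le ⟨sq x ▸ hK x hx, mul_mem hx hx⟩
  have c6 : 16 < Nat.card K := by nlinarith
  obtain ⟨g, g1, g2⟩ := exists_norm h.two (H := K) fun m => h.meet (X := A) le_rfl
    (by rw [h.cA]; norm_num) (by rwa [m, top_inf_eq, ← inf_eq_right.2 h.le] at k)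
  have c7 := two_mul_le (lt_of_le_not_ge (le_normalizer (H := K)) fun m => g2 (m g1))
  have c8 := card_mul_le (le_top (a := N[K])) (le_top (a := A))
  rw [h.cA, card_top] at c8
  obtain ⟨u, hu, u1, uu⟩ := exists_inv (h.two.to_subgroup _)
    (h.meet (X := N[K] ⊓ A) inf_le_right (by nlinarith))
  have c9 := card_le_of_le (cC u hu.2 u1)
  have := cls (K := K) (u := u) (Y := (K ⊓ C[u] : Subgroup G)) fun c hc => by
    have m := (mem_normalizer_iff.1 hu.1.1 c).1 hc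
    rw [inv_eq_of_mul_eq_one_right uu] at m ⊢
    rw [inv_eq_of_mul_eq_one_right (c5 c hc), mul_assoc, mul_assoc, ← mul_assoc u]
    refine ⟨mul_mem hc m, mem_centralizer_singleton_iff.2 ?_⟩
    rw [comm_of_sq (c5 c hc) (c5 _ m) (c5 _ (mul_mem hc m))]
    nth_rw 1 [← comm_of_sq (c5 c hc) (c5 _ m) (c5 _ (mul_mem hc m))]
    simp only [← mul_assoc, uu, one_mul]
    rw [mul_assoc _ u u, uu, mul_one]
  rw [← Nat.card_coe_set_eq, SetLike.coe_sort_coe] at this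
  nlinarith

theorem inf_cj {s : G} (hs : s ∉ N[A]) : A ⊓ cj s A ⊓ U = ⊥ := eq_bot_iff.2 fun x hx =>
  by_contra fun x1 => hs (norm_of_cj fun c hc => h.cen hx.2 x1 (cj_comm h.comm s c hc x hx.1.2))

theorem card_inf_cj {s : G} (hs : s ∉ N[A]) : Nat.card (A ⊓ cj s A : Subgroup G) ≤ 4 :=
  not_lt.1 fun m => h.meet inf_le_left m (h.inf_cj hs)

theorem card_norm : Nat.card (N[A] : Subgroup G) ≤ 64 := by
  have := Fact.mk Nat.prime_two
  let f : (N[A] ⧸ A.subgroupOf N[A]) × ((U : Set G) \ {1} : Set G) → A := fun p =>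
    ⟨p.1.out * p.2 * p.1.out⁻¹, (mem_normalizer_iff.1 p.1.out.2 _).1 (h.le p.2.2.1)⟩
  have k := Nat.card_le_card_of_injective f fun ⟨a, x⟩ ⟨b, y⟩ e => by
    have e' : a.out.1 * x * a.out.1⁻¹ = b.out.1 * y * b.out.1⁻¹ := congrArg Subtype.val e
    obtain rfl : a = b := by
      rw [← a.out_eq', ← b.out_eq', QuotientGroup.eq]
      refine h.ti _ y y.2.1 y.2.2 ?_
      rw [subtype_apply, show (a.out⁻¹ * b.out).1 * y * (a.out⁻¹ * b.out).1⁻¹ =
        a.out.1⁻¹ * (b.out.1 * y * b.out.1⁻¹) * a.out.1 by push_cast; group, ← e']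
      simpa [mul_assoc] using x.2.1
    simpa [Subtype.ext_iff] using e'
  rw [Nat.card_prod, Nat.card_coe_set_eq, Set.ncard_sdiff_singleton_of_mem U.one_mem,
    ← Nat.card_coe_set_eq, SetLike.coe_sort_coe, h.cA, h.cU] at k
  have e := H1.card_mul_relIndex (le_normalizer (H := A))
  rw [h.cA] at e
  exact H2.pow_le_of_lt (n := 6) (IsPGroup.iff_card.1 (h.two.to_subgroup _))
    (by change A.relIndex N[A] * 3 ≤ 16 at k; omega)

theorem card_le : Nat.card G ≤ 128 := by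
  have c1 := h.card_norm
  by_cases t1 : N[A] = ⊤
  · rw [t1, card_top] at c1
    omega
  obtain ⟨v, v1, v2⟩ := exists_norm h.two t1
  have l1 : A ≤ N[A] := le_normalizer
  have l2 : cj v A ≤ N[A] := cj_le v1 l1
  have cm := cj_comm h.comm v
  have n2 : ∀ n ∈ N[A], ∀ c ∈ cj v A, n * c * n⁻¹ ∈ cj v A := fun n hn c hc => by
    have := (mem_normalizer_iff.1 ((mem_normalizer_iff''.1 v1 n).1 hn) _).1 (mem_cj.1 hc)
    rw [mem_cj]
    convert this using 1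
    group
  have c2 := h.card_inf_cj v2
  have c3 := card_mul_le l1 l2
  rw [card_cj, h.cA] at c3
  set Z := A ⊓ cj v A with hZ
  have c4 : Nat.card Z = 4 := by nlinarith
  have c5 : Nat.card N[A] = 64 := by nlinarith
  have d1 : ∀ n ∈ N[A], ∃ a ∈ A, ∃ c ∈ cj v A, a * c = n := fun n hn =>
    (H1.coe_eq_mul_of_card l1 l2 (by rw [card_cj, h.cA, c5, c4])).le hn
  have d2 : ∀ a ∈ A, ∃ x ∈ U, ∃ z ∈ Z, x * z = a := fun n hn =>
    (H1.coe_eq_mul_of_card h.le inf_le_left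
      (by rw [inf_comm, h.inf_cj v2, card_bot, h.cA, h.cU, c4])).le hn
  have d3 : ∀ a ∈ A, ∀ c ∈ cj v A, c * a * c⁻¹ * a⁻¹ ∈ Z := fun a ha c hc =>
    ⟨A.mul_mem ((mem_normalizer_iff.1 (l2 hc) a).1 ha) (A.inv_mem ha), by
      have := mul_mem hc (n2 a (l1 ha) _ (inv_mem hc))
      rwa [← mul_assoc, ← mul_assoc] at this⟩
  have d4 : ∀ z ∈ Z, z * z = 1 := by
    obtain ⟨u, hu, u1, uu⟩ := exists_inv (h.two.to_subgroup U) fun e => by
      simpa [e] using h.cU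
    have k1 := cls (K := cj v A) (u := u) (Y := {z | z ∈ Z ∧ z * z = 1}) fun c hc =>
      ⟨d3 u (h.le hu) c hc, by
        have m := (mem_normalizer_iff.1 (l2 hc) u).1 (h.le hu)
        rw [mul_assoc, ← mul_assoc u⁻¹, ← h.comm _ m _ (inv_mem (h.le hu)),
          inv_eq_of_mul_eq_one_right uu]
        calc _ = c * (u * u) * c⁻¹ * (u * u) := by group
          _ = 1 := by rw [uu]; group⟩
    have k2 : Nat.card (cj v A ⊓ C[u] : Subgroup G) ≤ Nat.card Z := card_le_of_le fun x hx =>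
      ⟨h.cen hu u1 (mem_centralizer_singleton_iff.1 hx.2), hx.1⟩
    rw [card_cj, h.cA] at k1
    have k3 := Set.eq_of_subset_of_ncard_le (s := {z | z ∈ Z ∧ z * z = 1}) (t := Z)
      (fun _ k => k.1) (by rw [← Nat.card_coe_set_eq, SetLike.coe_sort_coe]; nlinarith)
    exact fun z hz => (k3.ge hz).2
  obtain ⟨c₀, e1, e2⟩ : ∃ c ∈ cj v A, c ∉ A := by
    by_contra! k
    exact v2 (norm_of_cj k)
  have d5 : ∀ a ∈ A, a * a = 1 := fun a ha => by
    obtain ⟨x, hx, z, hz, rfl⟩ := d2 a ha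
    rw [mul_assoc, ← mul_assoc z, h.comm z hz.1 x (h.le hx), mul_assoc, d4 z hz, mul_one]
    by_contra k
    refine e2 (h.cen (mul_mem hx hx) k ?_)
    have m := d3 x (h.le hx) c₀ e1
    have m2 := d4 _ m
    rw [mul_assoc, ← mul_assoc x⁻¹, ← h.comm _ ((mem_normalizer_iff.1 (l2 e1) x).1 (h.le hx)) _
      (inv_mem (h.le hx))] at m2
    calc _ = c₀ * x * c₀⁻¹ * (c₀ * x * c₀⁻¹ * x⁻¹ * x⁻¹) * (x * x * c₀) := by group
      _ = _ := by rw [m2, one_mul]
  have d6 : ∀ B ≤ N[A], (∀ b ∈ B, b * b = 1) → B ≤ A ∨ B ≤ cj v A := fun B hB k =>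
    SubgroupClass.subset_union.1 fun b hb => by
      obtain ⟨a, ha, c, hc, rfl⟩ := d1 b (hB hb)
      have m := comm_of_sq (d5 a ha) (cj_sq d5 v c hc) (k _ hb)
      obtain ⟨x, hx, z, hz, rfl⟩ := d2 a ha
      by_cases x1 : x = 1
      · exact Or.inr (mul_mem (mul_mem (x1 ▸ one_mem _) hz.2) hc)
      · refine Or.inl (mul_mem ha (h.cen hx x1 ?_))
        rwa [mul_assoc, cm z hz.2 c hc, ← mul_assoc, ← mul_assoc, mul_left_inj, eq_comm] at m
  have d7 : ∀ g ∈ N[N[A]], g ∉ N[A] → cj g A = cj v A := fun g g1 g2 =>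
    eq_of_le_of_card_ge ((d6 _ (cj_le g1 l1) (cj_sq d5 g)).resolve_left fun k => g2 (norm_of_cj k))
      (by rw [card_cj, card_cj])
  have c6 : Nat.card N[N[A]] ≤ 128 := by
    classical
    have k := H2.relIndex_le_of_cover (M := N[A]) (K := N[N[A]]) {1, v} fun g hg => by
      by_cases m : g ∈ N[A]
      · exact ⟨1, by simp, by simpa using m⟩
      · refine ⟨v, by simp, mem_normalizer_fintype fun a ha => ?_⟩
        have := mem_cj.1 ((d7 g hg m).le ⟨a, ha, rfl⟩)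
        simpa [mul_assoc] using this
    have := Finset.card_le_two (a := 1) (b := v)
    rw [← H1.card_mul_relIndex (le_normalizer (H := N[A])), c5]
    omega
  by_cases t2 : N[N[A]] = ⊤
  · rwa [t2, card_top] at c6
  obtain ⟨g, g1, g2⟩ := exists_norm h.two t2
  obtain ⟨B, b1, b2, b3, b4⟩ : ∃ B ≤ N[N[A]], (∀ b ∈ B, b * b = 1) ∧ Nat.card B = 16 ∧
      ¬ B ≤ N[A] := by
    by_contra! k
    have k1 := k _ (cj_le g1 (l1.trans le_normalizer)) (cj_sq d5 g) (by rw [card_cj, h.cA])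
    have k2 := k _ (cj_le g1 (l2.trans le_normalizer)) (cj_sq (cj_sq d5 v) g)
      (by rw [card_cj, card_cj, h.cA])
    refine g2 (norm_of_cj ?_)
    rintro _ ⟨n, hn, rfl⟩
    obtain ⟨a, ha, c, hc, rfl⟩ := d1 n hn
    exact map_mul (MulAut.conj g).toMonoidHom a c ▸ mul_mem (k1 ⟨a, ha, rfl⟩) (k2 ⟨c, hc, rfl⟩)
  obtain ⟨y, y1, y2⟩ := SetLike.not_le_iff_exists.1 b4
  have k1 : ∀ b ∈ B, b ∈ cj v A ↔ b ∈ A := fun b hb => by
    rw [← d7 y (b1 y1) y2, mem_cj, mul_assoc, comm_of_sq (b2 b hb) (b2 y y1) (b2 _ (mul_mem hb y1)),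
      inv_mul_cancel_left]
  have k2 : Nat.card (B ⊓ N[A] : Subgroup G) ≤ Nat.card Z := card_le_of_le fun b hb =>
    (d6 (B ⊓ N[A]) inf_le_right fun b hb => b2 b hb.1).elim
      (fun k => ⟨k hb, (k1 b hb.1).2 (k hb)⟩) fun k => ⟨(k1 b hb.1).1 (k hb), k hb⟩
  have k3 := card_mul_le b1 (le_normalizer (H := N[A]))
  rw [b3, c5] at k3
  nlinarith

end TI

theorem sec_of_sylow (S : Sylow 2 G) (h : SecLE 16 (S : Subgroup G)) : SecLE 16 G := by
  refine secLE_of_sectional (k := 4) (H2.Sec.sectional (H2.Sec.of_sylow S fun H N hN => ?_))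
  have := h H (N.map H.subtype) fun x hx => ⟨⟨x, hx⟩ * ⟨x, hx⟩, hN _, by simp [pow_two]⟩
  rwa [relIndex, subgroupOf, comap_map_eq_self_of_injective H.subtype_injective] at this

theorem fix_two {U F : Subgroup G} (hF : IsPGroup 2 F) (h1 : U ≤ F) (h2 : F ≤ N[U])
    (c : Nat.card U = 4) {y : G} (hy : y ∈ F) (k : ¬ U ≤ C[y]) :
    U ⊓ C[y] ≠ ⊥ ∧ Nat.card (U ⊓ C[y] : Subgroup G) ≤ 2 := by
  have := Fact.mk Nat.prime_two
  have := (normal_subgroupOf_iff_le_normalizer h1).2 h2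
  obtain ⟨z, z1, z2, z3⟩ := H89.exists_mem_center_of_normal hF (N := U.subgroupOf F) fun e => by
    rw [subgroupOf_eq_bot, disjoint_iff, inf_eq_left.2 h1] at e
    simp [e] at c
  refine ⟨fun e => z3 (Subtype.ext (e.le ⟨z1, mem_centralizer_singleton_iff.2
    (congrArg Subtype.val (mem_center_iff.1 z2 ⟨y, hy⟩)).symm⟩)), ?_⟩
  have := two_mul_le (inf_lt_left.2 k)
  omega

omit [Finite G] in
theorem conj_mul_sq {U : Subgroup G} {y u : G} (hy : y ∈ N[U]) (h : y * y ∈ U) (hu : u ∈ U) :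
    y * u * (y * u) ∈ U := by
  have := mul_mem (mul_mem h ((mem_normalizer_iff''.1 hy u).1 hu)) hu
  convert this using 1
  group

theorem tg : TGStmt.{u} := by
  intro G _ _ S U W F hU hW hF nU nW cU cW hi cF ti kW kU kF
  have := Fact.mk Nat.prime_two
  refine sec_of_sylow S ?_
  have uw : ∀ a ∈ U, ∀ b ∈ W, a * b = b * a := fun a ha b hb => by
    rw [eq_comm, ← mul_inv_eq_one, mul_inv_rev, ← mul_assoc]
    refine hi.le ⟨U.mul_mem ((mem_normalizer_iff.1 (nU (hW hb)) a).1 ha) (U.inv_mem ha), ?_⟩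
    rw [mul_assoc, mul_assoc, ← mul_assoc a]
    exact W.mul_mem hb ((mem_normalizer_iff.1 (nW (hU ha)) _).1 (W.inv_mem hb))
  have dec := fun x => exists_mul_of_mem_sup_comm uw (x := x)
  have cA : Nat.card (U ⊔ W : Subgroup G) = 16 := by rw [card_sup_comm uw hi, cU, cW]
  have hA : U ⊔ W ≤ F := sup_le hU hW
  have uu := fun a ha b hb => H89.comm_of_isMulCommutative (A := U) (a := a) (b := b)
    (IsPGroup.isMulCommutative_of_card_eq_prime_sq (p := 2) cU) ha hb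
  have ww := fun a ha b hb => H89.comm_of_isMulCommutative (A := W) (a := a) (b := b)
    (IsPGroup.isMulCommutative_of_card_eq_prime_sq (p := 2) cW) ha hb
  have cm : ∀ a ∈ U ⊔ W, ∀ b ∈ U ⊔ W, a * b = b * a := fun a ha b hb => by
    obtain ⟨x, hx, y, hy, rfl⟩ := dec a ha
    obtain ⟨x', hx', y', hy', rfl⟩ := dec b hb
    exact (Commute.mul_left (Commute.mul_right (uu x hx x' hx') (uw x hx y' hy'))
      (Commute.mul_right (uw x' hx' y hy).symm (ww y hy y' hy'))).eq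
  by_cases e : F = U ⊔ W
  · have h : TI ((U ⊔ W).subgroupOf S) (U.subgroupOf S) :=
      ⟨S.isPGroup', comap_mono le_sup_left,
        by rwa [Nat.card_congr (subgroupOfEquivOfLe (hA.trans hF)).toEquiv],
        by rwa [Nat.card_congr (subgroupOfEquivOfLe (hU.trans hF)).toEquiv],
        fun a ha b hb => Subtype.ext (cm a ha b hb),
        fun s x hx x1 k => e.le (ti s s.2 x hx (fun m => x1 (Subtype.ext m)) k)⟩
    exact h.sec h.card_le
  have i2 : (U ⊔ W).relIndex F = 2 := by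
    have k1 := two_mul_le (lt_of_le_of_ne hA (Ne.symm e))
    have k2 := H1.card_mul_relIndex hA
    rw [cA] at k1 k2
    omega
  have mm : ∀ a ∈ F, ∀ b ∈ F, a ∉ U ⊔ W → b ∉ U ⊔ W → a * b ∈ U ⊔ W := fun a ha b hb h1 h2 =>
    (mul_mem_iff_of_index_two i2 (a := ⟨a, ha⟩) (b := ⟨b, hb⟩)).2 (iff_of_false h1 h2)
  obtain ⟨y, y1, y2, yy⟩ : ∃ y ∈ F, y ∉ U ⊔ W ∧ y * y = 1 := by
    obtain ⟨⟨y, y1, y2, y3⟩, y', y4, y5, y6⟩ := kF e
    obtain ⟨a, ha, b, hb, k⟩ := dec _ (mm _ (inv_mem y1) _ y4 (by rwa [inv_mem_iff]) y5)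
    refine ⟨y * a, mul_mem y1 (hU ha), by rwa [mul_mem_cancel_right (mem_sup_left ha)],
      hi.le ⟨conj_mul_sq (nU y1) y3 ha, ?_⟩⟩
    rw [show y * a = y' * b⁻¹ by rw [eq_mul_inv_iff_mul_eq, mul_assoc, k, mul_inv_cancel_left]]
    exact conj_mul_sq (nW y4) y6 (inv_mem hb)
  have pF := S.isPGroup'.to_le hF
  obtain ⟨f1, f2⟩ := fix_two pF hU nU cU y1 fun k => y2 (kU y y1 fun x hx => by
    rw [← mem_centralizer_singleton_iff.1 (k hx)]; simp [one_mem])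
  obtain ⟨f3, f4⟩ := fix_two pF hW nW cW y1 fun k => y2 (kW y y1 fun x hx => by
    rw [← mem_centralizer_singleton_iff.1 (k hx)]; simp [one_mem])
  have two : ∀ X : Subgroup G, X ≠ ⊥ → Nat.card X ≤ 2 → Nat.card X = 2 := fun X h1 h2 => by
    have := (one_lt_card_iff_ne_bot X).2 h1
    omega
  have e1 : (U ⊔ W) ⊓ (F ⊓ C[y]) = U ⊓ C[y] ⊔ W ⊓ C[y] := by
    refine le_antisymm (fun x hx => ?_) (sup_le (fun x hx => ⟨mem_sup_left hx.1, hU hx.1, hx.2⟩)
      fun x hx => ⟨mem_sup_right hx.1, hW hx.1, hx.2⟩)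
    obtain ⟨a, ha, b, hb, rfl⟩ := dec x hx.1
    have k1 : a⁻¹ * (y * a * y⁻¹) = b * (y * b⁻¹ * y⁻¹) := by
      calc _ = a⁻¹ * (y * (a * b)) * (b⁻¹ * y⁻¹) := by group
        _ = _ := by rw [← mem_centralizer_singleton_iff.1 hx.2.2]; group
    have k2 : a⁻¹ * (y * a * y⁻¹) = 1 := hi.le
      ⟨U.mul_mem (U.inv_mem ha) ((mem_normalizer_iff.1 (nU y1) a).1 ha),
        k1 ▸ W.mul_mem hb ((mem_normalizer_iff.1 (nW y1) _).1 (W.inv_mem hb))⟩
    have k3 : a ∈ C[y] := mem_centralizer_singleton_iff.2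
      (by rwa [inv_mul_eq_one, eq_mul_inv_iff_mul_eq] at k2)
    exact mul_mem_sup ⟨ha, k3⟩ ⟨hb, (mul_mem_cancel_left k3).1 hx.2.2⟩
  have uw' : ∀ a ∈ U ⊓ C[y], ∀ b ∈ W ⊓ C[y], a * b = b * a := fun a ha b hb => uw a ha.1 b hb.1
  have sq2 : ∀ X : Subgroup G, Nat.card X = 2 → ∀ x ∈ X, x * x = 1 := fun X c x hx =>
    congrArg Subtype.val (show (⟨x, hx⟩ * ⟨x, hx⟩ : X) = 1 by rw [← pow_two, ← c, pow_card_eq_one'])
  have e2 : ∀ x ∈ (U ⊔ W) ⊓ (F ⊓ C[y]), x * x = 1 := fun x hx => by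
    obtain ⟨a, ha, b, hb, rfl⟩ := exists_mul_of_mem_sup_comm uw' (e1 ▸ hx)
    rw [mul_assoc, ← mul_assoc b, ← uw' a ha b hb, mul_assoc, sq2 _ (two _ f3 f4) b hb, mul_one,
      sq2 _ (two _ f1 f2) a ha]
  have hy : y ∈ F ⊓ C[y] := ⟨y1, mem_centralizer_singleton_iff.2 rfl⟩
  have e3 : ∀ x ∈ F ⊓ C[y], x * x = 1 := fun x hx => by
    by_cases k : x ∈ U ⊔ W
    · exact e2 x ⟨k, hx⟩
    · have := e2 _ ⟨mm x hx.1 y y1 k y2, mul_mem hx hy⟩
      rwa [mul_assoc, ← mul_assoc y, ← mem_centralizer_singleton_iff.1 hx.2, mul_assoc, yy,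
        mul_one] at this
  have e4 : Nat.card (F ⊓ C[y] : Subgroup G) = 8 := by
    have k1 := H1.card_inf_mul_relIndex (U ⊔ W) (F ⊓ C[y])
    have k2 : (U ⊔ W).relIndex (F ⊓ C[y]) ≤ 2 :=
      i2 ▸ relIndex_le_of_le_right inf_le_left FiniteIndex.index_ne_zero
    have k3 : (U ⊔ W).relIndex (F ⊓ C[y]) ≠ 1 := fun k => y2 (relIndex_eq_one.1 k hy)
    have k4 : (U ⊔ W).relIndex (F ⊓ C[y]) ≠ 0 := FiniteIndex.index_ne_zero
    rw [e1, card_sup_comm uw' (eq_bot_iff.2 fun x hx => hi.le ⟨hx.1.1, hx.2.1⟩), two _ f1 f2,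
      two _ f3 f4] at k1
    omega
  have e5 : ∀ a ∈ F ⊓ C[y], ∀ b ∈ F ⊓ C[y], a * b = b * a := fun a ha b hb =>
    comm_of_sq (e3 a ha) (e3 b hb) (e3 _ (mul_mem ha hb))
  refine secLE_of_sectional (k := 4) (S1232.result S.isPGroup' ((F ⊓ C[y]).subgroupOf S)
    ⟨⟨⟨fun a b => Subtype.ext (Subtype.ext (e5 _ a.2 _ b.2))⟩⟩,
      fun a ha => Subtype.ext (by simpa [pow_two] using e3 a ha)⟩
    (by rwa [Nat.card_congr (subgroupOfEquivOfLe (inf_le_left.trans hF)).toEquiv])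
    (le_antisymm (fun c hc => ?_) fun a ha b hb => Subtype.ext (e5 b hb a ha)))
  obtain ⟨⟨x, hx⟩, x1⟩ := ne_bot_iff_exists_ne_one.1 f1
  have k1 := congrArg Subtype.val (hc ⟨x, hF (hU hx.1)⟩ ⟨hU hx.1, hx.2⟩)
  have k2 := congrArg Subtype.val (hc ⟨y, hF y1⟩ hy)
  exact ⟨ti c c.2 x hx.1 (fun k => x1 (Subtype.ext k)) (by
    rw [show c.1 * x = x * c.1 from k1.symm, mul_inv_cancel_right]; exact hx.1),
    mem_centralizer_singleton_iff.2 k2.symm⟩

end Cfsg.Agent.H30.TG
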