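import Mathlib
import Cfsg.Agent.H98.GbG

/-! Counting Brauer characters fixed by a linear character (piece GB-CL1b). -/

set_option autoImplicit false

namespace Cfsg.Agent.H30.GbCL1b

open Cfsg Cfsg.Agent.H98.GB Cfsg.Agent.H16 Cfsg.Agent.H17 Cfsg.Agent.H19 MonoidAlgebra Module

universe u

theorem trace_perm {V κ : Type*} [AddCommGroup V] [Module ℂ V] [Fintype κ] [DecidableEq κ]
    (T : V →ₗ[ℂ] V) (v : κ → V) (hv : LinearIndependent ℂ v) (σ : κ → κ)
    (hσ : ∀ i, T (v i) = v (σ i)) (W : Submodule ℂ V) (hW : Submodule.span ℂ (Set.range v) = W)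
    (hT : ∀ x ∈ W, T x ∈ W) :
    LinearMap.trace ℂ W (T.restrict hT) = ({i | σ i = i} : Set κ).ncard := by
  subst hW
  rw [LinearMap.trace_eq_matrix_trace ℂ (Basis.span hv), Matrix.trace]
  have e : ∀ i, (T.restrict hT) (Basis.span hv i) = Basis.span hv (σ i) := fun i => by
    apply Subtype.ext
    rw [LinearMap.restrict_coe_apply, Basis.span_apply, Basis.span_apply, hσ]
  simp only [Matrix.diag, LinearMap.toMatrix_apply, e, Basis.repr_self, Finsupp.single_apply]
  rw [Finset.sum_boole, Set.ncard_eq_toFinset_card']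
  simp

section
variable {G : Type u} [Group G] [Finite G] (M : Ideal AlgInt) {p : ℕ}

theorem lin_mem (l : G →* ℂˣ) (g : G) : (l g : ℂ) ∈ Vr M := by
  refine mem_Vr_of_isIntegral (IsIntegral.of_pow (orderOf_pos g) ?_)
  rw [← Units.val_pow_eq_pow_val, ← map_pow, pow_orderOf_eq_one, map_one, Units.val_one]
  exact isIntegral_one

/-- Twisting the group ring by a linear character. -/
noncomputable def tw (l : G →* ℂˣ) : (Vr M)[G] →ₐ[Vr M] (Vr M)[G] :=
  MonoidAlgebra.lift (Vr M) (Vr M)[G] G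
    { toFun := fun g => single g ⟨l g, lin_mem M l g⟩
      map_one' := by
        rw [MonoidAlgebra.one_def]; congr 1; ext; simp
      map_mul' := fun a b => by
        rw [single_mul_single]; congr 1; ext; simp }

theorem charLift_tw (l : G →* ℂˣ) (θ : G → ℂ) (a : (Vr M)[G]) :
    charLift (lm l θ) (iotaG M G a) = charLift θ (iotaG M G (tw M l a)) := by
  induction a using MonoidAlgebra.induction_linear with
  | zero => simp
  | add a b ha hb => simp only [map_add, ha, hb]
  | single g c =>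
    rw [tw, lift_single]
    simp [iotaG, lm, mul_assoc]

variable {M}

theorem lm_ibr (hM : IsPModular p M) (l : G →* ℂˣ) :
    ∃ N : IBr M G → IBr M G → ℕ, ∀ i, lm l (ibr p i) = ∑ j, (N i j : ℂ) • ibr p j := by
  refine ⟨fun i j => rk (srep i (piG M G (tw M l (pidem j)))), fun i => ?_⟩
  have hc : IsClassFunction G (lm l (ibr p i)) := fun g h => by
    simp only [lm]
    rw [isClassFunction_ibr i g h]
    congr 2
    simp [mul_comm]
  have h0 : pRegularPart p (lm l (ibr p i)) = lm l (ibr p i) :=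
    pRegularPart_eq_self fun g hg => by simp [lm, ibr_of_dvd i hg]
  rw [← h0, pRegularPart_eq_sum_ibr hM hc]
  refine Finset.sum_congr rfl fun j _ => ?_
  rw [charLift_tw, charLift_ibr_idem hM i ((pidem_idem j).map (tw M l))]

/-- multiplication by a linear character -/
def lmL (l : G →* ℂˣ) : (G → ℂ) →ₗ[ℂ] (G → ℂ) where
  toFun := lm l
  map_add' f g := by funext x; simp [lm, mul_add]
  map_smul' c f := by funext x; simp [lm, mul_left_comm]

theorem lm_perm (hM : IsPModular p M) (l : G →* ℂˣ) (i : IBr M G) :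
    ∃ j : IBr M G, lm l (ibr p i) = ibr p j := by
  obtain ⟨A, hA⟩ := lm_ibr hM l
  obtain ⟨B, hB⟩ := lm_ibr hM l⁻¹
  have h1 : ibr p i = ∑ k, ((∑ j, A i j * B j k : ℕ) : ℂ) • ibr p k := by
    have e : ibr p i = lmL l⁻¹ (lm l (ibr p i)) := by
      funext x; simp [lmL, lm]
    rw [e, hA, map_sum]
    simp only [map_smul, Nat.cast_sum, Nat.cast_mul, Finset.sum_smul, mul_smul]
    rw [Finset.sum_comm]
    refine Finset.sum_congr rfl fun j _ => ?_
    rw [← Finset.smul_sum, ← hB]
    rfl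
  have h2 : ∀ k, ∑ j, A i j * B j k = if k = i then 1 else 0 := fun k => by
    have h3 := charLift_sum_smul_ibr_pidem hM (fun k => ((∑ j, A i j * B j k : ℕ) : ℂ)) k
    rw [← h1, charLift_ibr_pidem hM] at h3
    split_ifs at h3 ⊢ <;> exact_mod_cast h3.symm
  have h4 : ∀ j, 1 ≤ ∑ k, B j k := fun j => by
    by_contra h
    have h5 : ∀ k, B j k = 0 := fun k =>
      (Finset.sum_eq_zero_iff.1 (by omega : ∑ k, B j k = 0)) k (Finset.mem_univ k)
    have h6 := congrFun (hB j) 1
    simp [h5, lm, ibr_one hM, (bdim_pos j).ne'] at h6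
  have h7 : ∑ j, A i j * ∑ k, B j k = 1 := by
    simp only [Finset.mul_sum]
    rw [Finset.sum_comm]
    simp [h2]
  have h8 : ∑ j, A i j ≤ 1 :=
    h7 ▸ Finset.sum_le_sum fun j _ => Nat.le_mul_of_pos_right _ (h4 j)
  obtain ⟨j, hj⟩ : ∃ j, A i j ≠ 0 := by
    by_contra h
    push Not at h
    simp [h] at h7
  have h9 := Finset.add_sum_erase Finset.univ (A i) (Finset.mem_univ j)
  have h10 : ∀ k, k ≠ j → A i k = 0 := fun k hk =>
    (Finset.sum_eq_zero_iff.1 (by omega : ∑ k ∈ Finset.univ.erase j, A i k = 0)) k (by simp [hk])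
  refine ⟨j, ?_⟩
  rw [hA, Finset.sum_eq_single j (fun k _ hk => by simp [h10 k hk]) (by simp),
    show A i j = 1 by omega]
  simp

end

theorem cl1b : CL1bStmt.{u} := by
  intro G _ _ p _ M hM l _ S hS ι J b σ hb hW hσ
  classical
  rw [span_pRegularPart_eq hM hS] at hW
  set W := Submodule.span ℂ (b '' J) with hWd
  have hT : ∀ x ∈ W, lmL l x ∈ W := fun x hx => by
    refine Submodule.span_induction (p := fun x _ => lmL l x ∈ W) ?_ ?_ ?_ ?_ hx
    · rintro _ ⟨i, hi, rfl⟩
      exact Submodule.subset_span ⟨σ i, (hσ i hi).1, (hσ i hi).2.symm⟩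
    · simp
    · intro x y _ _ hx hy
      rw [map_add]; exact W.add_mem hx hy
    · intro c x _ hx
      rw [map_smul]; exact W.smul_mem c hx
  have t1 := trace_perm (lmL l) (fun i : J => b i) hb (fun i => ⟨σ i, (hσ i i.2).1⟩)
    (fun i => (hσ i i.2).2) W (by rw [hWd, Set.image_eq_range]; rfl) hT
  choose ρ hρ using lm_perm hM l
  have hρS : ∀ i ∈ ibrOf M S, ρ i ∈ ibrOf M S := fun i hi => by
    have h1 : ibr p (ρ i) ∈ Submodule.span ℂ (ibr p '' ibrOf M S) := by
      rw [← hρ, ← hW]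
      exact hT _ (hW ▸ Submodule.subset_span ⟨i, hi, rfl⟩)
    by_contra h
    exact (linearIndependent_ibr hM).notMem_span_image h h1
  have t2 := trace_perm (lmL l) (fun i : ibrOf M S => ibr p i.1)
    ((linearIndependent_ibr hM).comp _ Subtype.val_injective) (fun i => ⟨ρ i, hρS i i.2⟩)
    (fun i => hρ i) W (by rw [hW, Set.image_eq_range]) hT
  have t3 := Nat.cast_injective (R := ℂ) (t2.symm.trans t1)
  rw [← Set.ncard_image_of_injective _ Subtype.val_injective,
    ← Set.ncard_image_of_injective _ Subtype.val_injective] at t3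
  convert t3 using 2
  · ext i
    constructor
    · rintro ⟨hi, e⟩
      exact ⟨⟨i, hi⟩, Subtype.ext (ibr_injective hM ((hρ i).symm.trans e)), rfl⟩
    · rintro ⟨⟨i, hi⟩, e, rfl⟩
      exact ⟨hi, (hρ i).trans (congrArg (fun j : ibrOf M S => ibr p j.1) e)⟩
  · ext i
    constructor
    · rintro ⟨hi, e⟩
      exact ⟨⟨i, hi⟩, Subtype.ext e, rfl⟩
    · rintro ⟨⟨i, hi⟩, e, rfl⟩
      exact ⟨hi, congrArg Subtype.val e⟩

end Cfsg.Agent.H30.GbCL1b
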