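import Mathlib
import Cfsg.Agent.H89.L27Defs

/-! `E₈(3)` fixes no line of its adjoint module (piece L27-NOL). -/

set_option autoImplicit false
set_option maxRecDepth 100000

namespace Cfsg.Agent.H30.L27Nol

open Equiv Cfsg.Lie H37 H40 H34 H29 Module Cfsg.Agent.H50.E83 Cfsg.Agent.H89.L27
open scoped Matrix

theorem odd_cartan : ∀ r < chevE8.nroots, ∃ i < chevE8.rank, chevE8.cartan i r % 2 = 1 := by
  decide +kernel

theorem simple_lt : ∀ j < chevE8.rank, chevE8.simple j < chevE8.nroots := by decide +kernel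

theorem fix_all (v : V0) (hv : ∀ g, act0 g v = v ∨ act0 g v = -v) (g : G0) : act0 g v = v := by
  let P : Subgroup G0 :=
    { carrier := {g | act0 g v = v}
      mul_mem' := fun {a b} ha hb => by
        have ha' : act0 a v = v := ha
        have hb' : act0 b v = v := hb
        show act0 (a * b) v = v
        rw [map_mul, Module.End.mul_apply, hb', ha']
      one_mem' := by
        show act0 1 v = v
        rw [map_one, Module.End.one_apply]
      inv_mem' := fun {a} ha => by
        have ha' : act0 a v = v := ha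
        show act0 a⁻¹ v = v
        conv_lhs => rw [← ha']
        rw [← Module.End.mul_apply, ← map_mul, inv_mul_cancel, map_one, Module.End.one_apply] }
  have hsq : ∀ a : G0, a * a ∈ P := fun a => by
    show act0 (a * a) v = v
    rw [map_mul, Module.End.mul_apply]
    rcases hv a with h | h
    · rw [h, h]
    · rw [h, map_neg, h, neg_neg]
  have hx : ∀ r t, C8.xg (ZMod 3) r t ∈ P := fun r t => by
    have e : t = -t + -t := by revert t; decide
    rw [e, Cert.xg_add]
    exact hsq _
  have h1 : chevE8.group (ZMod 3) ≤ P.map (chevE8.group (ZMod 3)).subtype := by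
    refine C8.V.group_eq_simple.le.trans ((Subgroup.closure_le _).2 ?_)
    rintro _ ⟨i, hi, t, rfl | rfl⟩
    · exact ⟨_, hx _ t, rfl⟩
    · exact ⟨_, hx _ t, rfl⟩
  obtain ⟨x, hx, e⟩ := h1 g.2
  exact (Subtype.ext e : x = g) ▸ hx

theorem nol : NolStmt := by
  intro v hv
  have hf := fix_all v hv
  have hr : ∀ r : Rt, v (Sum.inr r) = 0 := by
    intro r
    obtain ⟨i, hi, ho⟩ := odd_cartan r r.2
    let c : Fin chevE8.rank → (ZMod 3)ˣ := Pi.mulSingle ⟨i, hi⟩ (-1)
    have hc : torChar chevE8 c r = -1 := by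
      rw [torChar, Finset.prod_eq_single ⟨i, hi⟩]
      · simp only [c, Pi.mulSingle_eq_same]
        exact Odd.neg_one_zpow (Int.odd_iff.2 ho)
      · intro j _ hj
        simp only [c, Pi.mulSingle_eq_of_ne hj, one_zpow]
      · simp
    have h1 := congrFun (hf (C8.tg (ZMod 3) c)) (Sum.inr r)
    have : ((C8.tg (ZMod 3) c).1.1 : Matrix chevE8.Idx chevE8.Idx (ZMod 3)) =
      chevE8.charDiag (ZMod 3) (torChar chevE8 c) := rfl
    simp only [act0_apply, this, ChevalleyDatum.charDiag, Matrix.mulVec_diagonal, Sum.elim_inr,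
      hc] at h1
    generalize v (Sum.inr r) = a at h1
    revert a
    decide
  have hv2 : v = ∑ i : Fin chevE8.rank, v (Sum.inl i) • hV chevE8 (ZMod 3) i := by
    funext k
    rw [Finset.sum_apply]
    rcases k with k | k
    · rw [Finset.sum_eq_single k]
      · simp [hV]
      · intro j _ hj
        have : (k : ℕ) ≠ j := fun e => hj (Fin.ext e).symm
        simp [hV, this]
      · simp
    · simp [hV, hr]
  have hs : ∀ j < chevE8.rank, ∑ i : Fin chevE8.rank,
      v (Sum.inl i) * ((chevE8.cartan i (chevE8.simple j) : ℤ) : ZMod 3) = 0 := by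
    intro j hj
    have h1 := hf (C8.xg (ZMod 3) (chevE8.simple j) 1)
    have e : ((C8.xg (ZMod 3) (chevE8.simple j) 1).1.1 : Matrix chevE8.Idx chevE8.Idx (ZMod 3)) =
      chevE8.x (ZMod 3) (chevE8.simple j) 1 := C8.V.coe_xG _ _
    rw [act0_apply, e] at h1
    conv_lhs at h1 => rw [hv2]
    rw [Matrix.mulVec_sum] at h1
    have h2 := congrFun h1 (Sum.inr ⟨chevE8.simple j, simple_lt j hj⟩)
    rw [hr, Finset.sum_apply] at h2
    rw [← neg_eq_zero, ← Finset.sum_neg_distrib, ← h2]
    refine Finset.sum_congr rfl fun i _ => ?_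
    rw [Matrix.mulVec_smul, x_hV (simple_lt j hj) 1 i.2]
    simp [hV, eV]
  have hl : ∀ i : Fin chevE8.rank, v (Sum.inl i) = 0 := by
    intro i
    have h1 : ∑ k : Fin chevE8.rank, v (Sum.inl k) * ((∑ j ∈ Finset.range chevE8.rank,
        chevE8.cartan k (chevE8.simple j) * gt inv8 i j : ℤ) : ZMod 3) = v (Sum.inl i) := by
      rw [Finset.sum_eq_single i]
      · rw [inv8_ok i i.2 i i.2]; simp
      · intro k _ hk
        have : (k : ℕ) ≠ i := fun e => hk (Fin.ext e)
        rw [inv8_ok i i.2 k k.2]; simp [this]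
      · simp
    rw [← h1]
    simp only [Int.cast_sum, Int.cast_mul, Finset.mul_sum]
    rw [Finset.sum_comm]
    refine Finset.sum_eq_zero fun j hj => ?_
    simp only [← mul_assoc]
    rw [← Finset.sum_mul, hs j (Finset.mem_range.1 hj), zero_mul]
  funext k
  rcases k with k | k
  · exact hl k
  · exact hr k

end Cfsg.Agent.H30.L27Nol
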