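import Cfsg.Agent.H50.L81Defs

/-! Project L81, piece STW: the three regular labellings have trivial stabiliser in the Weyl
group. -/

set_option autoImplicit false
set_option maxRecDepth 100000

namespace Cfsg.Agent.H30.L81Stw

open Equiv Cfsg.Lie H37 H40 H34 H29 Finset H50.E83 H50.L81

/-- The table of roots modulo `40`. -/
noncomputable def N40 : List RN :=
  List.zipWith (fun (y : RN) (x : RD) => (y.1, y.2.1, res 40 x.2.2.2)) tn8 tabE8

theorem zip_rn (q q' : ℕ) (T : List RD) {N : List RN} (h : N = T.map (rn q T)) :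
    List.zipWith (fun (y : RN) (x : RD) => (y.1, y.2.1, res q' x.2.2.2)) N T = T.map (rn q' T) := by
  rw [h, List.zipWith_map_left, List.zipWith_self]
  rfl

theorem tab40 : TabN chevE8.rank 40 tabE8 carE8 N40 cn8 un8 :=
  ⟨by decide, zip_rn _ 40 tabE8 tabN8.2.1, tabN8.2.2.1, tabN8.2.2.2⟩

theorem chk : ∀ i < 3, (rep i).length = 8 ∧
    allL (fun x => !kil 40 (rep i) x.2.2) N40 = true ∧
    srch cn8 N40 40 1 (rep i) (fun M => polyOK 40 un8 M (ordP 40 0)) = true := by
  decide +kernel

theorem stw : StwStmt := by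
  intro i hi
  obtain ⟨h1, h2, h3⟩ := chk i hi
  refine ⟨fun r h => ?_, fun w hw h => ?_⟩
  · have := allL_iff.1 h2 _ (mem_tabN tabOKE8 tab40 r)
    rw [kil_iff.2 (((rp_vN C8 40 (rep i)).dotN_rn tabOKE8 tab40 dvd_rfl (isAdd_vN C8 _) r).trans h)]
      at this
    exact absurd this (by decide)
  · have h4 := srch_spec tabOKE8 tab40 dvd_rfl hw h1 (rp_vN C8 40 (rep i)) (isAdd_vN C8 _)
      (k := 1) (fun r => by rw [Nat.cast_one, one_mul]; exact h r) h3
    refine eq_one_of_mod (s := 40) (by decide +kernel) hw fun f hf r => ?_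
    have := ord_spec tabOKE8 tab40 dvd_rfl hw h4 hf r
    rwa [zero_add, pow_one] at this

end Cfsg.Agent.H30.L81Stw
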