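import Cfsg.Agent.H91.LinDefs

/-! Elementary bounds for fixed spaces. -/

set_option autoImplicit false

namespace Cfsg.Agent.H30.LinREB

open Module Cfsg.Agent.H91.LIN

universe u v w

section
variable {K : Type u} {V : Type w} [Field K] [AddCommGroup V] [Module K V] [FiniteDimensional K V]

theorem ker_mul_le (f g : End K V) :
    finrank K (LinearMap.ker (f * g)) ≤ finrank K (LinearMap.ker f) + finrank K (LinearMap.ker g) := by
  have h := LinearMap.finrank_range_add_finrank_ker (g.domRestrict (LinearMap.ker (f * g)))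
  have h1 : LinearMap.range (g.domRestrict (LinearMap.ker (f * g))) ≤ LinearMap.ker f := by
    rintro _ ⟨⟨v, hv⟩, rfl⟩
    exact hv
  have h2 : (LinearMap.ker (g.domRestrict (LinearMap.ker (f * g)))).map
      (LinearMap.ker (f * g)).subtype ≤ LinearMap.ker g := by
    rintro _ ⟨⟨v, hv⟩, hw, rfl⟩
    exact hw
  have h3 := Submodule.finrank_mono h1
  have h4 := Submodule.finrank_mono h2
  rw [Submodule.finrank_map_subtype_eq] at h4
  omega

theorem ker_pow_le (f : End K V) (n : ℕ) :
    finrank K (LinearMap.ker (f ^ n)) ≤ n * finrank K (LinearMap.ker f) := by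
  induction n with
  | zero =>
    have : LinearMap.ker (f ^ 0) = ⊥ := by rw [pow_zero]; exact LinearMap.ker_id
    rw [this, finrank_bot]; omega
  | succ n ih =>
    have := ker_mul_le (f ^ n) f
    rw [← pow_succ] at this
    rw [Nat.succ_mul]; omega

theorem finrank_sup_le {ι : Type*} (s : Finset ι) (W : ι → Submodule K V) :
    finrank K ↥(s.sup W) ≤ ∑ i ∈ s, finrank K (W i) := by
  classical
  induction s using Finset.induction_on with
  | empty => simp
  | insert a s ha ih =>
    rw [Finset.sup_insert, Finset.sum_insert ha]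
    have := Submodule.finrank_add_le_finrank_add_finrank (W a) (s.sup W)
    omega

omit [FiniteDimensional K V] in
theorem geom_mem {f : End K V} {r : ℕ} (h : f ^ r = 1) (v : V) :
    (∑ k ∈ Finset.range r, f ^ k) v ∈ LinearMap.ker (f - 1) := by
  have := mul_geom_sum f r
  rw [h, sub_self] at this
  rw [LinearMap.mem_ker, ← Module.End.mul_apply, this, LinearMap.zero_apply]

omit [FiniteDimensional K V] in
theorem ker_pow_sub {f : End K V} (m : ℕ) : LinearMap.ker (f - 1) ≤ LinearMap.ker (f ^ m - 1) := by
  intro v hv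
  rw [LinearMap.mem_ker, LinearMap.sub_apply, sub_eq_zero, Module.End.one_apply] at hv ⊢
  induction m with
  | zero => simp
  | succ m ih => rw [pow_succ, Module.End.mul_apply, hv, ih]

theorem range_le {r X Y : End K V} {ω : K} (hω : ω ^ 2 + ω + 1 = 0) (h3 : (3 : K) ≠ 0)
    (hr : r * r * r = 1) (hX : r * X = ω • (X * r)) (hY : r * Y = ω ^ 2 • (Y * r))
    (hc : X * Y = Y * X) (α β : K) :
    finrank K (LinearMap.range ((α • X + β • Y) * (α • X + β • Y))) ≤
      4 * finrank K (LinearMap.ker (r - 1)) := by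
  set V0 := LinearMap.ker (r - 1) with hV0
  set U := (α • X + β • Y) * (α • X + β • Y) with hU
  have m0 : ∀ v, v ∈ V0 ↔ r v = v := fun v => by
    rw [hV0, LinearMap.mem_ker, LinearMap.sub_apply, sub_eq_zero, Module.End.one_apply]
  have hX' : ∀ v, r (X v) = ω • X (r v) := fun v => LinearMap.congr_fun hX v
  have hY' : ∀ v, r (Y v) = ω ^ 2 • Y (r v) := fun v => LinearMap.congr_fun hY v
  have hc' : ∀ v, X (Y v) = Y (X v) := fun v => LinearMap.congr_fun hc v
  have hr' : ∀ v, r (r (r v)) = v := fun v => LinearMap.congr_fun hr v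
  have hω3 : ω ^ 3 = 1 := by linear_combination (ω - 1) * hω
  have hUv : ∀ v, U v = (α * α) • X (X v) + (2 * α * β) • X (Y v) + (β * β) • Y (Y v) := by
    intro v
    simp only [hU, Module.End.mul_apply, LinearMap.add_apply, LinearMap.smul_apply, map_add,
      map_smul, ← hc']
    module
  set W : Submodule K V := (V0 ⊔ V0.map U) ⊔ (V0.map X ⊔ V0.map Y) with hW
  have w0 : ∀ v ∈ V0, v ∈ W := fun v hv => Submodule.mem_sup_left (Submodule.mem_sup_left hv)
  have wU : ∀ v ∈ V0, U v ∈ W := fun v hv =>
    Submodule.mem_sup_left (Submodule.mem_sup_right ⟨v, hv, rfl⟩)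
  have wX : ∀ v ∈ V0, X v ∈ W := fun v hv =>
    Submodule.mem_sup_right (Submodule.mem_sup_left ⟨v, hv, rfl⟩)
  have wY : ∀ v ∈ V0, Y v ∈ W := fun v hv =>
    Submodule.mem_sup_right (Submodule.mem_sup_right ⟨v, hv, rfl⟩)
  have e1 : ∀ v, r v = ω • v → U v ∈ W := by
    intro v hv
    have a1 : Y v ∈ V0 := by
      rw [m0, hY', hv, map_smul, smul_smul]
      rw [show ω ^ 2 * ω = 1 by linear_combination hω3, one_smul]
    have a2 : X (X v) ∈ V0 := by
      rw [m0, hX', hX', hv, map_smul, map_smul, map_smul, smul_smul, smul_smul]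
      rw [show ω * ω * ω = 1 by linear_combination hω3, one_smul]
    rw [hUv]
    exact W.add_mem (W.add_mem (W.smul_mem _ (w0 _ a2)) (W.smul_mem _ (wX _ a1)))
      (W.smul_mem _ (wY _ a1))
  have e2 : ∀ v, r v = ω ^ 2 • v → U v ∈ W := by
    intro v hv
    have a1 : X v ∈ V0 := by
      rw [m0, hX', hv, map_smul, smul_smul]
      rw [show ω * ω ^ 2 = 1 by linear_combination hω3, one_smul]
    have a2 : Y (Y v) ∈ V0 := by
      rw [m0, hY', hY', hv, map_smul, map_smul, map_smul, smul_smul, smul_smul]
      rw [show ω ^ 2 * ω ^ 2 * ω ^ 2 = 1 by linear_combination (ω ^ 3 + 1) * hω3, one_smul]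
    rw [hUv, hc']
    exact W.add_mem (W.add_mem (W.smul_mem _ (wX _ a1)) (W.smul_mem _ (wY _ a1)))
      (W.smul_mem _ (w0 _ a2))
  have hle : LinearMap.range U ≤ W := by
    rintro _ ⟨v, rfl⟩
    have b0 := wU (v + r v + r (r v)) (by
      rw [m0]; simp only [map_add, hr']; module)
    have b1 := e1 (v + ω ^ 2 • r v + ω • r (r v)) (by
      simp only [map_add, map_smul, hr']
      match_scalars
      · linear_combination -hω3
      · ring
      · ring)
    have b2 := e2 (v + ω • r v + ω ^ 2 • r (r v)) (by
      simp only [map_add, map_smul, hr']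
      match_scalars
      · linear_combination -hω3
      · linear_combination -ω * hω3
      · ring)
    have := W.smul_mem (3 : K)⁻¹ (W.add_mem (W.add_mem b0 b1) b2)
    convert this using 1
    simp only [map_add, map_smul]
    match_scalars
    · field_simp; norm_num
    · linear_combination -(3 : K)⁻¹ * hω
    · linear_combination -(3 : K)⁻¹ * hω
  have f1 := Submodule.finrank_mono hle
  have f2 := Submodule.finrank_add_le_finrank_add_finrank (V0 ⊔ V0.map U) (V0.map X ⊔ V0.map Y)
  have f3 := Submodule.finrank_add_le_finrank_add_finrank V0 (V0.map U)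
  have f4 := Submodule.finrank_add_le_finrank_add_finrank (V0.map X) (V0.map Y)
  have f5 := Submodule.finrank_map_le U V0
  have f6 := Submodule.finrank_map_le X V0
  have f7 := Submodule.finrank_map_le Y V0
  rw [← hW] at f2
  omega

end

theorem rS : RStmt.{u, v, w} := by
  intro K G V _ _ _ _ _ _ ρ h3 x y hx h1 h2
  obtain ⟨ω, hω⟩ : ∃ ω : K, ω ^ 2 + ω + 1 = 0 := by
    obtain ⟨z, hz⟩ := IsAlgClosed.exists_root (Polynomial.X ^ 2 + Polynomial.X + 1 : Polynomial K)
      (by
        have : (Polynomial.X ^ 2 + Polynomial.X + 1 : Polynomial K).degree = 2 := by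
          compute_degree!
        rw [this]; norm_num)
    exact ⟨z, by simpa using hz⟩
  have hω3 : ω ^ 3 = 1 := by linear_combination (ω - 1) * hω
  have hx3 : x * x * x = 1 := by rw [← hx, pow_succ, sq]
  have hxi : x⁻¹ = x * x := by rw [inv_eq_iff_mul_eq_one, ← mul_assoc, hx3]
  set a := ρ y with ha
  set b := ρ (x * y * x⁻¹) with hb
  set c := ρ (x⁻¹ * y * x) with hc
  set r := ρ x with hr
  have ra : r * a = b * r := by rw [ha, hb, hr, ← map_mul, ← map_mul]; congr 1; group
  have rb : r * b = c * r := by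
    rw [hc, hb, hr, ← map_mul, ← map_mul]; congr 1
    rw [hxi]; simp only [mul_assoc]
  have rc : r * c = a * r := by rw [ha, hc, hr, ← map_mul, ← map_mul]; congr 1; group
  have ab : a * b = b * a := by rw [ha, hb, ← map_mul, ← map_mul, h1.eq]
  have ac : a * c = c * a := by rw [ha, hc, ← map_mul, ← map_mul, h2.eq]
  have bc : b * c = c * b := by
    rw [hb, hc, ← map_mul, ← map_mul]; congr 1
    have := congrArg (fun t => x * t * x⁻¹) h1.eq
    have e : x⁻¹ * y * x = x * (x * y * x⁻¹) * x⁻¹ := by
      have : x = x⁻¹ * x⁻¹ := by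
        rw [← mul_inv_rev, ← hxi, inv_inv]
      calc x⁻¹ * y * x = x * x * y * (x⁻¹ * x⁻¹) := by rw [← this, ← hxi]
        _ = _ := by simp only [mul_assoc]
    rw [e]
    calc x * y * x⁻¹ * (x * (x * y * x⁻¹) * x⁻¹) = x * (y * (x * y * x⁻¹)) * x⁻¹ := by group
      _ = x * (x * y * x⁻¹ * y) * x⁻¹ := this
      _ = _ := by group
  have key := range_le (r := r) (X := a + ω ^ 2 • b + ω • c) (Y := a + ω • b + ω ^ 2 • c) hω h3
    (by rw [hr, ← map_mul, ← map_mul, hx3, map_one])
    (by
      simp only [mul_add, add_mul, mul_smul_comm, smul_mul_assoc, ra, rb, rc]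
      match_scalars
      · linear_combination -hω3
      · ring
      · ring)
    (by
      simp only [mul_add, add_mul, mul_smul_comm, smul_mul_assoc, ra, rb, rc]
      match_scalars
      · linear_combination -hω3
      · linear_combination -ω * hω3
      · ring)
    (by
      simp only [mul_add, add_mul, mul_smul_comm, smul_mul_assoc, ab, ac, bc]
      module)
    ((1 - ω) / 3) ((1 - ω ^ 2) / 3)
  have hu : ((1 - ω) / 3) • (a + ω ^ 2 • b + ω • c) + ((1 - ω ^ 2) / 3) • (a + ω • b + ω ^ 2 • c) =
      a - b := by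
    match_scalars
    · field_simp; linear_combination -hω
    · field_simp; linear_combination hω - 2 * hω3
    · field_simp; linear_combination -ω * hω3
  rw [hu] at key
  have k1 := ker_mul_le (a - b) (a - b)
  have k2 := LinearMap.finrank_range_add_finrank_ker ((a - b) * (a - b))
  have k3 : finrank K (LinearMap.ker (a - b)) ≤ fx ρ (y * (x * y * x⁻¹)⁻¹) := by
    apply Submodule.finrank_mono
    intro v hv
    rw [LinearMap.mem_ker, LinearMap.sub_apply, sub_eq_zero] at hv ⊢
    rw [Module.End.one_apply, h1.inv_right.eq, map_mul, Module.End.mul_apply, ← ha, hv, hb,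
      ← Module.End.mul_apply, ← map_mul, inv_mul_cancel, map_one, Module.End.one_apply]
  have k4 : fx ρ x = finrank K (LinearMap.ker (r - 1)) := rfl
  omega

theorem eS : EStmt.{u, v, w} := by
  intro K G V _ _ _ _ _ ρ
  refine ⟨fun t t' ht ht' => ?_, fun r g hr hK hg => ?_, fun r a b hr hK hab ha hb => ?_⟩
  · have key : ∀ s : G, s ^ 2 = 1 → finrank K V ≤ fx ρ s + finrank K (LinearMap.ker (ρ s + 1)) := by
      intro s hs
      have h1 := ker_mul_le (ρ s - 1) (ρ s + 1)
      have h2 : (ρ s - 1) * (ρ s + 1) = 0 := by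
        have : ρ s * ρ s = 1 := by rw [← map_mul, ← sq, hs, map_one]
        rw [sub_mul, mul_add, this, one_mul, mul_one, add_comm, sub_self]
      rw [h2, LinearMap.ker_zero, finrank_top] at h1
      exact h1
    have h1 := key t ht
    have h2 := key t' ht'
    have h3 := Submodule.finrank_sup_add_finrank_inf_eq (LinearMap.ker (ρ t + 1))
      (LinearMap.ker (ρ t' + 1))
    have h4 := Submodule.finrank_le (LinearMap.ker (ρ t + 1) ⊔ LinearMap.ker (ρ t' + 1))
    have h5 : finrank K ↥(LinearMap.ker (ρ t + 1) ⊓ LinearMap.ker (ρ t' + 1)) ≤ fx ρ (t * t') := by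
      apply Submodule.finrank_mono
      rintro v ⟨hv, hv'⟩
      rw [SetLike.mem_coe, LinearMap.mem_ker, LinearMap.add_apply, Module.End.one_apply,
        add_eq_zero_iff_eq_neg] at hv hv'
      rw [LinearMap.mem_ker, LinearMap.sub_apply, sub_eq_zero, Module.End.one_apply, map_mul,
        Module.End.mul_apply, hv', map_neg, hv, neg_neg]
    omega
  · have := Fact.mk hr
    have : CharP K r := (CharP.charP_iff_prime_eq_zero hr).2 hK
    have h1 : (ρ g - 1) ^ r = 0 := by
      have h := congrArg (Polynomial.aeval (ρ g))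
        (sub_pow_char (p := r) (Polynomial.X : Polynomial K) 1)
      simp only [map_pow, map_sub, Polynomial.aeval_X, map_one, one_pow] at h
      rw [h, ← map_pow, hg, map_one, sub_self]
    have h2 := ker_pow_le (ρ g - 1) r
    rw [h1, LinearMap.ker_zero, finrank_top] at h2
    exact h2
  · set W : Submodule K V := LinearMap.ker (ρ b - 1) ⊔
      (Finset.range r).sup fun i => LinearMap.ker (ρ (a * b ^ i) - 1) with hW
    have htop : (⊤ : Submodule K V) ≤ W := by
      intro v _
      have h1 : ∑ i ∈ Finset.range r, (∑ k ∈ Finset.range r, ρ (a * b ^ i) ^ k) v ∈ W := by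
        refine W.sum_mem fun i hi => Submodule.mem_sup_right ?_
        refine (Finset.le_sup (f := fun i => LinearMap.ker (ρ (a * b ^ i) - 1)) hi :) (geom_mem ?_ v)
        rw [← map_pow, (hab.pow_right i).mul_pow, ha, ← pow_mul, mul_comm i, pow_mul, hb, one_pow,
          one_mul, map_one]
      have h2 : ∑ i ∈ Finset.range r, (∑ k ∈ Finset.range r, ρ (a * b ^ i) ^ k) v =
          ∑ k ∈ Finset.range r, (∑ i ∈ Finset.range r, ρ (b ^ k) ^ i) (ρ (a ^ k) v) := by
        simp only [LinearMap.coe_sum, Finset.sum_apply]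
        rw [Finset.sum_comm]
        refine Finset.sum_congr rfl fun k _ => Finset.sum_congr rfl fun i _ => ?_
        rw [← map_pow, ← map_pow, ← Module.End.mul_apply, ← map_mul, (hab.pow_right i).mul_pow,
          ← pow_mul, ← pow_mul, mul_comm i, (hab.pow_pow k (k * i)).eq]
      have h3 : ∀ k ∈ (Finset.range r).erase 0,
          (∑ i ∈ Finset.range r, ρ (b ^ k) ^ i) (ρ (a ^ k) v) ∈ W := by
        intro k hk
        rw [Finset.mem_erase, Finset.mem_range] at hk
        have hco : Nat.Coprime k r :=
          (Nat.coprime_of_lt_prime hk.1 hk.2 hr).symm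
        obtain ⟨m, hm⟩ : ∃ m : ℕ, (b ^ k) ^ m = b :=
          exists_pow_eq_self_of_coprime (hco.coprime_dvd_right (orderOf_dvd_of_pow_eq_one hb))
        refine Submodule.mem_sup_left ?_
        have := ker_pow_sub m (geom_mem (f := ρ (b ^ k)) (r := r) (by
          rw [← map_pow, ← pow_mul, mul_comm, pow_mul, hb, one_pow, map_one]) (ρ (a ^ k) v))
        rwa [← map_pow, hm] at this
      rw [h2, ← Finset.add_sum_erase _ _ (Finset.mem_range.2 hr.pos)] at h1
      have h4 := W.sub_mem h1 (W.sum_mem h3)
      rw [add_sub_cancel_right] at h4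
      have h5 := W.smul_mem (r : K)⁻¹ h4
      simp only [pow_zero, map_one, one_pow, Finset.sum_const, Finset.card_range,
        Module.End.one_apply, LinearMap.smul_apply] at h5
      rwa [← Nat.cast_smul_eq_nsmul K, smul_smul, inv_mul_cancel₀ hK, one_smul] at h5
    have h1 := Submodule.finrank_mono htop
    have h2 := Submodule.finrank_add_le_finrank_add_finrank (LinearMap.ker (ρ b - 1))
      ((Finset.range r).sup fun i => LinearMap.ker (ρ (a * b ^ i) - 1))
    have h3 := finrank_sup_le (Finset.range r) fun i => LinearMap.ker (ρ (a * b ^ i) - 1)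
    rw [finrank_top] at h1
    rw [← hW] at h2
    unfold fx
    omega

theorem rank_map {K L n : Type*} [Field K] [Field L] [Fintype n] [DecidableEq n] (f : K →+* L)
    (M : Matrix n n K) : (M.map f).rank = M.rank := by
  classical
  obtain ⟨A, B, D, h⟩ := Matrix.Pivot.exists_list_transvec_mul_diagonal_mul_list_transvec M
  set A' := (A.map Matrix.TransvectionStruct.toMatrix).prod
  set B' := (B.map Matrix.TransvectionStruct.toMatrix).prod
  have hA : A'.det = 1 := Matrix.TransvectionStruct.det_toMatrix_prod A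
  have hB : B'.det = 1 := Matrix.TransvectionStruct.det_toMatrix_prod B
  have hA' : (A'.map f).det = 1 := by
    have := f.map_det A'
    rw [hA, map_one] at this
    exact this.symm
  have hB' : (B'.map f).det = 1 := by
    have := f.map_det B'
    rw [hB, map_one] at this
    exact this.symm
  rw [h, Matrix.map_mul, Matrix.map_mul, Matrix.diagonal_map (map_zero f),
    Matrix.rank_mul_eq_left_of_isUnit_det _ _ (by rw [hB']; exact isUnit_one),
    Matrix.rank_mul_eq_right_of_isUnit_det _ _ (by rw [hA']; exact isUnit_one),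
    Matrix.rank_mul_eq_left_of_isUnit_det _ _ (by rw [hB]; exact isUnit_one),
    Matrix.rank_mul_eq_right_of_isUnit_det _ _ (by rw [hA]; exact isUnit_one),
    Matrix.rank_diagonal, Matrix.rank_diagonal]
  simp only [ne_eq, map_eq_zero]

theorem bS : BStmt.{u, v, w} := by
  intro K G V _ _ _ _ _ ρ
  let b := Module.finBasis K V
  let f := algebraMap K (AlgebraicClosure K)
  let σ : Representation (AlgebraicClosure K) G (Fin (finrank K V) → AlgebraicClosure K) :=
    (Matrix.toLinAlgEquiv'.toAlgHom.toMonoidHom).comp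
      ((f.mapMatrix : Matrix _ _ K →+* _).toMonoidHom.comp
        ((LinearMap.toMatrixAlgEquiv b).toAlgHom.toMonoidHom.comp ρ))
  refine ⟨σ, fun g => ?_⟩
  have h1 : σ g - 1 = Matrix.toLin' ((LinearMap.toMatrix b b (ρ g - 1)).map f) := by
    have : σ g = Matrix.toLin' ((LinearMap.toMatrix b b (ρ g)).map f) := rfl
    rw [this, map_sub, Matrix.map_sub _ (map_sub f), map_sub, LinearMap.toMatrix_one,
      Matrix.map_one _ (map_zero f) (map_one f), Matrix.toLin'_one]
    rfl
  have h2 := LinearMap.finrank_range_add_finrank_ker (σ g - 1)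
  have h3 := LinearMap.finrank_range_add_finrank_ker (ρ g - 1)
  have h4 := Matrix.rank_eq_finrank_range_toLin (LinearMap.toMatrix b b (ρ g - 1)) b b
  rw [Matrix.toLin_toMatrix] at h4
  have h5 : ((LinearMap.toMatrix b b (ρ g - 1)).map f).rank =
      finrank (AlgebraicClosure K) (LinearMap.range (σ g - 1)) := by rw [h1]; rfl
  rw [rank_map] at h5
  rw [finrank_fintype_fun_eq_card, Fintype.card_fin] at h2
  unfold fx
  omega

end Cfsg.Agent.H30.LinREB
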