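import Cfsg.Agent.H54.O84Defs

/-! The elements of `CW (π i)` permuting the simple roots of `Δ0` (piece O84-PERM). -/

set_option autoImplicit false
set_option maxRecDepth 100000

namespace Cfsg.Agent.H30.O84Perm

open Cfsg.Agent.H54.O84 Equiv Cfsg.Lie H37 H40 H34 H29

def sN (j : ℕ) : ℕ := [162, 141, 135, 130, 126, 123, 121, 120].getD j 0

theorem α_val (j : Ix) : (C8.S.α j : ℕ) = sN j := by
  have : ∀ j < chevE8.rank, chevE8.simple j = sN j := by decide +kernel
  exact (C8.simple_val j).trans (this j j.2)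

noncomputable def ev (l : List ℕ) (r : ℕ) : ℕ := l.foldr (fun i s => rf (i % 8) s) r

set_option synthInstance.maxSize 2000 in
set_option synthInstance.maxHeartbeats 400000 in
theorem chk : ∀ i : Fin 2, ∀ a ∈ [141, 135, 130, 126], ∀ b ∈ [141, 135, 130, 126],
    ∀ c ∈ [141, 135, 130, 126], ∀ d ∈ [141, 135, 130, 126],
    pr a c = pr 141 130 → pr b c = pr 135 130 → pr d c = pr 126 130 → pr a b = pr 141 135 →
    pr a d = pr 141 126 → pr b d = pr 135 126 →
    (∃ l ∈ cL i, ev l 141 = a ∧ ev l 135 = b ∧ ev l 130 = c ∧ ev l 126 = d) ∨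
    ∀ t < 240, pr a t = pr 141 162 → pr b t = pr 135 162 → pr c t = pr 130 162 →
      pr d t = pr 126 162 → pr (piF i a) t = pr (piF i 141) 162 →
      pr (piF i b) t = pr (piF i 135) 162 → pr (piF i c) t = pr (piF i 130) 162 →
      pr (piF i d) t = pr (piF i 126) 162 → False := by
  decide +kernel

theorem perm (det : DetStmt) (ct : CtStmt) : PermStmt := by
  intro i u hu hJ
  obtain ⟨huW, hc⟩ := mem_CW.1 hu
  let ix : Fin 5 → Ix := fun j => ⟨j, j.2.trans (by decide)⟩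
  have hv : ∀ j : Fin 5, (C8.S.α (ix j) : ℕ) = sN j := fun j => α_val _
  have hm : ∀ j : Fin 5, (j : ℕ) ∈ [1, 2, 3, 4] → (u (C8.S.α (ix j)) : ℕ) ∈ [141, 135, 130, 126] := by
    intro j hj
    obtain ⟨j', hj', e⟩ := hJ (ix j) hj
    rw [e, α_val]
    have h : ∀ n ∈ [1, 2, 3, 4], sN n ∈ [141, 135, 130, 126] := by decide
    exact h _ hj'
  have p1 : ∀ j k : Fin 5, pr (u (C8.S.α (ix j))) (u (C8.S.α (ix k))) = pr (sN j) (sN k) := by
    intro j k
    rw [← H54.O84.pair_eq, C8.R.pair_W huW, H54.O84.pair_eq, hv, hv]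
  have p2 : ∀ j k : Fin 5, pr (piF i (u (C8.S.α (ix j)))) (u (C8.S.α (ix k))) =
      pr (piF i (sN j)) (sN k) := by
    intro j k
    rw [← π_val, ← Perm.mul_apply (π i) u, ← hc, Perm.mul_apply, ← H54.O84.pair_eq, C8.R.pair_W huW,
      H54.O84.pair_eq, π_val, hv, hv]
  rcases chk i _ (hm 1 (by decide)) _ (hm 2 (by decide)) _ (hm 3 (by decide)) _ (hm 4 (by decide))
    (p1 1 3) (p1 2 3) (p1 4 3) (p1 1 2) (p1 1 4) (p1 2 4) with ⟨l, hl, e1, e2, e3, e4⟩ | h
  · obtain ⟨k, rfl⟩ := List.mem_iff_get.1 hl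
    refine ⟨k, det i u hu _ (ct i (false, k)).1 fun j hj => Fin.ext ?_⟩
    have e : cT i (false, k) = wd ((cL i).get k) := one_mul _
    rw [e, wd_val, α_val]
    obtain ⟨j, hj8⟩ := j
    have hj' : j ∈ [1, 2, 3, 4] := hj
    simp only [List.mem_cons, List.not_mem_nil, or_false] at hj'
    rcases hj' with rfl | rfl | rfl | rfl
    · exact e1.symm
    · exact e2.symm
    · exact e3.symm
    · exact e4.symm
  · exact (h _ (u (C8.S.α (ix 0))).2 (p1 1 0) (p1 2 0) (p1 3 0) (p1 4 0) (p2 1 0) (p2 2 0) (p2 3 0)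
      (p2 4 0)).elim

end Cfsg.Agent.H30.O84Perm
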