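import Cfsg.Agent.H42.PcDefs

/-! Project PC: counting orbits of a `2`-subgroup. -/

set_option autoImplicit false

namespace Cfsg.Agent.H30.PcOrb

open Subgroup MulAction Cfsg.Agent.H42.Pc

universe u

theorem orb : OrbStmt.{u} := by
  classical
  intro S Ω _ _ _ _ T A c l hT hl hn hc hA hinv hex x hx s hs
  by_contra hcon
  have := Fintype.ofFinite Ω
  let Q := orbitRel.Quotient S Ω
  have : Fintype Q := Fintype.ofFinite _
  let f : Ω → Q := Quotient.mk _
  have hf : ∀ a b : Ω, f a = f b ↔ a ∈ orbit S b := fun a b => Quotient.eq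
  have npos : 0 < Nat.card Ω := by
    have : Nonempty Ω := ⟨x⟩
    exact Nat.card_pos
  have fib : ∀ ω : Q, (Finset.univ.filter fun a => f a = ω).card * c = Nat.card S := by
    intro ω
    obtain ⟨y, rfl⟩ := Quotient.exists_rep ω
    have e : ((Finset.univ.filter fun a => f a = f y : Finset Ω) : Set Ω) = orbit S y := by
      ext a; simp [hf]
    rw [← (stabilizer S y).index_mul_card, hc, index_stabilizer, ← e, Set.ncard_coe_finset]
  have h1 : c = Fintype.card Q * l := by
    have h2 : (Finset.univ : Finset Ω).card = ∑ ω : Q, (Finset.univ.filter fun a => f a = ω).card :=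
      Finset.card_eq_sum_card_fiberwise fun _ _ => Finset.mem_univ _
    have h3 : Nat.card Ω * c = Fintype.card Q * Nat.card S := by
      rw [Nat.card_eq_fintype_card (α := Ω), ← Finset.card_univ, h2, Finset.sum_mul]
      simp [fib]
    rw [← hn] at h3
    apply Nat.eq_of_mul_eq_mul_left npos
    rw [h3]; ring
  have qpos : 0 < Fintype.card Q := Fintype.card_pos_iff.2 ⟨f x⟩
  have big : ∀ y : Ω, Nat.card T ≤ Fintype.card Q * (orbit T y).ncard := by
    intro y
    let φ : stabilizer T y →* stabilizer S y :=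
      (T.subtype.comp (stabilizer T y).subtype).codRestrict _ fun g => g.2
    have hφ : Function.Injective φ := fun a b h =>
      Subtype.ext (Subtype.ext (congrArg (fun z : stabilizer S y => (z : S)) h))
    have h2 := card_dvd_of_injective φ hφ
    obtain ⟨k, hk⟩ := IsPGroup.iff_card.1 (hT.to_subgroup (stabilizer T y))
    rw [hc, h1, hk] at h2
    have h3 : 2 ^ k ≤ Fintype.card Q := Nat.le_of_dvd qpos
      (Nat.Coprime.dvd_of_dvd_mul_right (Nat.Coprime.pow_left k (Nat.coprime_two_left.2 hl)) h2)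
    rw [← (stabilizer T y).index_mul_card, hk, index_stabilizer, mul_comm]
    exact Nat.mul_le_mul_right _ h3
  have sub : ∀ y ∈ A, orbit T y ⊆ ((A.toFinset.filter fun a => f a = f y : Finset Ω) : Set Ω) := by
    rintro y hy _ ⟨t, rfl⟩
    simp only [Finset.coe_filter, Set.mem_toFinset]
    exact ⟨hinv y hy t t.2, (hf _ _).2 ⟨t, rfl⟩⟩
  have h4 : A.toFinset.card = ∑ ω : Q, (A.toFinset.filter fun a => f a = ω).card :=
    Finset.card_eq_sum_card_fiberwise fun _ _ => Finset.mem_univ _
  have h5 : ∑ _ω : Q, Nat.card T <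
      ∑ ω : Q, Fintype.card Q * (A.toFinset.filter fun a => f a = ω).card := by
    refine Finset.sum_lt_sum (fun ω _ => ?_) ⟨f x, Finset.mem_univ _, ?_⟩
    · obtain ⟨y, rfl⟩ := Quotient.exists_rep ω
      obtain ⟨g, hg⟩ := hex y
      have e : (Quotient.mk _ y : Q) = f (g • y) := ((hf _ _).2 ⟨g, rfl⟩).symm
      rw [e, ← Set.ncard_coe_finset]
      exact (big _).trans (Nat.mul_le_mul_left _ (Set.ncard_le_ncard (sub _ hg) (Set.toFinite _)))
    · rw [← Set.ncard_coe_finset]
      refine (big x).trans_lt (Nat.mul_lt_mul_of_pos_left (Set.ncard_lt_ncard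
        ⟨sub x hx, fun h => hcon ?_⟩ (Set.toFinite _)) qpos)
      obtain ⟨t, ht⟩ := h (a := s • x) (by
        simp only [Finset.coe_filter, Set.mem_toFinset]
        exact ⟨hs, (hf _ _).2 ⟨s, rfl⟩⟩)
      exact ⟨t, t.2, ht⟩
  rw [← Finset.mul_sum, ← h4, Finset.sum_const, Finset.card_univ, smul_eq_mul, ← hA,
    Nat.card_coe_set_eq, Set.ncard_eq_toFinset_card'] at h5
  exact lt_irrefl _ h5

end Cfsg.Agent.H30.PcOrb
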