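import Cfsg.Agent.H58.Q4Defs
import Cfsg.Agent.S0892
import Cfsg.Agent.H5.Supersolvable
import Cfsg.Agent.H83.Base

/-! Project Q4, piece LIFT: lifting the alternating group of degree five. -/

set_option autoImplicit false
set_option linter.style.haveILetI false

namespace Cfsg.Agent.H30.Q4Lift

open Subgroup Equiv Cfsg.Agent.H58.Q4
open scoped commutatorElement IsMulCommutative

universe u

/-- A perfect group centralizes a normal `Z`-group. -/
theorem le_cent {M : Type u} [Group M] [Finite M] {K E : Subgroup M} [K.Normal] (hK : IsZGroup K)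
    (hE : ⁅E, E⁆ = E) : E ≤ centralizer (K : Set M) := by
  have hEM : E ≤ _root_.commutator M := hE.ge.trans (commutator_mono le_top le_top)
  haveI : IsCyclic (⁅K, K⁆ : Subgroup M) := by
    haveI := IsZGroup.isCyclic_commutator (G := K)
    rw [← map_subtype_commutator]
    exact isCyclic_of_surjective _ (K.subtype.subgroupMap_surjective _)
  have h1 : E ≤ centralizer ((⁅K, K⁆ : Subgroup M) : Set M) :=
    hEM.trans (H5.commutator_le_centralizer_of_isCyclic _)
  let π := QuotientGroup.mk' (⁅K, K⁆ : Subgroup M)
  haveI : (K.map π).Normal := Normal.map inferInstance π (QuotientGroup.mk'_surjective _)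
  haveI : IsZGroup (K.map π) := IsZGroup.of_surjective (π.subgroupMap_surjective K)
  haveI : IsMulCommutative (K.map π) := by
    rw [← le_centralizer_iff_isMulCommutative, ← commutator_eq_bot_iff_le_centralizer,
      ← map_commutator, Subgroup.map_eq_bot_iff, QuotientGroup.ker_mk']
  haveI : IsCyclic (K.map π) := inferInstance
  have h2 : ⁅E, K⁆ ≤ ⁅K, K⁆ := by
    have h3 : E.map π ≤ centralizer ((K.map π : Subgroup _) : Set _) := by
      refine le_trans ?_ (H5.commutator_le_centralizer_of_isCyclic (K.map π))
      rw [← hE, map_commutator]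
      exact commutator_mono le_top le_top
    rwa [← commutator_eq_bot_iff_le_centralizer, ← map_commutator, Subgroup.map_eq_bot_iff,
      QuotientGroup.ker_mk'] at h3
  have h4 : ⁅⁅E, K⁆, E⁆ = ⊥ := by
    rw [commutator_eq_bot_iff_le_centralizer]
    exact h2.trans (le_centralizer_iff.1 h1)
  rw [← commutator_eq_bot_iff_le_centralizer, ← hE]
  exact commutator_commutator_eq_bot_of_rotate h4 (by rwa [commutator_comm K E])

theorem lift : LiftStmt.{u} := by
  intro M _ _ ρ hr ho hz
  obtain ⟨E, hE, hmin⟩ := (wellFounded_lt (α := Subgroup M)).has_min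
    {E | E.map ρ = alternatingGroup (Fin 5)} ⟨⊤, by rwa [Set.mem_ofPred_eq, ← MonoidHom.range_eq_map]⟩
  replace hE : E.map ρ = alternatingGroup (Fin 5) := hE
  have hp : ⁅E, E⁆ = E := by
    by_contra hne
    refine hmin ⁅E, E⁆ ?_ (lt_of_le_of_ne (H83.comm_le_left le_normalizer) hne)
    rw [Set.mem_ofPred_eq, map_commutator, hE, commutator_alternatingGroup_eq_self (by simp)]
  have hc := le_cent hz hp
  refine ⟨E, ?_, by rw [← comap_map_eq, hE, ← hr, MonoidHom.range_eq_map, comap_map_eq, top_sup_eq],
    hc⟩
  let σ : E →* Perm (Fin 5) := ρ.comp E.subtype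
  have hσ : σ.range = alternatingGroup (Fin 5) := by
    rw [← hE, MonoidHom.range_comp, range_subtype]
  have h2 : Nat.card σ.ker ≤ 2 := by
    refine S0892.result 5 (by norm_num) (by norm_num) (by norm_num) σ.ker (fun z hz' => ?_) ?_
      ((QuotientGroup.quotientKerEquivRange σ).trans (MulEquiv.subgroupCongr hσ))
    · rw [mem_center_iff]
      exact fun g => Subtype.ext (hc g.2 z.1 hz').symm
    · have : _root_.commutator E = ⊤ := by
        apply map_injective E.subtype_injective
        rw [map_subtype_commutator, hp, ← MonoidHom.range_eq_map, range_subtype]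
      rw [this]; exact le_top
  have h3 : Nat.card σ.ker = Nat.card (E ⊓ ρ.ker : Subgroup M) := by
    rw [← card_map_of_injective E.subtype_injective (K := σ.ker), ← MonoidHom.comap_ker,
      map_comap_eq, range_subtype]
  have h4 : Odd (Nat.card (E ⊓ ρ.ker : Subgroup M)) := ho.of_dvd_nat (card_dvd_of_le inf_le_right)
  rw [h3] at h2
  obtain ⟨k, hk⟩ := h4
  exact card_eq_one.1 (by omega)

end Cfsg.Agent.H30.Q4Lift
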