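import Cfsg.Agent.H79.R3Defs

/-! Regular friendship graphs have degree at most two. -/

set_option autoImplicit false

namespace Cfsg.Agent.H30.R3Friend

open Finset Matrix Cfsg.Agent.H79.R3

universe u

theorem friend : FriendStmt.{u} := by
  intro P _ _ r d sy ir un reg h3
  classical
  let _ := Fintype.ofFinite P
  obtain ⟨p, hp, hd⟩ := Nat.exists_prime_and_dvd (n := d - 1) (by omega)
  have : Fact p.Prime := ⟨hp⟩
  have dmod : (d : ZMod p) = 1 := by
    have e : d = d - 1 + 1 := by omega
    rw [e, Nat.cast_add, (ZMod.natCast_eq_zero_iff _ _).2 hd]; simp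
  let A : Matrix P P (ZMod p) := of fun a b => if r a b then 1 else 0
  let J : Matrix P P (ZMod p) := of fun _ _ => 1
  have deg : ∀ a, ((univ.filter fun b => r a b).card : ZMod p) = 1 := by
    intro a
    rw [← dmod, ← reg a, ← Set.ncard_coe_finset]
    simp
  have AJ : A * J = J := by
    ext a b
    simp only [A, J, mul_apply, of_apply, mul_one, sum_boole, deg]
  have AA : A * A = J := by
    ext a b
    have e : ∀ c, (if r a c then (1 : ZMod p) else 0) * (if r c b then 1 else 0) =
        if r a c ∧ r b c then 1 else 0 := by
      intro c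
      by_cases h1 : r a c <;> by_cases h2 : r b c
      · simp [h1, h2, sy _ _ h2]
      · have : ¬ r c b := fun h => h2 (sy _ _ h)
        simp [h2, this]
      · simp [h1]
      · simp [h1]
    simp only [A, J, mul_apply, of_apply, e, sum_boole]
    by_cases hab : a = b
    · subst hab
      simpa using deg a
    · obtain ⟨c, hc, uc⟩ := un a b hab
      have : (univ.filter fun c => r a c ∧ r b c) = {c} := by
        ext x
        simp only [mem_filter, mem_univ, true_and, mem_singleton]
        exact ⟨uc x, fun h => h ▸ hc⟩
      rw [this]; simp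
  have JJ : J * J = J := by
    calc J * J = A * A * J := by rw [AA]
      _ = J := by rw [mul_assoc, AJ, AJ]
  have n1 : (Fintype.card P : ZMod p) = 1 := by
    obtain ⟨a⟩ := ‹Nonempty P›
    have := congrFun (congrFun JJ a) a
    simpa [J, mul_apply] using this
  have pw : ∀ k : ℕ, A ^ (k + 2) = J := by
    intro k
    induction k with
    | zero => rw [zero_add, pow_two, AA]
    | succ k ih => rw [add_right_comm, pow_succ', ih, AJ]
  have t := ZMod.trace_pow_card A
  obtain ⟨k, hk⟩ := Nat.exists_eq_add_of_le' hp.two_le
  have t0 : trace A = 0 := by simp [A, trace, ir]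
  have t1 : trace J = 1 := by simpa [J, trace] using n1
  have e : A ^ p = J := (congrArg (A ^ ·) hk).trans (pw k)
  rw [t0, zero_pow hp.ne_zero, e, t1] at t
  exact one_ne_zero t

end Cfsg.Agent.H30.R3Friend
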