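import Cfsg.Agent.H54.RfKitP

/-! # Standard subgroups of type `²F₄(q)`: the root elements of `F₄` on the sixteen rays -/

set_option autoImplicit false
set_option linter.unusedSimpArgs false
set_option linter.unnecessarySeqFocus false
set_option linter.unusedSectionVars false

namespace Cfsg.Agent.H30.RfOct

open Cfsg Cfsg.Agent.H15.O8 Cfsg.Agent.H39 Cfsg.Agent.H36.O8T Cfsg.Agent.H54.RF Subgroup
open scoped commutatorElement

universe u v

variable {K : Type*} [Field K] {G : Type*} [Group G]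

/-! ### All root elements lie in the base group -/

section Free

theorem cmem {H : Subgroup G} {a b : G} (ha : a ∈ H) (hb : b ∈ H) : ⁅a, b⁆ ∈ H :=
  mul_mem (mul_mem (mul_mem ha hb) (inv_mem ha)) (inv_mem hb)

theorem cancel_mem {H : Subgroup G} {a b c : G} (ha : a * c ∈ H) (hb : b * c ∈ H) : a * b⁻¹ ∈ H := by
  simpa [mul_assoc] using mul_mem ha (inv_mem hb)

/-- Separation of the two factors of a commutator `s (b a) * l (b a ^ 2)`. -/
theorem sep {H : Subgroup G} {s l : K → G} (two : (2 : K) = 0) {c : K} (c0 : c ≠ 0) (c1 : c ≠ 1)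
    (ls : ∀ a b, l (a + b) = l a * l b)
    (h : ∀ b a, s (b * a) * l (b * a ^ 2) ∈ H) : (∀ a, s a ∈ H) ∧ ∀ a, l a ∈ H := by
  have hc : c + 1 ≠ 0 := fun e => c1 (by linear_combination e - two)
  have k : ∀ a, l a ∈ H := fun a => by
    have h1 := h (a / (c + 1) / c) c
    have h2 := h (a / (c + 1)) 1
    rw [div_mul_cancel₀ _ c0] at h1
    rw [mul_one] at h2
    have h3 := mul_mem (inv_mem h2) h1
    have e : l (a / (c + 1) / c * c ^ 2) = l (a / (c + 1) * 1 ^ 2) * l a := by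
      rw [← ls]; congr 1; field_simp; linear_combination (-a) * two
    rwa [e, mul_inv_rev, mul_assoc, inv_mul_cancel_left, inv_mul_cancel_left] at h3
  exact ⟨fun a => by simpa using (mul_mem_cancel_right (k _)).1 (h a 1), k⟩

theorem all_mem {le lo se so : ZMod 8 → K → G} (o : Oct le lo se so) {c : K} (c0 : c ≠ 0)
    (c1 : c ≠ 1) (k : ZMod 8) (a : K) : le k a ∈ Base le lo se so ∧ lo k a ∈ Base le lo se so ∧
      se k a ∈ Base le lo se so ∧ so k a ∈ Base le lo se so := by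
  set H := Base le lo se so with hH
  have lo4 : ∀ a, lo 4 a ∈ H := fun a => subset_closure (by simp)
  have lo0 : ∀ a, lo 0 a ∈ H := fun a => subset_closure (by simp)
  have le7 : ∀ a, le 7 a ∈ H := fun a => subset_closure (by simp)
  have le3 : ∀ a, le 3 a ∈ H := fun a => subset_closure (by simp)
  have se2 : ∀ a, se 2 a ∈ H := fun a => subset_closure (by simp)
  have se6 : ∀ a, se 6 a ∈ H := fun a => subset_closure (by simp)
  have so4 : ∀ a, so 4 a ∈ H := fun a => subset_closure (by simp)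
  have so0 : ∀ a, so 0 a ∈ H := fun a => subset_closure (by simp)
  have le6 : ∀ a, le 6 a ∈ H := fun a => by
    have := o.l5d 7 a 1
    rw [mul_one] at this
    exact this ▸ cmem (le7 a) (lo4 1)
  have le2 : ∀ a, le 2 a ∈ H := fun a => by
    have := o.l5d 3 a 1
    rw [mul_one] at this
    exact this ▸ cmem (le3 a) (lo0 1)
  have se3 : ∀ a, se 3 a ∈ H := fun a => by
    have := o.s5u 2 a 1
    rw [mul_one] at this
    exact this ▸ cmem (se2 a) (so4 1)
  have se7 : ∀ a, se 7 a ∈ H := fun a => by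
    have := o.s5u 6 a 1
    rw [mul_one] at this
    exact this ▸ cmem (se6 a) (so0 1)
  obtain ⟨se0, le1⟩ := sep (H := H) (s := se 0) (l := le 1) o.two c0 c1 (o.ale 1) fun b a =>
    o.lsu 7 b a ▸ cmem (le7 b) (se2 a)
  obtain ⟨se4, le5⟩ := sep (H := H) (s := se 4) (l := le 5) o.two c0 c1 (o.ale 5) fun b a =>
    o.lsu 3 b a ▸ cmem (le3 b) (se6 a)
  obtain ⟨se1, le0⟩ := sep (H := H) (s := se 1) (l := le 0) o.two c0 c1 (o.ale 0) fun b a =>
    o.lsd 2 b a ▸ cmem (le2 b) (se7 a)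
  obtain ⟨se5, le4⟩ := sep (H := H) (s := se 5) (l := le 4) o.two c0 c1 (o.ale 4) fun b a =>
    o.lsd 6 b a ▸ cmem (le6 b) (se3 a)
  have hle : ∀ k a, le k a ∈ H := fun k => by
    fin_cases k
    exacts [le0, le1, le2, le3, le4, le5, le6, le7]
  have hse : ∀ k a, se k a ∈ H := fun k => by
    fin_cases k
    exacts [se0, se1, se2, se3, se4, se5, se6, se7]
  refine ⟨hle k a, ?_, hse k a, ?_⟩
  · have := o.l6 (k - 1) a 1
    rw [mul_one, sub_add_cancel] at this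
    exact this ▸ cmem (hle _ _) (hle _ _)
  · have := o.s6 (k - 1) a 1
    rw [mul_one, sub_add_cancel] at this
    exact this ▸ cmem (hse _ _) (hse _ _)

end Free

variable {T : Tits K}

/-! ### The frame is generated by the conjugates of `x₄` and `x₅` -/

theorem rot_mul (M : PF T G) (k : ℤ) (a b : G) : rot M k (a * b) = rot M k a * rot M k b := by
  simp only [rot]; group

set_option maxRecDepth 4000 in
theorem w46 (a u : K) : y4 T (T.θ a * u) * y6 T (a * u) =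
    x3 T (a * T.θ a * T.θ u) * x2 T (a * T.θ a * u) * x1 T a * x8 T u * x1 T a * x8 T u *
      x7 T (a * T.θ u) * x4 T (a ^ 2 * T.θ a * u * T.θ u) * x5 T (a * T.θ a * u ^ 2) := by
  ext <;> o8s <;> o8ring T

theorem y4_eq (s s' : K) : y4 T (s + s') = y4 T s * (y4 T s')⁻¹ * x4 T ((s + s') * T.θ s') := by
  ext <;> o8s <;> o8ring T

theorem gen_L [Finite K] (hq : 2 < Nat.card K) (M : FF T G) {H : Subgroup G}
    (h4 : ∀ k a, rot M.toPF k (M.φ (x4 T a)) ∈ H) (h5 : ∀ k a, rot M.toPF k (M.φ (x5 T a)) ∈ H) :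
    M.X ≤ H := by
  let S : Subgroup (U T) :=
    { carrier := {u | ∀ k, rot M.toPF k (M.φ u) ∈ H}
      one_mem' := fun k => by simp [rot]
      mul_mem' := fun ha hb k => by rw [map_mul, rot_mul]; exact mul_mem (ha k) (hb k)
      inv_mem' := fun {u} ha k => by
        have := inv_mem (ha k)
        simpa [rot, mul_assoc] using this }
  have up : ∀ {u v}, M.n1 * (M.n8 * M.φ u * M.n8) * M.n1 = M.φ v → (u ∈ S ↔ v ∈ S) := by
    intro u v e
    rw [← rot_one] at e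
    exact ⟨fun h k => by rw [← e, ← rot_add]; exact h _, fun h k => by
      have := h (k - 1)
      rwa [← e, ← rot_add, sub_add_cancel] at this⟩
  have m4 : ∀ a, x4 T a ∈ S := fun a k => h4 k a
  have m5 : ∀ a, x5 T a ∈ S := fun a k => h5 k a
  have m6 : ∀ a, x6 T a ∈ S := fun a => (up (by rw [n8_x4, n1_x4])).1 (m4 a)
  have m8 : ∀ a, x8 T a ∈ S := fun a => (up (by rw [n8_x6, n1_x2])).1 (m6 a)
  have m2 : ∀ a, x2 T a ∈ S := fun a => (up (by rw [n8_x2, n1_x6])).2 (m4 a)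
  have m7 : ∀ a, x7 T a ∈ S := fun a => (up (by rw [n8_x5, n1_x3])).1 (m5 a)
  have m3 : ∀ a, x3 T a ∈ S := fun a => (up (by rw [n8_x3, n1_x5])).2 (m5 a)
  have m1 : ∀ a, x1 T a ∈ S := fun a => (up (by rw [n8_x1, n1_x7])).2 (m3 a)
  have w : ∀ a u, y4 T (T.θ a * u) * y6 T (a * u) ∈ S := fun a u => by
    rw [w46]
    exact mul_mem (mul_mem (mul_mem (mul_mem (mul_mem (mul_mem (mul_mem (mul_mem (m3 _) (m2 _))
      (m1 _)) (m8 _)) (m1 _)) (m8 _)) (m7 _)) (m4 _)) (m5 _)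
  have k4 : ∀ a, y4 T a ∈ S := fun a => by
    obtain ⟨c, c0, c1⟩ := H92.UL.exists_ne hq
    have hc : T.θ c + c ≠ 0 := fun e => (H92.UL.scal (T := T) c0 c1).2.2.2.2.2 (by
      linear_combination e - c * T.two_eq_zero)
    have w1 : ∀ u, y4 T u * y6 T u ∈ S := fun u => by
      have := w 1 u
      rwa [show T.θ 1 * u = u by simp, show (1 : K) * u = u by simp] at this
    have := cancel_mem (w c (a / (T.θ c + c))) (w1 (c * (a / (T.θ c + c))))
    rw [show a = T.θ c * (a / (T.θ c + c)) + c * (a / (T.θ c + c)) by field_simp, y4_eq]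
    exact mul_mem this (m4 _)
  have k6 : ∀ a, y6 T a ∈ S := fun a => (up (by rw [n8_y4, n1_y4])).1 (k4 a)
  have k8 : ∀ a, y8 T a ∈ S := fun a => (up (by rw [n8_y6, n1_y2])).1 (k6 a)
  have k2 : ∀ a, y2 T a ∈ S := fun a => (up (by rw [n8_y2, n1_y6])).2 (k4 a)
  have all : ∀ u, u ∈ S := fun u => by
    rw [nf u]
    exact mul_mem (mul_mem (mul_mem (mul_mem (mul_mem (mul_mem (mul_mem (mul_mem (mul_mem (mul_mem
      (mul_mem (m1 _) (k2 _)) (m2 _)) (m3 _)) (k4 _)) (m4 _)) (m5 _)) (k6 _)) (m6 _)) (m7 _))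
      (k8 _)) (m8 _)
  have hU : ∀ u, M.φ u ∈ H := fun u => by simpa [rot_zero] using all u 0
  have h1 : M.n1 ∈ H := by
    rw [n1_eq M.toPF, ← r1_4]
    exact mul_mem (mul_mem (inv_mem (hU _)) (all _ 4)) (inv_mem (hU _))
  have hK : M.cf.C ≤ H := M.cf.gen H (fun _ ⟨u, e⟩ => e ▸ hU u) (by
    rintro _ ⟨_, ⟨u, rfl⟩, rfl⟩
    have := mul_mem (mul_mem h1 (all u 1)) h1
    rw [rot_one, conj_conj' M.n1n1] at this
    change M.n8 * M.φ u * M.n8⁻¹ ∈ H
    rwa [n8_inv])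
  exact gen_X M hK fun k hk => mul_mem (mul_mem h1 (hK hk)) h1

/-! ### The rotation -/

/-- Rotation by `2 k` rays. -/
def Rt (M : FF T G) (k : ZMod 8) : G ≃* G := MulAut.conj (rho M.toPF ^ (k.val : ℤ))

section Rot

variable (M : FF T G)

theorem Rt_rot (k : ZMod 8) (g : G) : Rt M k g = rot M.toPF k.val g := rfl

theorem Rt_int (n : ℤ) (g : G) : Rt M (n : ZMod 8) g = rot M.toPF n g :=
  rot_per M (by rw [ZMod.val_intCast]; push_cast; omega) g

theorem Rt_add (k j : ZMod 8) (g : G) : Rt M (k + j) g = Rt M k (Rt M j g) := by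
  rw [Rt_rot, Rt_rot, Rt_rot, ← rot_add]
  exact rot_per M (by rw [ZMod.val_add]; push_cast; omega) g

theorem Rt_zero (g : G) : Rt M 0 g = g := (Rt_int M 0 g).trans (rot_zero _ _)
theorem Rt_one (g : G) : Rt M 1 g = rot M.toPF 1 g := Rt_int M 1 g
theorem Rt_two (g : G) : Rt M 2 g = rot M.toPF 2 g := Rt_int M 2 g
theorem Rt_seven (g : G) : Rt M 7 g = rot M.toPF (-1) g :=
  (Rt_int M 7 g).trans (rot_per M (by norm_num) g)

theorem Rt_mem {H : Subgroup G} (hX : M.X ≤ H) (k : ZMod 8) {g : G} (hg : g ∈ H) : Rt M k g ∈ H :=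
  have : rho M.toPF ^ (k.val : ℤ) ∈ H := zpow_mem (hX (mul_mem (n1X M) (n8X M))) _
  mul_mem (mul_mem this hg) (inv_mem this)

variable {M}

theorem Rt_t {t : G} (c : Ctx M t) (k : ZMod 8) : Rt M k t = t :=
  conj_eq_iff.2 ((c.tn1.mul_left c.tn8).zpow_left _)

theorem Rt_tconj {t : G} (c : Ctx M t) (k : ZMod 8) (g : G) :
    t * Rt M k g * t = Rt M k (t * g * t) := by rw [map_mul, map_mul, Rt_t c]

/-- A commutation relation on all rays follows from the relation on one ray. -/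
theorem tr_comm {a b : G} (k0 j : ZMod 8) (h : Commute (Rt M k0 a) (Rt M (k0 + j) b))
    (k : ZMod 8) : Commute (Rt M k a) (Rt M (k + j) b) := by
  obtain ⟨k, rfl⟩ : ∃ k', k = k' + k0 := ⟨k - k0, (sub_add_cancel _ _).symm⟩
  rw [add_assoc, Rt_add M k, Rt_add M k]
  exact h.map (Rt M k)

theorem tr_one {a b c : G} (k0 j i : ZMod 8)
    (h : ⁅Rt M k0 a, Rt M (k0 + j) b⁆ = Rt M (k0 + i) c) (k : ZMod 8) :
    ⁅Rt M k a, Rt M (k + j) b⁆ = Rt M (k + i) c := by
  obtain ⟨k, rfl⟩ : ∃ k', k = k' + k0 := ⟨k - k0, (sub_add_cancel _ _).symm⟩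
  rw [add_assoc, add_assoc, Rt_add M k, Rt_add M k, Rt_add M k, ← h, map_commutatorElement]

theorem tr_two {a b c d : G} (k0 j i l : ZMod 8)
    (h : ⁅Rt M k0 a, Rt M (k0 + j) b⁆ = Rt M (k0 + i) c * Rt M (k0 + l) d) (k : ZMod 8) :
    ⁅Rt M k a, Rt M (k + j) b⁆ = Rt M (k + i) c * Rt M (k + l) d := by
  obtain ⟨k, rfl⟩ : ∃ k', k = k' + k0 := ⟨k - k0, (sub_add_cancel _ _).symm⟩
  rw [add_assoc, add_assoc, add_assoc, Rt_add M k, Rt_add M k, Rt_add M k, Rt_add M k, ← map_mul,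
    ← h, map_commutatorElement]

end Rot

/-! ### The relations -/

theorem swap_t {t a b : G} (tt : t * t = 1) (h : Commute a (t * b * t)) : Commute (t * a * t) b := by
  have := comm_conj' tt h
  rwa [conj_conj' tt] at this

theorem comm_mul (g h k : G) : ⁅g, h * k⁆ = ⁅g, h⁆ * (h * ⁅g, k⁆ * h⁻¹) := by
  simp only [commutatorElement_def]; group

theorem comm_of_act {g x y : G} (gg : g * g = 1) (e : x * g * x⁻¹ = g * y) : ⁅g, x⁆ = y := by
  rw [commutatorElement_def, inv_eq_of_mul_eq_one_right gg, mul_assoc, mul_assoc, ← mul_assoc x, e,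
    ← mul_assoc, gg, one_mul]

variable {M : FF T G} {t : G} {p r : K → G}

section Rel

variable (c : Ctx M t) (h : HR M t p r) (a1 : A1 M p r 1) (g : Gm M p r 1 0 0)

section
include h g

theorem g28 (a b : K) : ⁅P2 M p a, P8 M p b⁆ = r (a * b) := by
  have e : (1 + 1 : K) = 0 := add_self (T := T) 1
  have := g.g28 a b
  simp only [e, zero_mul, x4_zero, x5_zero, x6_zero, map_one, mul_one, h.f4.zero, one_mul,
    P6] at this
  rwa [M.n1n1, mul_one] at this

omit h in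
theorem g27 (a b : K) : ⁅P2 M p a, P7 M r b⁆ = p (a * b) := by
  simpa only [zero_mul, x4_zero, map_one, mul_one] using g.g27 a b

omit h in
theorem g38 (a b : K) : ⁅P8 M p a, P3 M r b⁆ = P6 M p (a * b) := by
  simpa only [zero_mul, x6_zero, map_one, mul_one] using HR.g38 g a b

end

include c h g

theorem m27 (a b : K) : Commute (P2 M p a) (t * P7 M r b * t) := by
  rw [(h.f7 c).tconj c, ← commutatorElement_eq_one_iff_commute, comm_mul, g27 g,
    comm_of_act ((h.f2 c).sq a) (h.x7P2 b a), conj_eq_iff.2 (h.c47 _ _).symm, mul_comm b, h.f4.sq]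

theorem m83 (a b : K) : Commute (P8 M p a) (t * P3 M r b * t) := by
  have := comm_conj' M.n1n1 (m27 c h g a b)
  rwa [conj_mul' M.n1n1, conj_mul' M.n1n1, conj_fix' M.n1n1 c.tn1.symm, n1_P7] at this

include a1

theorem l28 (a b : K) :
    ⁅P2 M p a, t * P8 M p b * t⁆ = t * p (T.θ a * b) * t * P6 M p (a * T.θ b) := by
  have e := a1.x8P2 b a
  rw [mul_assoc (P2 M p a), mul_assoc (P2 M p a), mul_assoc (P2 M p a), one_mul] at e
  have k : Commute (P8 M p b)
      (p (T.θ a * b) * M.φ (x4 T (T.θ a * b)) * r (a * b) * P6 M p (a * T.θ b)) :=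
    (((h.c48 _ _).symm.mul_right (h.cen8 _ (by o8s))).mul_right (h.c58 _ _).symm).mul_right
      (h.c68 _ _).symm
  have k2 : Commute (r (a * b)) (p (T.θ a * b) * M.φ (x4 T (T.θ a * b))) :=
    (h.c45 _ _).symm.mul_right (h.rcen _ _ (by o8s))
  rw [(h.f8 c).tconj c, comm_mul, g28 h g, comm_of_act ((h.f2 c).sq a) e, conj_eq_iff.2 k,
    h.f4.tconj c, ← mul_assoc, ← mul_assoc, k2.eq, mul_assoc _ (r _) (r _), h.f5.sq, mul_one]

theorem l82 (a b : K) :
    ⁅P8 M p a, t * P2 M p b * t⁆ = t * P6 M p (T.θ a * b) * t * p (a * T.θ b) := by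
  have := congrArg (fun x => M.n1 * x * M.n1) (l28 c h a1 g a b)
  simp only [conj_comm' M.n1n1, conj_mul' M.n1n1, conj_fix' M.n1n1 c.tn1.symm, n1_P2, n1_P8,
    n1_P6] at this
  exact this

end Rel

section Val

variable (h : HR M t p r)
include h

theorem p1 (a : K) : Rt M 1 (p a) = P6 M p a := (Rt_one M _).trans (h.rot6 a)
theorem p2 (a : K) : Rt M 2 (p a) = P8 M p a := (Rt_two M _).trans (h.rot8 a)
omit h in
theorem p7 (a : K) : Rt M 7 (p a) = P2 M p a := (Rt_seven M _).trans (H4.rot2 a)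
omit h in
theorem r1 (a : K) : Rt M 1 (r a) = P7 M r a := (Rt_one M _).trans (HR.rot7 a)
theorem r7 (a : K) : Rt M 7 (r a) = P3 M r a := (Rt_seven M _).trans (h.rot3' a)

end Val

section All

variable (c : Ctx M t) (h : HR M t p r) (a1 : A1 M p r 1) (g : Gm M p r 1 0 0)
include c h

theorem ee (k j : ZMod 8) (hj : j = 0 ∨ j = 1 ∨ j = 2) (a b : K) :
    Commute (Rt M k (p a)) (Rt M (k + j) (p b)) ∧
      Commute (Rt M k (p a)) (t * Rt M (k + j) (p b) * t) := by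
  rw [Rt_tconj c]
  refine ⟨tr_comm 7 j ?_ k, tr_comm 7 j ?_ k⟩
  · rcases hj with rfl | rfl | rfl
    · rw [add_zero, p7, p7]; exact (h.f2 c).comm a b
    · rw [show (7 + 1 : ZMod 8) = 0 from rfl, p7, Rt_zero]; exact h.c24 a b
    · rw [show (7 + 2 : ZMod 8) = 1 from rfl, p7, p1 h]; exact h.c26 a b
  · rw [← Rt_tconj c]
    rcases hj with rfl | rfl | rfl
    · rw [add_zero, p7, p7, (h.f2 c).tconj c]
      exact ((h.f2 c).comm a b).mul_right ((h.f2 c).cx a b)
    · rw [show (7 + 1 : ZMod 8) = 0 from rfl, p7, Rt_zero, h.f4.tconj c]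
      exact (h.c24 a b).mul_right (h.cen2 a (by o8s) rfl)
    · rw [show (7 + 2 : ZMod 8) = 1 from rfl, p7, p1 h, (h.f6 c).tconj c]
      exact (h.c26 a b).mul_right (h.cen2 a (by o8s) rfl)

theorem eo (k j : ZMod 8) (hj : j = -2 ∨ j = 1) (a b : K) :
    Commute (Rt M k (p a)) (Rt M (k + j) (r b)) ∧
      Commute (Rt M k (p a)) (t * Rt M (k + j) (r b) * t) := by
  rw [Rt_tconj c]
  rcases hj with rfl | rfl
  · refine ⟨tr_comm 1 _ ?_ k, tr_comm 1 _ ?_ k⟩
    · rw [show (1 + -2 : ZMod 8) = 7 from rfl, p1 h, r7 h]; exact (h.c36 b a).symm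
    · rw [← Rt_tconj c, show (1 + -2 : ZMod 8) = 7 from rfl, p1 h, r7 h, (h.f3 c).tconj c]
      exact (h.c36 b a).symm.mul_right (h.cen6 a rfl)
  · refine ⟨tr_comm 7 _ ?_ k, tr_comm 7 _ ?_ k⟩
    · rw [show (7 + 1 : ZMod 8) = 0 from rfl, p7, Rt_zero]; exact h.c25 a b
    · rw [← Rt_tconj c, show (7 + 1 : ZMod 8) = 0 from rfl, p7, Rt_zero, h.f5.tconj c]
      exact (h.c25 a b).mul_right (h.cen2 a (by o8s) rfl)

theorem oo (k : ZMod 8) (a b : K) : Commute (Rt M k (r a)) (t * Rt M k (r b) * t) := by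
  rw [Rt_tconj c, h.f5.tconj c]
  exact ((h.f5.comm a b).mul_right (h.f5.cx a b)).map (Rt M k)

include g

theorem mix (k j : ZMod 8) (hj : j = 2 ∨ j = -3) (a b : K) :
    Commute (Rt M k (p a)) (t * Rt M (k + j) (r b) * t) := by
  rw [Rt_tconj c]
  rcases hj with rfl | rfl
  · refine tr_comm 7 _ ?_ k
    rw [← Rt_tconj c, show (7 + 2 : ZMod 8) = 1 from rfl, p7, r1]; exact m27 c h g a b
  · refine tr_comm 2 _ ?_ k
    rw [← Rt_tconj c, show (2 + -3 : ZMod 8) = 7 from rfl, p2 h, r7 h]; exact m83 c h g a b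

omit c h in
theorem l5u (k : ZMod 8) (a b : K) :
    ⁅Rt M k (p a), Rt M (k + 2) (r b)⁆ = Rt M (k + 1) (p (a * b)) := by
  refine tr_one 7 _ _ ?_ k
  rw [show (7 + 2 : ZMod 8) = 1 from rfl, show (7 + 1 : ZMod 8) = 0 from rfl, p7, r1, Rt_zero,
    g27 g]

omit c in
theorem l5d (k : ZMod 8) (a b : K) :
    ⁅Rt M k (p a), Rt M (k - 3) (r b)⁆ = Rt M (k - 1) (p (a * b)) := by
  rw [sub_eq_add_neg, sub_eq_add_neg]
  refine tr_one 2 _ _ ?_ k
  rw [show (2 + -3 : ZMod 8) = 7 from rfl, show (2 + -1 : ZMod 8) = 1 from rfl, p2 h, r7 h, p1 h,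
    g38 g]

omit c in
theorem l6 (k : ZMod 8) (a b : K) :
    ⁅Rt M k (p a), Rt M (k + 3) (p b)⁆ = Rt M (k + 1) (r (a * b)) := by
  refine tr_one 7 _ _ ?_ k
  rw [show (7 + 3 : ZMod 8) = 2 from rfl, show (7 + 1 : ZMod 8) = 0 from rfl, p7, p2 h, Rt_zero,
    g28 h g]

include a1

theorem lsu (k : ZMod 8) (a b : K) : ⁅Rt M k (p a), t * Rt M (k + 3) (p b) * t⁆ =
    t * Rt M (k + 1) (p (T.θ a * b)) * t * Rt M (k + 2) (p (a * T.θ b)) := by
  rw [Rt_tconj c, Rt_tconj c]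
  refine tr_two 7 _ _ _ ?_ k
  rw [← Rt_tconj c, ← Rt_tconj c, show (7 + 3 : ZMod 8) = 2 from rfl,
    show (7 + 1 : ZMod 8) = 0 from rfl, show (7 + 2 : ZMod 8) = 1 from rfl, p7, p2 h, Rt_zero, p1 h,
    l28 c h a1 g]

theorem lsd (k : ZMod 8) (a b : K) : ⁅Rt M k (p a), t * Rt M (k - 3) (p b) * t⁆ =
    t * Rt M (k - 1) (p (T.θ a * b)) * t * Rt M (k - 2) (p (a * T.θ b)) := by
  rw [Rt_tconj c, Rt_tconj c, sub_eq_add_neg, sub_eq_add_neg, sub_eq_add_neg]
  refine tr_two 2 _ _ _ ?_ k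
  rw [← Rt_tconj c, ← Rt_tconj c, show (2 + -3 : ZMod 8) = 7 from rfl,
    show (2 + -1 : ZMod 8) = 1 from rfl, show (2 + -2 : ZMod 8) = 0 from rfl, p7, p2 h, Rt_zero,
    p1 h, l82 c h a1 g]

theorem oct_of (s : K ≃+* K) (hs : ∀ a, T.θ (s a) = a) :
    Oct (fun k b => Rt M k (p (s b))) (fun k b => Rt M k (r (s b)))
      (fun k a => t * Rt M k (p a) * t) (fun k a => t * Rt M k (r a) * t) where
  two := T.two_eq_zero
  ne := by
    rw [map_one, Rt_zero]
    intro e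
    have := h.mov 1
    rw [e, one_mul, inv_one, mul_one, left_eq_mul] at this
    exact x4_ne one_ne_zero (φ_eq_one M this)
  ale k a b := by rw [map_add, h.add, map_mul]
  alo k a b := by rw [map_add, h.radd, map_mul]
  ase k a b := by rw [h.add, map_mul, conj_mul' c.tt]
  aso k a b := by rw [h.radd, map_mul, conj_mul' c.tt]
  ee k j hj a b := ⟨(ee c h k j hj _ _).1, (ee c h k j hj _ _).2, swap_t c.tt (ee c h k j hj _ _).2,
    comm_conj' c.tt (ee c h k j hj _ _).1⟩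
  eo k j hj a b := ⟨(eo c h k j hj _ _).1, (eo c h k j hj _ _).2, swap_t c.tt (eo c h k j hj _ _).2,
    comm_conj' c.tt (eo c h k j hj _ _).1⟩
  oo k a b := oo c h k _ _
  mix k j hj a b := ⟨mix c h g k j hj _ _, swap_t c.tt (mix c h g k j hj _ _)⟩
  l5u k a b := by rw [l5u g, map_mul]
  l5d k a b := by rw [l5d h g, map_mul]
  s5u k a b := by rw [← conj_comm' c.tt, l5u g]
  s5d k a b := by rw [← conj_comm' c.tt, l5d h g]
  l6 k a b := by rw [l6 h g, map_mul]
  s6 k a b := by rw [← conj_comm' c.tt, l6 h g]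
  lsu k b a := by
    rw [lsu c h a1 g, hs, map_mul s, show s (a ^ 2) = T.θ a from T.θ_inj (by rw [hs, T.θθ])]
  lsd k b a := by
    rw [lsd c h a1 g, hs, map_mul s, show s (a ^ 2) = T.θ a from T.θ_inj (by rw [hs, T.θθ])]

end All

/-- **OCT** -/
theorem oct : OctStmt.{u, v} := by
  intro K _ _ T G _ _ M t c p r e h a1 he g
  subst he
  let s : K ≃+* K := (RingEquiv.ofBijective T.θ ⟨T.θ_inj, θ_surj⟩).symm
  have hs : ∀ a, T.θ (s a) = a := (RingEquiv.ofBijective T.θ ⟨T.θ_inj, θ_surj⟩).apply_symm_apply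
  have o := oct_of c.toCtx h a1 g s hs
  refine ⟨_, _, _, _, o, le_antisymm ?_ ?_⟩
  · have hX : M.X ≤ G0 M p := le_sup_left
    have hp : ∀ a, p a ∈ G0 M p := fun a => mem_sup_right (subset_closure ⟨a, rfl⟩)
    have hr : ∀ a, r a ∈ G0 M p := fun a => by
      have := g28 h g a 1
      rw [mul_one, ← p7, ← p2 h] at this
      exact this ▸ cmem (Rt_mem M hX _ (hp _)) (Rt_mem M hX _ (hp _))
    have kp : ∀ k a, t * Rt M k (p a) * t ∈ G0 M p := fun k a => by
      rw [Rt_tconj c.toCtx, h.f4.tconj c.toCtx]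
      exact Rt_mem M hX _ (mul_mem (hp _) (hX (φX M _)))
    have kr : ∀ k a, t * Rt M k (r a) * t ∈ G0 M p := fun k a => by
      rw [Rt_tconj c.toCtx, h.f5.tconj c.toCtx]
      exact Rt_mem M hX _ (mul_mem (hr _) (hX (φX M _)))
    refine (closure_le _).2 ?_
    rintro _ (((((((⟨a, rfl⟩ | ⟨a, rfl⟩) | ⟨a, rfl⟩) | ⟨a, rfl⟩) | ⟨a, rfl⟩) | ⟨a, rfl⟩) |
      ⟨a, rfl⟩) | ⟨a, rfl⟩)
    exacts [Rt_mem M hX _ (hr _), Rt_mem M hX _ (hr _), Rt_mem M hX _ (hp _), Rt_mem M hX _ (hp _),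
      kp _ _, kp _ _, kr _ _, kr _ _]
  · obtain ⟨d, d0, d1⟩ := H92.UL.exists_ne c.q2
    have am := all_mem o d0 d1
    have ss : ∀ a, s (T.θ a) = a := fun a => T.θ_inj (hs _)
    refine sup_le (gen_L c.q2 M (fun k a => ?_) fun k a => ?_) ((closure_le _).2 ?_)
    · have := mul_mem (am k (T.θ a)).1 (am k a).2.2.1
      rwa [ss, Rt_tconj c.toCtx, h.f4.tconj c.toCtx, ← map_mul, ← mul_assoc, h.f4.sq, one_mul,
        Rt_int] at this
    · have := mul_mem (am k (T.θ a)).2.1 (am k a).2.2.2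
      rwa [ss, Rt_tconj c.toCtx, h.f5.tconj c.toCtx, ← map_mul, ← mul_assoc, h.f5.sq, one_mul,
        Rt_int] at this
    · rintro _ ⟨a, rfl⟩
      have := (am 0 (T.θ a)).1
      rwa [ss, Rt_zero] at this

theorem eqns : True := by have := @Rt.eq_1.{0, 0}; trivial

end Cfsg.Agent.H30.RfOct
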