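import Cfsg.Agent.H74.RuDefs

/-! Torus elements that separate the first root from the roots of the Levi factor. -/

set_option autoImplicit false

namespace Cfsg.Agent.H30.RuC2

open Cfsg.Agent.H74.Ru

theorem mk {F V : Type} [Field F] [Fintype F] [AddCommGroup V] [Module F V] (S : Un F V)
    (e : Fin S.n → ℤ) (k : ℤ) (hs : ∑ i, e i = k * (S.q + 1)) (r : ℕ) (a b : Fin S.n)
    (h1 : e a - S.q * e a.rev = e b - S.q * e b.rev)
    (h2 : ¬ ((S.q : ℤ) + 1) * (S.q - 1) ∣
      (e S.i0 - S.q * e S.i0.rev - (e S.i1 - S.q * e S.i1.rev)) * r) :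
    ∃ t : S.Tor, t.1 a = t.1 b ∧ t.1 S.i0 ^ r ≠ t.1 S.i1 ^ r := by
  classical
  obtain ⟨z, hz⟩ := IsCyclic.exists_ofOrder_eq_natCard (α := Fˣ)
  have ho : (orderOf z : ℤ) = ((S.q : ℤ) + 1) * (S.q - 1) := by
    have : 1 ≤ S.q ^ 2 := Nat.one_le_pow _ _ (by have := S.hq; omega)
    rw [hz, Nat.card_units, Nat.card_eq_fintype_card, S.hF, Nat.cast_sub this]
    push_cast; ring
  have one : ∀ m : ℤ, z ^ m = 1 ↔ ((S.q : ℤ) + 1) * (S.q - 1) ∣ m := fun m => by
    rw [← ho, orderOf_dvd_iff_zpow_eq_one]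
  refine ⟨⟨fun i => z ^ (e i - S.q * e i.rev), fun i => ?_, ?_⟩, congrArg (z ^ ·) h1, fun h => ?_⟩
  · rw [S.hσ, ← Units.val_pow_eq_pow_val, ← Units.val_mul, ← zpow_natCast, ← zpow_mul, ← zpow_add,
      Fin.rev_rev, (one _).2 ⟨-e i.rev, by ring⟩, Units.val_one]
  · have : ∀ (s : Finset (Fin S.n)) (f : Fin S.n → ℤ), ∏ i ∈ s, z ^ f i = z ^ ∑ i ∈ s, f i :=
      fun s f => by
        induction s using Finset.induction_on with
        | empty => simp
        | insert i s hi ih => rw [Finset.prod_insert hi, Finset.sum_insert hi, ih, zpow_add]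
    rw [this, Finset.sum_sub_distrib, ← Finset.mul_sum,
      show ∑ i, e (Fin.rev i) = ∑ i, e i from Equiv.sum_comp Fin.revPerm e, hs]
    exact (one _).2 ⟨-k, by ring⟩
  · refine h2 ((one _).1 ?_)
    simp only [← zpow_natCast, ← zpow_mul] at h
    rw [sub_mul, zpow_sub, h, mul_inv_cancel]

theorem c2 : C2Stmt := by
  intro F V _ _ _ _ _ S r hr a b ha hab hb
  classical
  have hn := S.hn
  have hq := S.hq
  have lt : a.val < b.val := hab
  have v0 : S.i0.val = 0 := rfl
  have v1 : S.i1.val = 1 := rfl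
  have sv : ∀ (i j : Fin S.n) (c : ℤ), (Pi.single i c : Fin S.n → ℤ) j =
      if j.val = i.val then c else 0 := fun i j c => by
    simp only [Pi.single_apply, Fin.ext_iff]
  have nd : ∀ d : ℤ, d ≠ 0 → -3 ≤ d → d ≤ 3 → ¬ (S.q : ℤ) + 1 ∣ d := fun d h0 h1 h2 h => by
    have := Int.le_of_dvd (abs_pos.2 h0) ((dvd_abs _ _).2 h)
    have := abs_le.2 ⟨h1, h2⟩
    omega
  by_cases hrq : r = S.q - 1
  · have er : (r : ℤ) = S.q - 1 := by omega
    have q0 : (S.q : ℤ) - 1 ≠ 0 := by omega
    by_cases hc : a.val ≠ a.rev.val ∧ b.val ≠ b.rev.val ∧ b.val ≠ a.rev.val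
    · simp only [Fin.val_rev] at hc
      refine mk S (Pi.single a 1 + Pi.single b 1 - Pi.single S.i0 2) 0 (by
        simp [Finset.sum_add_distrib, Finset.sum_sub_distrib]) r a b ?_ ?_
      · simp (disch := omega) only [Pi.add_apply, Pi.sub_apply, sv, Fin.val_rev, v0, if_neg]
        omega
      · rw [er, mul_dvd_mul_iff_right q0]
        simp (disch := omega) only [Pi.add_apply, Pi.sub_apply, sv, Fin.val_rev, v0, v1, if_neg]
        intro h
        split_ifs at h <;> first
          | omega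
          | exact nd _ (by omega) (by omega) (by omega) h
          | exact nd _ (by omega) (by omega) (by omega) (dvd_sub h (dvd_refl _))
    · simp only [Fin.val_rev] at hc
      obtain ⟨j, hj, j1, j2, j3, j4⟩ : ∃ j : Fin S.n, (j.val = 1 ∨ j.val = 2) ∧ j.val ≠ a.val ∧
          j.val ≠ b.val ∧ j.val ≠ S.n - (a.val + 1) ∧ j.val ≠ S.n - (b.val + 1) := by
        by_cases h : 1 ≠ a.val ∧ 1 ≠ b.val ∧ 1 ≠ S.n - (a.val + 1) ∧ 1 ≠ S.n - (b.val + 1)
        · exact ⟨⟨1, by omega⟩, Or.inl rfl, h⟩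
        · exact ⟨⟨2, by omega⟩, Or.inr rfl, by simp only; omega⟩
      refine mk S (Pi.single S.i0 1 - Pi.single j 1) 0 (by
        simp [Finset.sum_sub_distrib]) r a b ?_ ?_
      · simp (disch := omega) only [Pi.sub_apply, sv, Fin.val_rev, v0, if_neg]
      · rw [er, mul_dvd_mul_iff_right q0]
        simp (disch := omega) only [Pi.sub_apply, sv, Fin.val_rev, v0, v1, if_neg]
        intro h
        split_ifs at h <;> first
          | omega
          | exact nd _ (by omega) (by omega) (by omega) h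
  · refine mk S (Pi.single S.i0 (S.q + 1)) 1 (by simp) r a b ?_ ?_
    · simp (disch := omega) only [sv, Fin.val_rev, v0, if_neg]
    · simp only [sv, Fin.val_rev, v0, v1]
      intro h
      rw [if_pos trivial, if_neg (by omega), if_neg (by omega), if_neg (by omega)] at h
      simp only [mul_zero, sub_zero] at h
      rw [mul_dvd_mul_iff_left (by omega), show (S.q : ℤ) - 1 = (S.q - 1 : ℕ) by omega,
        Int.natCast_dvd_natCast] at h
      rcases hr.eq_one_or_self_of_dvd _ h with h | h <;> omega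

end Cfsg.Agent.H30.RuC2
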