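import Cfsg.Agent.H58.SWDefs

/-! Project SW, piece PAR1U: the invariant flag in the unitary case. -/

set_option autoImplicit false
set_option linter.unusedVariables false
set_option linter.unusedSectionVars false
open Matrix Cfsg
open scoped commutatorElement

namespace Cfsg.Agent.H30.SwPar1U

open Cfsg.Agent.H58.SW

theorem fixed_rep {F V P : Type} [Field F] [AddCommGroup V] [Module F V] [Group P] {p : ℕ}
    [hp : Fact p.Prime] [CharP F p] [Finite V] [Nontrivial V]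
    (ρ : P →* Module.End F V) (hP : IsPGroup p P) : ∃ v : V, v ≠ 0 ∧ ∀ g, ρ g v = v := by
  letI : MulAction P V :=
    { smul := fun g v => ρ g v
      one_smul := fun v => by change ρ 1 v = v; simp
      mul_smul := fun g h v => by
        change ρ (g * h) v = ρ g (ρ h v); rw [map_mul]; rfl }
  have hV : p ∣ Nat.card V := by
    obtain ⟨v, hv⟩ := exists_ne (0 : V)
    have : addOrderOf v = p := by
      refine addOrderOf_eq_prime ?_ hv
      rw [← Nat.cast_smul_eq_nsmul F, CharP.cast_eq_zero, zero_smul]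
    rw [← this]
    exact addOrderOf_dvd_natCard v
  have h0 : (0 : V) ∈ MulAction.fixedPoints P V := fun g => by
    change ρ g 0 = 0; simp
  obtain ⟨v, hv, hne⟩ := hP.exists_fixed_point_of_prime_dvd_card_of_fixed_point V hV h0
  exact ⟨v, fun h => hne h.symm, fun g => hv g⟩

variable {F : Type} [Field F] [Fintype F] [DecidableEq F] {n : ℕ}

theorem mul_vec (x y : Gl n F) (v : Vc n F) :
    ((x * y : Gl n F) : Mt n F) *ᵥ v = (x : Mt n F) *ᵥ ((y : Mt n F) *ᵥ v) := by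
  rw [Units.val_mul, Matrix.mulVec_mulVec]

theorem inv_vec (x : Gl n F) (v : Vc n F) :
    ((x⁻¹ : Gl n F) : Mt n F) *ᵥ ((x : Mt n F) *ᵥ v) = v := by
  rw [← mul_vec, inv_mul_cancel, Units.val_one, Matrix.one_mulVec]

theorem vec_inv (x : Gl n F) (v : Vc n F) :
    (x : Mt n F) *ᵥ (((x⁻¹ : Gl n F) : Mt n F) *ᵥ v) = v := by
  rw [← mul_vec, mul_inv_cancel, Units.val_one, Matrix.one_mulVec]

/-- fixed vectors of a `p`-group modulo an invariant subspace -/
theorem fixed_mod (c : Cl F n) {P : Subgroup (Gl n F)} (hP : IsPGroup c.p P)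
    {U W : Submodule F (Vc n F)} (hU : ∀ g ∈ P, Stab g U) (hW : ∀ g ∈ P, Stab g W)
    (hWU : ¬ W ≤ U) : ∃ w ∈ W, w ∉ U ∧ ∀ g ∈ P, (g : Mt n F) *ᵥ w - w ∈ U := by
  haveI : Fact c.p.Prime := ⟨c.hp⟩
  haveI := c.chr
  let ρ : P →* Module.End F (W ⧸ U.comap W.subtype) :=
    { toFun := fun g => Submodule.mapQ _ _
        ((Matrix.mulVecLin ((g : Gl n F) : Mt n F)).restrict (hW g g.2)) fun x hx => hU g g.2 x hx
      map_one' := by
        refine LinearMap.ext fun v => ?_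
        obtain ⟨w, rfl⟩ := Submodule.mkQ_surjective _ v
        refine congrArg (Submodule.mkQ _) (Subtype.ext ?_)
        exact Matrix.one_mulVec _
      map_mul' := fun g h => by
        refine LinearMap.ext fun v => ?_
        obtain ⟨w, rfl⟩ := Submodule.mkQ_surjective _ v
        refine congrArg (Submodule.mkQ _) (Subtype.ext ?_)
        exact mul_vec _ _ _ }
  have : Nontrivial (W ⧸ U.comap W.subtype) := Submodule.Quotient.nontrivial_iff.mpr
    fun h => hWU (Submodule.comap_subtype_eq_top.mp h)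
  have : Finite (W ⧸ U.comap W.subtype) := Finite.of_surjective _ (Submodule.mkQ_surjective _)
  obtain ⟨v, hv, h1⟩ := fixed_rep ρ hP
  obtain ⟨w, rfl⟩ := Submodule.mkQ_surjective _ v
  exact ⟨w, w.2, fun h => hv ((Submodule.Quotient.mk_eq_zero _).mpr h),
    fun g hg => (Submodule.Quotient.eq (U.comap W.subtype)).mp (h1 ⟨g, hg⟩)⟩

/-- the stabiliser of a subspace -/
def stabG (W : Submodule F (Vc n F)) : Subgroup (Gl n F) where
  carrier := {x | ∀ v, v ∈ W ↔ (x : Mt n F) *ᵥ v ∈ W}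
  one_mem' := fun v => by rw [Units.val_one, Matrix.one_mulVec]
  mul_mem' := fun {x y} hx hy v => by rw [mul_vec, ← hx, ← hy]
  inv_mem' := fun {x} hx v => by rw [hx (((x⁻¹ : Gl n F) : Mt n F) *ᵥ v), vec_inv]

theorem mem_stabG {W : Submodule F (Vc n F)} {x : Gl n F} : x ∈ stabG W ↔ Stab x W := by
  refine ⟨fun h v hv => (h v).1 hv, fun h v => ⟨h v, fun hv => ?_⟩⟩
  let f : W → W := fun w => ⟨_, h w w.2⟩
  have hf : Function.Injective f := fun a b e => Subtype.ext (by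
    have := congrArg (fun w : W => ((x⁻¹ : Gl n F) : Mt n F) *ᵥ (w : Vc n F)) e
    simpa only [f, inv_vec] using this)
  obtain ⟨w, hw⟩ := Finite.surjective_of_injective hf ⟨_, hv⟩
  have := congrArg (fun w : W => ((x⁻¹ : Gl n F) : Mt n F) *ᵥ (w : Vc n F)) hw
  simp only [f, inv_vec] at this
  exact this ▸ w.2

theorem stab_inv {W : Submodule F (Vc n F)} {x : Gl n F} (h : Stab x W) : Stab x⁻¹ W :=
  mem_stabG.1 ((stabG W).inv_mem (mem_stabG.2 h))

/-- vectors fixed modulo `U` -/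
def fixM (P : Subgroup (Gl n F)) (U : Submodule F (Vc n F)) : Submodule F (Vc n F) where
  carrier := {v | ∀ g ∈ P, (g : Mt n F) *ᵥ v - v ∈ U}
  zero_mem' := fun g _ => by simp
  add_mem' := fun {a b} ha hb g hg => by
    have := U.add_mem (ha g hg) (hb g hg)
    rwa [Matrix.mulVec_add, add_sub_add_comm]
  smul_mem' := fun a v hv g hg => by
    have := U.smul_mem a (hv g hg)
    rwa [Matrix.mulVec_smul, ← smul_sub]

theorem stab_fixM {P : Subgroup (Gl n F)} {U : Submodule F (Vc n F)} {a : Gl n F}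
    (hP : ∀ x ∈ P, a⁻¹ * x * a ∈ P) (hU : Stab a U) : Stab a (fixM P U) := by
  intro v hv g hg
  have := hU _ (hv _ (hP g hg))
  rwa [Matrix.mulVec_sub, mul_vec, mul_vec, vec_inv] at this

theorem stab_inf {U W : Submodule F (Vc n F)} {a : Gl n F} (hU : Stab a U) (hW : Stab a W) :
    Stab a (U ⊓ W) := fun v hv => ⟨hU v hv.1, hW v hv.2⟩

section
variable {c : Cl F n} (ka : KA c) (hu : c.u = true)
include ka

/-- the orthogonal complement -/
def perp (W : Submodule F (Vc n F)) : Submodule F (Vc n F) where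
  carrier := {v | ∀ w ∈ W, c.hf v w = 0}
  zero_mem' := fun w _ => by
    have := ka.hf_smul 0 0 w
    rwa [zero_smul, zero_mul] at this
  add_mem' := fun {a b} ha hb w hw => by rw [ka.hf_add, ha w hw, hb w hw, add_zero]
  smul_mem' := fun a v hv w hw => by rw [ka.hf_smul, hv w hw, mul_zero]

theorem q_ne : c.q ≠ 0 := by have := ka.two_le; omega

theorem hf_sub (v v' w : Vc n F) : c.hf (v - v') w = c.hf v w - c.hf v' w := by
  rw [eq_sub_iff_add_eq, ← ka.hf_add, sub_add_cancel]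

include hu

theorem hf_sub' (v w w' : Vc n F) : c.hf v (w - w') = c.hf v w - c.hf v w' := by
  rw [eq_sub_iff_add_eq, ← ka.hf_add' hu, sub_add_cancel]

theorem hf_swap {v w : Vc n F} (h : c.hf v w = 0) : c.hf w v = 0 := by
  rw [ka.hf_symm hu, h, zero_pow (q_ne ka)]

theorem hf_adj {x : Gl n F} (hx : x ∈ c.St) (v w : Vc n F) :
    c.hf ((x : Mt n F) *ᵥ v) w = c.hf v (((x⁻¹ : Gl n F) : Mt n F) *ᵥ w) := by
  rw [ka.hf_adj hu]
  congr 2
  have h := (ka.mem_St x).1 hx hu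
  calc c.st x = c.st x * ((x : Mt n F) * ((x⁻¹ : Gl n F) : Mt n F)) := by
        rw [← Units.val_mul, mul_inv_cancel, Units.val_one, mul_one]
    _ = _ := by rw [← mul_assoc, h, one_mul]

theorem stab_perp {W : Submodule F (Vc n F)} {a : Gl n F} (ha : a ∈ c.St) (h : Stab a W) :
    Stab a (perp ka W) := fun v hv w hw => by
  rw [hf_adj ka hu ha]
  exact hv _ (stab_inv h w hw)

theorem hf_comm {x : Gl n F} (hx : x ∈ c.St) (v w : Vc n F) :
    c.hf ((x : Mt n F) *ᵥ v - v) w = c.hf v (((x⁻¹ : Gl n F) : Mt n F) *ᵥ w - w) := by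
  rw [hf_sub ka, hf_sub' ka hu, hf_adj ka hu hx]

/-- separation of a vector from a subspace -/
theorem sep {W : Submodule F (Vc n F)} {j : Vc n F} (hj : j ∉ W) :
    ∃ v, (∀ w ∈ W, c.hf w v = 0) ∧ c.hf j v ≠ 0 := by
  obtain ⟨f, h1, h2⟩ := Submodule.exists_dual_map_eq_bot_of_notMem hj inferInstance
  have key : ∀ w : Vc n F, c.hf w (fun i => f (Pi.single i 1) ^ c.q) = f w := fun w => by
    simp only [Cl.hf, hermForm, ka.fr_fr hu]
    rw [LinearMap.pi_apply_eq_sum_univ f w]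
    refine Finset.sum_congr rfl fun i _ => ?_
    rw [smul_eq_mul]
    congr 2
    ext k
    simp [Pi.single_apply, eq_comm]
  refine ⟨fun i => f (Pi.single i 1) ^ c.q, fun w hw => ?_, by rwa [key]⟩
  rw [key]
  exact (Submodule.mem_bot F).1 (h2 ▸ Submodule.mem_map_of_mem hw)

theorem tr_hf (w : Vc n F) : ∃ θ : F, θ + θ ^ c.q = c.hf w w := by
  obtain ⟨θ, hθ⟩ := ka.th hu
  refine ⟨θ * c.hf w w, ?_⟩
  rw [mul_pow, ← ka.hf_symm hu, ← add_mul, hθ, one_mul]

theorem neg_pow_q (a : F) : (-a) ^ c.q = -a ^ c.q := by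
  have := ka.fr_add hu (-a) a
  rw [neg_add_cancel, zero_pow (q_ne ka)] at this
  exact eq_neg_of_add_eq_zero_left this.symm

/-- an isotropic partner -/
theorem partner {j v : Vc n F} (hj : c.hf j j = 0) (hv : c.hf j v ≠ 0) :
    ∃ a : F, c.hf (v + a • j) (v + a • j) = 0 ∧ c.hf j (v + a • j) ≠ 0 := by
  obtain ⟨θ, hθ⟩ := tr_hf ka hu v
  refine ⟨-θ / c.hf j v, ?_, ?_⟩
  · rw [ka.hf_add, ka.hf_add' hu, ka.hf_add' hu, ka.hf_smul, ka.hf_smul, ka.hf_smul', ka.hf_smul',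
      hj, ka.hf_symm hu j v, ← mul_pow, div_mul_cancel₀ _ hv, neg_pow_q ka hu, ← hθ]
    ring
  · rw [ka.hf_add' hu, ka.hf_smul', hj, mul_zero, add_zero]
    exact hv

/-- a transvection along an isotropic vector -/
theorem tv (kv : KV c) {j : Vc n F} (hj : c.hf j j = 0) :
    ∃ g ∈ c.S, ∃ a : F, a ≠ 0 ∧ ∀ v, (g : Mt n F) *ᵥ v = v + (a * c.hf v j) • j := by
  obtain ⟨b, hb⟩ := ka.fr_ne hu
  have h1 : (b ^ c.q - b) ^ c.q = -(b ^ c.q - b) := by
    rw [sub_eq_add_neg, ka.fr_add hu, ka.fr_fr hu, neg_pow_q ka hu]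
    ring
  obtain ⟨g, hg, -, e⟩ := kv.tvU hu j _ hj h1
  refine ⟨g, hg, _, sub_ne_zero.2 hb, fun v => ?_⟩
  rw [e, Matrix.add_mulVec, Matrix.one_mulVec, Matrix.smul_mulVec, ka.vec_ap, smul_smul]

end

/-- invariance under the semilinear map -/
def AInv (t : Tau F n) (W : Submodule F (Vc n F)) : Prop := ∀ v, v ∈ W ↔ t.av v ∈ W

theorem par1U (hKA : KAStmt) (hKT : KTStmt) (hKV : KVStmt) : Par1UStmt := by
  intro F _ _ _ n c r H Q hL hu X hX hS hne hp
  have ka := hKA F n c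
  have kt := hKT F n c
  have kv := hKV F n c
  have hSt : ∀ x ∈ X, x ∈ c.St := fun x hx => (hS hx).1
  let W := fixM X (⊥ : Submodule F (Vc n F))
  let Y := W ⊓ perp ka W
  have hb : ∀ a : Gl n F, Stab a (⊥ : Submodule F (Vc n F)) := fun a v hv => by
    rw [(Submodule.mem_bot F).1 hv, Matrix.mulVec_zero]; exact Submodule.zero_mem _
  have hfix : ∀ {v}, v ∈ W ↔ ∀ x ∈ X, (x : Mt n F) *ᵥ v = v :=
    forall₂_congr fun x _ => by rw [Submodule.mem_bot, sub_eq_zero]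
  have hY : Y ≠ ⊥ := by
    have h1 : ¬ perp ka W ≤ ⊥ := fun h => hne (eq_bot_iff.2 fun x hx => ?_)
    · obtain ⟨w, h2, h3, h4⟩ := fixed_mod c hp (fun g _ => hb g) (fun g hg =>
        stab_perp ka hu (hSt g hg) fun v hv => by rw [hfix.1 hv g hg]; exact hv) h1
      exact fun e => h3 (e ▸ ⟨h4, h2⟩)
    · refine Subgroup.mem_bot.2 (Units.ext (Matrix.ext_of_mulVec_single fun i => ?_))
      rw [Units.val_one, Matrix.one_mulVec]
      refine sub_eq_zero.1 ((Submodule.mem_bot F).1 (h fun w hw => ?_))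
      rw [hf_comm ka hu (hSt x hx), hfix.1 hw _ (X.inv_mem hx), sub_self]
      exact hf_swap ka hu ((perp ka ⊤).zero_mem _ trivial)
  have hneg : ∀ t ψ, c.Ind t ψ → t.neg = false := fun t ψ h => by
    by_contra e
    have := (h.2.1 (by simpa using e)).1
    rw [hu] at this
    exact absurd this (by decide)
  have hap : ∀ t ψ, c.Ind t ψ → ∀ (x : Gl n F) v,
      ((ψ x : Gl n F) : Mt n F) *ᵥ t.av v = t.av ((x : Mt n F) *ᵥ v) := fun t ψ h x v => by
    rw [h.2.2 x, hneg t ψ h, ← kt.vec t (hneg t ψ h)]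
    rfl
  have hAp : ∀ t ψ, c.Ind t ψ → ∀ U, AInv t U → AInv t (perp ka U) := fun t ψ h U hU v => by
    constructor
    · intro hv w hw
      obtain ⟨w, rfl⟩ := (kt.av_bij t).2 w
      rw [kt.hf t ψ h hu, hv w ((hU w).2 hw), map_zero]
    · intro hv w hw
      have := hv _ ((hU w).1 hw)
      rwa [kt.hf t ψ h hu, map_eq_zero] at this
  have hAW : ∀ ψ ∈ H, ∀ t, c.Ind t ψ → AInv t W := fun ψ hψ t h v => by
    rw [hfix, hfix]
    constructor
    · intro hv x hx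
      have := hap t ψ h (ψ⁻¹ x) v
      rwa [hv _ (hX _ (H.inv_mem hψ) x hx), MulAut.apply_inv_self] at this
    · intro hv x hx
      exact (kt.av_bij t).1 ((hap t ψ h x v).symm.trans (hv _ (hX ψ hψ x hx)))
  have hAY : ∀ ψ ∈ H, ∀ t, c.Ind t ψ → AInv t Y := fun ψ hψ t h v =>
    and_congr (hAW ψ hψ t h v) (hAp t ψ h W (hAW ψ hψ t h) v)
  have hiso : ∀ y ∈ Y, ∀ w ∈ Y, c.hf y w = 0 := fun y hy w hw => hy.2 w hw.1
  obtain ⟨y, hy, hy0⟩ := (Submodule.ne_bot_iff Y).1 hY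
  obtain ⟨v, -, hv⟩ := sep ka hu (W := ⊥) (j := y) (by simpa using hy0)
  refine ⟨Y, perp ka Y, hY, fun e => hv (hf_swap ka hu ?_), hiso, fun a ha => ?_,
    fun s hs h1 _ => ?_, fun _ _ => Iff.rfl, fun e => ?_⟩
  · exact (e ▸ Submodule.mem_top : v ∈ perp ka Y) y hy
  · have h1 : Stab a W := stab_fixM (fun x hx => by
      simpa using kt.hatG H X hX a⁻¹ ((c.hat H).inv_mem ha) x hx) (hb a)
    have h2 : Stab a Y := stab_inf h1 (stab_perp ka hu ha.1 h1)
    exact ⟨h2, stab_perp ka hu ha.1 h2⟩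
  · refine hL.maxP (c.S ⊓ stabG Y) inf_le_left (fun ψ hψ x hx => ?_) (fun e => ?_)
      ⟨hs, mem_stabG.2 h1⟩
    · obtain ⟨t, ht⟩ := hL.std ψ hψ
      refine ⟨(kt.pres ψ ⟨t, ht⟩ x).2.1.2 hx.1, mem_stabG.2 fun w hw => ?_⟩
      obtain ⟨w, rfl⟩ := (kt.av_bij t).2 w
      rw [hap t ψ ht]
      exact (hAY ψ hψ t ht _).1 (mem_stabG.1 hx.2 w ((hAY ψ hψ t ht w).2 hw))
    · have h2 : c.S ≤ stabG Y := e.trans (sup_le inf_le_right fun z hz => mem_stabG.2 fun w hw => by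
        obtain ⟨a, -, e⟩ := (ka.mem_Z z).1 hz
        rw [e, Matrix.smul_mulVec, Matrix.one_mulVec]
        exact Y.smul_mem a hw)
      obtain ⟨a, h3, h4⟩ := partner ka hu (hiso y hy y hy) hv
      obtain ⟨g, hg, b, hb0, e⟩ := tv ka hu kv h3
      have h5 := mem_stabG.1 (h2 hg) y hy
      rw [e, Y.add_mem_iff_right hy, Y.smul_mem_iff (mul_ne_zero hb0 h4)] at h5
      exact h4 (hiso y hy _ h5)
  · rw [hu] at e
    exact absurd e (by decide)

theorem triU (hKA : KAStmt) (hKT : KTStmt) (hKV : KVStmt) (hP : PunStmt) : TriUStmt := by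
  intro F _ _ _ n c r H Q hL hr hu Y Y' hF x hx hxu
  have ka := hKA F n c
  have kt := hKT F n c
  have kv := hKV F n c
  by_cases h1 : x = 1
  · subst h1
    simp [Tri]
  have hZ : c.Z < Q := lt_of_le_of_ne hL.zq fun e => h1 (kv.uz x (e ▸ hx) hxu)
  obtain ⟨X, hX, hS, -, hp, hm⟩ := hP F n c r H Q hL hr Q hZ le_rfl hL.inv
  have hxX := (hm x).2 ⟨hx, hxu⟩
  have hSt : ∀ x ∈ X, x ∈ c.St := fun x hx => (hS hx).1
  have hH : ∀ x ∈ X, x ∈ c.hat H := fun x hx => hL.qh ((hm x).1 hx).1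
  have hN : ∀ a ∈ c.hat H, ∀ x ∈ X, a⁻¹ * x * a ∈ X := fun a ha x hx => by
    simpa using kt.hatG H X hX a⁻¹ ((c.hat H).inv_mem ha) x hx
  have hb : ∀ a : Gl n F, Stab a (⊥ : Submodule F (Vc n F)) := fun a v hv => by
    rw [(Submodule.mem_bot F).1 hv, Matrix.mulVec_zero]; exact Submodule.zero_mem _
  have hu' := hF.uni hu
  have hYY : ∀ v ∈ Y', ∀ y ∈ Y, c.hf v y = 0 := fun v hv => (hu' v).1 hv
  have A : ∀ y ∈ Y, y ∈ fixM X (⊥ : Submodule F (Vc n F)) := by
    intro y hy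
    obtain ⟨w0, h2, h3, h4⟩ := fixed_mod c hp (fun g _ => hb g)
      (fun g hg => (hF.st g (hH g hg)).1) (fun e => hF.nb (le_bot_iff.1 e))
    have h5 : w0 ∈ fixM X (⊥ : Submodule F (Vc n F)) := h4
    by_cases h6 : w0 ∈ Submodule.span F {y}
    · obtain ⟨a, rfl⟩ := Submodule.mem_span_singleton.1 h6
      exact (Submodule.smul_mem_iff _ fun e => h3 (by simp [e])).1 h5
    obtain ⟨w, h7, h8⟩ := sep ka hu h6
    obtain ⟨θ, hθ⟩ := tr_hf ka hu w
    obtain ⟨g, hg, -, e⟩ := kv.eich hu y w θ (hYY y (hF.le hy) y hy)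
      (h7 y (Submodule.mem_span_singleton_self y)) hθ
    have e' : ∀ v ∈ Y', (g : Mt n F) *ᵥ v = v + c.hf v w • y := fun v hv => by
      rw [e, Matrix.sub_mulVec, Matrix.sub_mulVec, Matrix.add_mulVec, Matrix.one_mulVec,
        Matrix.smul_mulVec, ka.vec_ap, ka.vec_ap, ka.vec_ap, hYY v hv y hy]
      simp
    have hgH : g ∈ c.hat H := hF.mem g hg
      (fun v hv => by rw [e' v (hF.le hv)]; exact Y.add_mem hv (Y.smul_mem _ hy))
      (fun v hv => by rw [e' v hv]; exact Y'.add_mem hv (Y'.smul_mem _ (hF.le hy)))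
    have h9 := stab_fixM (hN g hgH) (hb g) w0 h5
    rwa [e' w0 (hF.le h2), Submodule.add_mem_iff_right _ h5, Submodule.smul_mem_iff _ h8] at h9
  have A' : ∀ y ∈ Y, ∀ g ∈ X, (g : Mt n F) *ᵥ y = y := fun y hy g hg =>
    sub_eq_zero.1 ((Submodule.mem_bot F).1 (A y hy g hg))
  refine ⟨fun v hv => A' v hv x hxX, fun v hv => ?_, fun v => (hu' _).2 fun y hy => ?_⟩
  · by_contra hne
    let C := Y' ⊓ fixM X Y
    have sC : ∀ a ∈ c.hat H, Stab a C := fun a ha =>
      stab_inf (hF.st a ha).2 (stab_fixM (hN a ha) (hF.st a ha).1)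
    have h2 : (x : Mt n F) *ᵥ v - v ∈ Y' ⊓ perp ka C := by
      refine ⟨Y'.sub_mem ((hF.st x (hH x hxX)).2 v hv) hv, fun w hw => ?_⟩
      rw [hf_comm ka hu (hSt x hxX)]
      exact hYY v hv _ (hw.2 _ (X.inv_mem hxX))
    obtain ⟨j, h3, h4, h5⟩ := fixed_mod c hp (U := Y) (W := Y' ⊓ perp ka C)
      (fun g hg => (hF.st g (hH g hg)).1)
      (fun g hg => stab_inf (hF.st g (hH g hg)).2 (stab_perp ka hu (hSt g hg) (sC g (hH g hg))))
      (fun e => hne (e h2))
    have hjC : j ∈ C := ⟨h3.1, h5⟩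
    obtain ⟨w, h6, h7⟩ := sep ka hu h4
    have hw : w ∈ Y' := (hu' w).2 fun y hy => hf_swap ka hu (h6 y hy)
    obtain ⟨a, h8, h9⟩ := partner ka hu (h3.2 j hjC) h7
    have hj' : w + a • j ∈ Y' := Y'.add_mem hw (Y'.smul_mem a h3.1)
    obtain ⟨g, hg, b, hb0, e⟩ := tv ka hu kv h8
    have hgH : g ∈ c.hat H := hF.mem g hg
      (fun y hy => by
        rw [e, hf_swap ka hu (hYY _ hj' y hy), mul_zero, zero_smul, add_zero]; exact hy)
      (fun y hy => by rw [e]; exact Y'.add_mem hy (Y'.smul_mem _ hj'))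
    have h10 := sC g hgH j hjC
    rw [e, C.add_mem_iff_right hjC, C.smul_mem_iff (mul_ne_zero hb0 h9)] at h10
    exact h9 (h3.2 _ h10)
  · rw [hf_comm ka hu (hSt x hxX), A' y hy _ (X.inv_mem hxX), sub_self]
    exact hf_swap ka hu ((perp ka ⊤).zero_mem _ trivial)

end Cfsg.Agent.H30.SwPar1U
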